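import Mathlib
import Cfsg.Prelude.Def_PLocal
import Cfsg.Agent.H84.PCore
import Cfsg.Agent.Lib.Helper10.Timmesfeld
import Cfsg.Agent.Lib.Helper76.SylowTools

/-!
# Abelian subgroups of maximal order and the `p`-th powers of the centre of a Sylow subgroup

Let `G` be a finite group with `C_G(O_p(G)) ≤ O_p(G)`, `T` a Sylow `p`-subgroup, `W` the normal
closure of `Z(T)` and `W₁` the subgroup generated by the `p`-th powers of `W`.  If
`C_T(W₁) ≤ O_p(G)`, then every abelian subgroup of `T` of maximal order lies in `O_p(G)`.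
-/

set_option autoImplicit false

namespace Cfsg.Agent.Lib.Helper10.AgemoA

open scoped commutatorElement
open Cfsg

variable {G : Type*} [Group G]

/-- Quadratic action: the conjugates of `w` by the powers of `a`. -/
theorem quad_pow (_W : Subgroup G) (a w : G)
    (hc : a * (w⁻¹ * (a * w * a⁻¹)) = (w⁻¹ * (a * w * a⁻¹)) * a) (j : ℕ) :
    a ^ j * w * (a ^ j)⁻¹ = w * (w⁻¹ * (a * w * a⁻¹)) ^ j := by
  have hgc : a * (w⁻¹ * (a * w * a⁻¹)) * a⁻¹ = w⁻¹ * (a * w * a⁻¹) := by
    rw [hc]
    group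
  induction j with
  | zero => simp
  | succ j ihj =>
    have e1 : a ^ (j + 1) * w * (a ^ (j + 1))⁻¹ = a * (a ^ j * w * (a ^ j)⁻¹) * a⁻¹ := by
      rw [pow_succ']
      group
    rw [e1, ihj]
    have e2 : a * (w * (w⁻¹ * (a * w * a⁻¹)) ^ j) * a⁻¹ =
        (a * w * a⁻¹) * (a * (w⁻¹ * (a * w * a⁻¹)) * a⁻¹) ^ j := by
      rw [conj_pow]
      group
    rw [e2, hgc, pow_succ']
    calc a * w * a⁻¹ * (w⁻¹ * (a * w * a⁻¹)) ^ j
        = (w * (w⁻¹ * (a * w * a⁻¹))) * (w⁻¹ * (a * w * a⁻¹)) ^ j := by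
          congr 1
          group
      _ = w * ((w⁻¹ * (a * w * a⁻¹)) * (w⁻¹ * (a * w * a⁻¹)) ^ j) := by rw [mul_assoc]

/-- An element of order prime to `p` normalizing the abelian `p`-group `W` and centralizing its
elements of order `p` centralizes `W`. -/
theorem coprime_central {p : ℕ} [Fact p.Prime] (W : Subgroup G)
    (hWc : ∀ x ∈ W, ∀ y ∈ W, x * y = y * x) (hWp : IsPGroup p W)
    (g : G) (hgW : ∀ w ∈ W, g * w * g⁻¹ ∈ W) (m : ℕ) (hm : g ^ m = 1) (hmp : m.Coprime p)
    (hg1 : ∀ w ∈ W, w ^ p = 1 → g * w * g⁻¹ = w) :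
    ∀ w ∈ W, g * w * g⁻¹ = w := by
  have key : ∀ k : ℕ, ∀ w ∈ W, w ^ (p ^ k) = 1 → g * w * g⁻¹ = w := by
    intro k
    induction k with
    | zero =>
      intro w _ hw1
      rw [pow_zero, pow_one] at hw1
      rw [hw1]
      group
    | succ k ih =>
      intro w hw hw1
      have hwp : g * w ^ p * g⁻¹ = w ^ p := by
        apply ih (w ^ p) (W.pow_mem hw p)
        rw [← pow_mul, ← pow_succ']
        exact hw1
      have hgw : g * w * g⁻¹ ∈ W := hgW w hw
      have hcW : w⁻¹ * (g * w * g⁻¹) ∈ W := W.mul_mem (W.inv_mem hw) hgw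
      have hcomm : Commute w⁻¹ (g * w * g⁻¹) := hWc _ (W.inv_mem hw) _ hgw
      have hcp : (w⁻¹ * (g * w * g⁻¹)) ^ p = 1 := by
        rw [hcomm.mul_pow, inv_pow]
        have e : (g * w * g⁻¹) ^ p = g * w ^ p * g⁻¹ := by
          rw [conj_pow]
        rw [e, hwp]
        group
      have hgc : g * (w⁻¹ * (g * w * g⁻¹)) * g⁻¹ = w⁻¹ * (g * w * g⁻¹) := hg1 _ hcW hcp
      have hj : ∀ j : ℕ, g ^ j * w * (g ^ j)⁻¹ = w * (w⁻¹ * (g * w * g⁻¹)) ^ j := by
        intro j
        apply quad_pow W g w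
        calc g * (w⁻¹ * (g * w * g⁻¹)) = (g * (w⁻¹ * (g * w * g⁻¹)) * g⁻¹) * g := by group
          _ = (w⁻¹ * (g * w * g⁻¹)) * g := by rw [hgc]
      have h1 := hj m
      rw [hm] at h1
      have h2 : (w⁻¹ * (g * w * g⁻¹)) ^ m = 1 := by
        have : w = w * (w⁻¹ * (g * w * g⁻¹)) ^ m := by simpa using h1
        exact (mul_eq_left.mp this.symm)
      have h3 : (w⁻¹ * (g * w * g⁻¹)) ^ (m.gcd p) = 1 := pow_gcd_eq_one.mpr ⟨h2, hcp⟩
      rw [Nat.Coprime] at hmp
      rw [hmp, pow_one] at h3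
      calc g * w * g⁻¹ = w * (w⁻¹ * (g * w * g⁻¹)) := by group
        _ = w := by rw [h3, mul_one]
  intro w hw
  obtain ⟨k, hk⟩ := hWp ⟨w, hw⟩
  apply key k w hw
  have := congrArg (fun t : W => (t : G)) hk
  simpa using this

/-- The `p`-th power of the commutator, for an abelian normalized `W`. -/
theorem comm_pow (W : Subgroup G) (hWc : ∀ x ∈ W, ∀ y ∈ W, x * y = y * x) (a w : G)
    (hw : w ∈ W) (haw : a * w * a⁻¹ ∈ W) (n : ℕ) :
    (w⁻¹ * (a * w * a⁻¹)) ^ n = (w ^ n)⁻¹ * (a * w ^ n * a⁻¹) := by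
  have hcomm : Commute w⁻¹ (a * w * a⁻¹) := hWc _ (W.inv_mem hw) _ haw
  rw [hcomm.mul_pow, inv_pow, conj_pow]

theorem powerClosure_le {p n : ℕ} (W : Subgroup G) : powerClosure p n W ≤ W := by
  unfold powerClosure
  rw [Subgroup.closure_le]
  rintro y ⟨x, hx, rfl⟩
  exact W.pow_mem hx _

theorem powerClosure_mono {p n : ℕ} {H K : Subgroup G} (h : H ≤ K) :
    powerClosure p n H ≤ powerClosure p n K := by
  unfold powerClosure
  apply Subgroup.closure_mono
  rintro y ⟨x, hx, rfl⟩
  exact ⟨x, h hx, rfl⟩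

theorem powerClosure_normal {p n : ℕ} (W : Subgroup G) [hW : W.Normal] :
    (powerClosure p n W).Normal := by
  constructor
  intro x hx g
  unfold powerClosure at hx ⊢
  induction hx using Subgroup.closure_induction with
  | mem y hy =>
    obtain ⟨w, hw, rfl⟩ := hy
    apply Subgroup.subset_closure
    refine ⟨g * w * g⁻¹, hW.conj_mem w hw g, ?_⟩
    rw [conj_pow]
  | one => simp
  | mul y z _ _ hy hz =>
    have : g * (y * z) * g⁻¹ = (g * y * g⁻¹) * (g * z * g⁻¹) := by group
    rw [this]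
    exact Subgroup.mul_mem _ hy hz
  | inv y _ hy =>
    have : g * y⁻¹ * g⁻¹ = (g * y * g⁻¹)⁻¹ := by group
    rw [this]
    exact Subgroup.inv_mem _ hy

/-- If `L / C` is a `p`-group then `L = (T ∩ L) C`. -/
theorem le_sylow_inf_sup [Finite G] {p : ℕ} [Fact p.Prime] (S : Sylow p G) (C : Subgroup G)
    (L : Subgroup G) [L.Normal]
    (hLC : ∀ x ∈ L, ∃ k : ℕ, x ^ (p ^ k) ∈ C)
    (hCn : ∀ c ∈ C, ∀ g ∈ L, g * c * g⁻¹ ∈ C) :
    L ≤ ((S : Subgroup G) ⊓ L) ⊔ C := by
  have hp : p.Prime := Fact.out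
  have hsyl := Cfsg.Agent.Lib.Helper76.SylowTools.isSylowIn_inf_normal S L
  let R : Sylow p L := (hsyl.2.1.comap_subtype (K := L)).toSylow hsyl.2.2
  have hR : (R : Subgroup L) = ((S : Subgroup G) ⊓ L).subgroupOf L := rfl
  have hRmap : (R : Subgroup L).map L.subtype = (S : Subgroup G) ⊓ L := by
    rw [hR, Subgroup.subgroupOf_map_subtype, inf_assoc, inf_idem]
  set C' := C.subgroupOf L with hC'
  have hC'n : C'.Normal := by
    constructor
    intro n hn g
    rw [hC', Subgroup.mem_subgroupOf] at hn ⊢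
    exact hCn _ hn _ g.2
  have hquot : IsPGroup p (L ⧸ C') := by
    intro q
    induction q using QuotientGroup.induction_on with
    | H x =>
      obtain ⟨k, hk⟩ := hLC x x.2
      refine ⟨k, ?_⟩
      rw [← QuotientGroup.mk_pow, QuotientGroup.eq_one_iff, hC', Subgroup.mem_subgroupOf]
      simpa using hk
  obtain ⟨n, hn⟩ := IsPGroup.iff_card.mp hquot
  have hidx : C'.index = p ^ n := by
    rw [← hn]; rfl
  have hH : (R : Subgroup L) ⊔ C' = ⊤ := by
    rw [← Subgroup.index_eq_one]
    have hd1 : ((R : Subgroup L) ⊔ C').index ∣ (R : Subgroup L).index :=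
      Subgroup.index_dvd_of_le le_sup_left
    have hd2 : ((R : Subgroup L) ⊔ C').index ∣ p ^ n := by
      rw [← hidx]; exact Subgroup.index_dvd_of_le le_sup_right
    obtain ⟨m, -, hm⟩ := (Nat.dvd_prime_pow hp).mp hd2
    rcases Nat.eq_zero_or_pos m with h0 | hpos
    · rw [hm, h0, pow_zero]
    · exfalso
      apply R.not_dvd_index
      refine Dvd.dvd.trans ?_ hd1
      rw [hm]
      exact dvd_pow_self p (Nat.pos_iff_ne_zero.mp hpos)
  have h2 : ((R : Subgroup L) ⊔ C').map L.subtype = L := by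
    rw [hH, ← MonoidHom.range_eq_map, Subgroup.range_subtype]
  rw [Subgroup.map_sup, hRmap, hC', Subgroup.subgroupOf_map_subtype] at h2
  calc L = ((S : Subgroup G) ⊓ L) ⊔ (C ⊓ L) := h2.symm
    _ ≤ ((S : Subgroup G) ⊓ L) ⊔ C := sup_le_sup_left inf_le_left _

/-- The centralizer of a conjugation-invariant set is normal. -/
theorem centralizer_normal_of_conj (s : Set G) (hs : ∀ w ∈ s, ∀ g : G, g * w * g⁻¹ ∈ s) :
    (Subgroup.centralizer s).Normal := by
  constructor
  intro h hh g
  rw [Subgroup.mem_centralizer_iff] at hh ⊢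
  intro w hw
  have h0 : g⁻¹ * w * g ∈ s := by
    have := hs w hw g⁻¹
    rwa [inv_inv] at this
  have h1 := hh (g⁻¹ * w * g) h0
  calc w * (g * h * g⁻¹) = g * ((g⁻¹ * w * g) * h) * g⁻¹ := by group
    _ = g * (h * (g⁻¹ * w * g)) * g⁻¹ := by rw [h1]
    _ = g * h * g⁻¹ * w := by group

/-- **Main group-theoretic step.**  In a group of characteristic `p`, with `W` the normal closure
of the centre of the Sylow `p`-subgroup `T`: if `C_T(℧¹(W)) ≤ O_p(G)` then every abelian subgroup
of `T` of maximal order lies in `O_p(G)`. -/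
theorem thmA [Finite G] {p : ℕ} [Fact p.Prime] (T : Sylow p G)
    (hchar : Subgroup.centralizer ((pCore p G : Subgroup G) : Set G) ≤ pCore p G)
    (W : Subgroup G)
    (hW : W = Subgroup.normalClosure
      (((T : Subgroup G) ⊓ Subgroup.centralizer ((T : Subgroup G) : Set G) : Subgroup G) : Set G))
    (hT1 : (T : Subgroup G) ⊓ Subgroup.centralizer ((powerClosure p 1 W : Subgroup G) : Set G) ≤
      pCore p G)
    (A : Subgroup G) (hAT : A ≤ T) (hAc : ∀ x ∈ A, ∀ y ∈ A, x * y = y * x)
    (hAmax : ∀ B : Subgroup G, B ≤ T → (∀ x ∈ B, ∀ y ∈ B, x * y = y * x) →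
      Nat.card B ≤ Nat.card A) :
    A ≤ pCore p G := by
  have hp : p.Prime := Fact.out
  have hQn : (pCore p G).Normal := Cfsg.Agent.H84.pCore_normal p
  have hQp : IsPGroup p (pCore p G) := Cfsg.Agent.H84.pCore_isPGroup p
  have hTp : IsPGroup p (T : Subgroup G) := T.isPGroup'
  have hQT : pCore p G ≤ T := by
    have h1 : IsPGroup p ((T : Subgroup G) ⊔ pCore p G : Subgroup G) :=
      IsPGroup.to_sup_of_normal_right hTp hQp
    have h2 := T.is_maximal' h1 le_sup_left
    calc pCore p G ≤ (T : Subgroup G) ⊔ pCore p G := le_sup_right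
      _ = T := h2
  have hZcQ : (T : Subgroup G) ⊓ Subgroup.centralizer ((T : Subgroup G) : Set G) ≤
      Subgroup.centralizer ((pCore p G : Subgroup G) : Set G) :=
    inf_le_right.trans (Subgroup.centralizer_le hQT)
  have hCQn : (Subgroup.centralizer ((pCore p G : Subgroup G) : Set G)).Normal :=
    Subgroup.normal_centralizer
  have hZQn : (pCore p G ⊓ Subgroup.centralizer ((pCore p G : Subgroup G) : Set G)).Normal :=
    Subgroup.normal_inf_normal _ _
  have hWle : W ≤ pCore p G ⊓ Subgroup.centralizer ((pCore p G : Subgroup G) : Set G) := by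
    rw [hW]
    exact Subgroup.normalClosure_le_normal (fun z hz => ⟨hchar (hZcQ hz), hZcQ hz⟩)
  have hWn : W.Normal := by rw [hW]; infer_instance
  have hWQ : W ≤ pCore p G := hWle.trans inf_le_left
  have hWT : W ≤ T := hWQ.trans hQT
  have hWc : ∀ x ∈ W, ∀ y ∈ W, x * y = y * x := fun x hx y hy =>
    (Subgroup.mem_centralizer_iff.mp (hWle hy).2) x (hWle hx).1
  have hQcW : pCore p G ≤ Subgroup.centralizer (W : Set G) := by
    intro q hq
    rw [Subgroup.mem_centralizer_iff]
    intro w hw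
    exact ((Subgroup.mem_centralizer_iff.mp (hWle hw).2) q hq).symm
  have hWp : IsPGroup p W := hQp.to_le hWQ
  have hZW : (T : Subgroup G) ⊓ Subgroup.centralizer ((T : Subgroup G) : Set G) ≤ W := by
    rw [hW]; exact Subgroup.le_normalClosure
  have hW1W : powerClosure p 1 W ≤ W := powerClosure_le W
  have hAp : IsPGroup p A := hTp.to_le hAT
  have hnormW : Subgroup.normalizer (W : Set G) = ⊤ := Subgroup.normalizer_eq_top_iff.mpr hWn
  have hAN : A ≤ Subgroup.normalizer (W : Set G) := by rw [hnormW]; exact le_top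
  have hAcent : A ≤ Subgroup.centralizer (A : Set G) := by
    intro a ha
    rw [Subgroup.mem_centralizer_iff]
    intro b hb
    exact hAc b hb a ha
  have hAA : ⁅A, A⁆ ≤ Subgroup.centralizer (W : Set G) := by
    have : ⁅A, A⁆ = ⊥ := Subgroup.commutator_eq_bot_iff_le_centralizer.mpr hAcent
    rw [this]; exact bot_le
  -- `A` is a best offender on `W`
  have hbest : ∀ B : Subgroup G, B ≤ A →
      Nat.card B * Nat.card ↥(W ⊓ Subgroup.centralizer (B : Set G)) ≤
        Nat.card A * Nat.card ↥(W ⊓ Subgroup.centralizer (A : Set G)) := by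
    intro B hBA
    have h1 := Cfsg.Agent.Lib.Helper10.Thompson.card_mul_card_le B
      (W ⊓ Subgroup.centralizer (B : Set G))
    have hDT : B ⊔ (W ⊓ Subgroup.centralizer (B : Set G)) ≤ T :=
      sup_le (hBA.trans hAT) (inf_le_left.trans hWT)
    have hDc : ∀ x ∈ B ⊔ (W ⊓ Subgroup.centralizer (B : Set G)),
        ∀ y ∈ B ⊔ (W ⊓ Subgroup.centralizer (B : Set G)), x * y = y * x := by
      have hb : ∀ b ∈ B, B ⊔ (W ⊓ Subgroup.centralizer (B : Set G)) ≤
          Subgroup.centralizer ({b} : Set G) := by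
        intro b hb
        apply sup_le
        · intro x hx
          rw [Subgroup.mem_centralizer_iff]
          intro h hh
          rw [Set.mem_singleton_iff.mp hh]
          exact hAc _ (hBA hb) x (hBA hx)
        · intro x hx
          rw [Subgroup.mem_centralizer_iff]
          intro h hh
          rw [Set.mem_singleton_iff.mp hh]
          exact (Subgroup.mem_centralizer_iff.mp hx.2) b hb
      have hc : ∀ c ∈ W ⊓ Subgroup.centralizer (B : Set G),
          B ⊔ (W ⊓ Subgroup.centralizer (B : Set G)) ≤ Subgroup.centralizer ({c} : Set G) := by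
        intro c hc
        apply sup_le
        · intro x hx
          rw [Subgroup.mem_centralizer_iff]
          intro h hh
          rw [Set.mem_singleton_iff.mp hh]
          exact ((Subgroup.mem_centralizer_iff.mp hc.2) x hx).symm
        · intro x hx
          rw [Subgroup.mem_centralizer_iff]
          intro h hh
          rw [Set.mem_singleton_iff.mp hh]
          exact hWc c hc.1 x hx.1
      have hK : B ⊔ (W ⊓ Subgroup.centralizer (B : Set G)) ≤ Subgroup.centralizer
          ((B ⊔ (W ⊓ Subgroup.centralizer (B : Set G)) : Subgroup G) : Set G) := by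
        apply sup_le
        · intro b hb'
          rw [Subgroup.mem_centralizer_iff]
          intro d hd
          exact ((Subgroup.mem_centralizer_iff.mp (hb b hb' hd)) b rfl).symm
        · intro c hc'
          rw [Subgroup.mem_centralizer_iff]
          intro d hd
          exact ((Subgroup.mem_centralizer_iff.mp (hc c hc' hd)) c rfl).symm
      intro x hx y hy
      exact (Subgroup.mem_centralizer_iff.mp (hK hy)) x hx
    have h2 := hAmax _ hDT hDc
    have hle : B ⊓ (W ⊓ Subgroup.centralizer (B : Set G)) ≤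
        W ⊓ Subgroup.centralizer (A : Set G) := by
      intro x hx
      exact ⟨hx.2.1, hAcent (hBA hx.1)⟩
    have h3 := Subgroup.card_le_of_le hle
    calc Nat.card B * Nat.card ↥(W ⊓ Subgroup.centralizer (B : Set G))
        ≤ Nat.card ↥(B ⊔ (W ⊓ Subgroup.centralizer (B : Set G))) *
          Nat.card ↥(B ⊓ (W ⊓ Subgroup.centralizer (B : Set G))) := h1
      _ ≤ Nat.card A * Nat.card ↥(W ⊓ Subgroup.centralizer (A : Set G)) := Nat.mul_le_mul h2 h3
  obtain ⟨-, hcore⟩ := Cfsg.Agent.Lib.Helper10.Timmesfeld.core W A W hWc hAN hAA le_rfl hbest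
  -- the centralizer `H` of the elements of order `p` of `W` centralizes `W`
  have hsconj : ∀ w ∈ {w : G | w ∈ W ∧ w ^ p = 1}, ∀ g : G,
      g * w * g⁻¹ ∈ {w : G | w ∈ W ∧ w ^ p = 1} := by
    rintro w ⟨hw, hw1⟩ g
    refine ⟨hWn.conj_mem w hw g, ?_⟩
    rw [conj_pow, hw1]
    group
  have hHn : (Subgroup.centralizer {w : G | w ∈ W ∧ w ^ p = 1}).Normal :=
    centralizer_normal_of_conj _ hsconj
  have hCWn : (Subgroup.centralizer (W : Set G)).Normal := Subgroup.normal_centralizer
  have hcop : ∀ x ∈ Subgroup.centralizer {w : G | w ∈ W ∧ w ^ p = 1}, ∀ m : ℕ, x ^ m = 1 →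
      m.Coprime p → x ∈ Subgroup.centralizer (W : Set G) := by
    intro x hx m hm hmp
    have h := coprime_central W hWc hWp x (fun w hw => hWn.conj_mem w hw x) m hm hmp
      (fun w hw hw1 => by
        have := (Subgroup.mem_centralizer_iff.mp hx) w ⟨hw, hw1⟩
        calc x * w * x⁻¹ = (w * x) * x⁻¹ := by rw [this]
          _ = w := by group)
    rw [Subgroup.mem_centralizer_iff]
    intro w hw
    have h1 := h w hw
    calc w * x = (x * w * x⁻¹) * x := by rw [h1]
      _ = x * w := by group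
  have hHle := le_sylow_inf_sup T
    (Subgroup.centralizer {w : G | w ∈ W ∧ w ^ p = 1} ⊓ Subgroup.centralizer (W : Set G))
    (Subgroup.centralizer {w : G | w ∈ W ∧ w ^ p = 1})
    (by
      intro x hx
      refine ⟨(orderOf x).factorization p, Subgroup.pow_mem _ hx _, ?_⟩
      apply hcop _ (Subgroup.pow_mem _ hx _) (ordCompl[p] (orderOf x))
      · rw [← pow_mul, Nat.ordProj_mul_ordCompl_eq_self]
        exact pow_orderOf_eq_one x
      · exact (Nat.coprime_ordCompl hp (orderOf_pos x).ne').symm)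
    (by
      intro c hc g _
      exact ⟨hHn.conj_mem c hc.1 g, hCWn.conj_mem c hc.2 g⟩)
  have hHZ : Subgroup.centralizer {w : G | w ∈ W ∧ w ^ p = 1} ≤ Subgroup.centralizer
      (((T : Subgroup G) ⊓ Subgroup.centralizer ((T : Subgroup G) : Set G) : Subgroup G) : Set G) := by
    refine hHle.trans (sup_le ?_ ?_)
    · intro x hx
      rw [Subgroup.mem_centralizer_iff]
      intro z hz
      exact ((Subgroup.mem_centralizer_iff.mp hz.2) x hx.1).symm
    · exact inf_le_right.trans (Subgroup.centralizer_le hZW)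
  have hCHn : (Subgroup.centralizer
      ((Subgroup.centralizer {w : G | w ∈ W ∧ w ^ p = 1} : Subgroup G) : Set G)).Normal :=
    Subgroup.normal_centralizer
  have hH : Subgroup.centralizer {w : G | w ∈ W ∧ w ^ p = 1} ≤ Subgroup.centralizer (W : Set G) := by
    rw [Subgroup.le_centralizer_iff]
    calc W = Subgroup.normalClosure (((T : Subgroup G) ⊓
          Subgroup.centralizer ((T : Subgroup G) : Set G) : Subgroup G) : Set G) := hW
      _ ≤ _ := Subgroup.normalClosure_le_normal (Subgroup.le_centralizer_iff.mp hHZ)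
  -- the quadratic part of `A` centralizes the `p`-th powers
  have hA0 : A ⊓ Subgroup.centralizer ((⁅W, A⁆ : Subgroup G) : Set G) ≤
      Subgroup.centralizer ((powerClosure p 1 W : Subgroup G) : Set G) := by
    intro a ha
    have hquad : ∀ w ∈ W, a * (w⁻¹ * (a * w * a⁻¹)) = (w⁻¹ * (a * w * a⁻¹)) * a := by
      intro w hw
      have hmem : w⁻¹ * (a * w * a⁻¹) ∈ ⁅W, A⁆ := by
        have := Subgroup.commutator_mem_commutator (W.inv_mem hw) ha.1
        have e : ⁅w⁻¹, a⁆ = w⁻¹ * (a * w * a⁻¹) := by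
          simp only [commutatorElement_def]; group
        rwa [e] at this
      exact ((Subgroup.mem_centralizer_iff.mp ha.2) _ hmem).symm
    have hapH : a ^ p ∈ Subgroup.centralizer {w : G | w ∈ W ∧ w ^ p = 1} := by
      rw [Subgroup.mem_centralizer_iff]
      rintro w ⟨hw, hw1⟩
      have h1 := quad_pow W a w (hquad w hw) p
      have h2 := comm_pow W hWc a w hw (hWn.conj_mem w hw a) p
      rw [h2, hw1] at h1
      have h3 : a ^ p * w * (a ^ p)⁻¹ = w := by
        rw [h1]; group
      calc w * a ^ p = (a ^ p * w * (a ^ p)⁻¹) * a ^ p := by rw [h3]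
        _ = a ^ p * w := by group
    have hapW := hH hapH
    have hpw : ∀ w ∈ W, a * w ^ p * a⁻¹ = w ^ p := by
      intro w hw
      have h1 := quad_pow W a w (hquad w hw) p
      have h0 : a ^ p * w * (a ^ p)⁻¹ = w := by
        have := (Subgroup.mem_centralizer_iff.mp hapW) w hw
        calc a ^ p * w * (a ^ p)⁻¹ = (w * a ^ p) * (a ^ p)⁻¹ := by rw [this]
          _ = w := by group
      rw [h0] at h1
      have h2 : (w⁻¹ * (a * w * a⁻¹)) ^ p = 1 := mul_eq_left.mp h1.symm
      have h3 := comm_pow W hWc a w hw (hWn.conj_mem w hw a) p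
      rw [h2] at h3
      calc a * w ^ p * a⁻¹ = w ^ p * ((w ^ p)⁻¹ * (a * w ^ p * a⁻¹)) := by group
        _ = w ^ p := by rw [← h3, mul_one]
    have hcl : powerClosure p 1 W ≤ Subgroup.centralizer ({a} : Set G) := by
      unfold powerClosure
      rw [Subgroup.closure_le]
      rintro y ⟨w, hw, rfl⟩
      rw [pow_one]
      show w ^ p ∈ Subgroup.centralizer ({a} : Set G)
      rw [Subgroup.mem_centralizer_iff]
      intro h hh
      rw [Set.mem_singleton_iff.mp hh]
      have := hpw w hw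
      calc a * w ^ p = (a * w ^ p * a⁻¹) * a := by group
        _ = w ^ p * a := by rw [this]
    rw [Subgroup.mem_centralizer_iff]
    intro y hy
    exact ((Subgroup.mem_centralizer_iff.mp (hcl hy)) a rfl).symm
  have hA0Q : A ⊓ Subgroup.centralizer ((⁅W, A⁆ : Subgroup G) : Set G) ≤ pCore p G :=
    fun a ha => hT1 ⟨hAT ha.1, hA0 ha⟩
  have hWA0 : W ≤ Subgroup.centralizer
      ((A ⊓ Subgroup.centralizer ((⁅W, A⁆ : Subgroup G) : Set G) : Subgroup G) : Set G) := by
    rw [Subgroup.le_centralizer_iff]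
    exact hA0Q.trans hQcW
  have hVeq : W ≤ ⁅W, A⁆ ⊔ (W ⊓ Subgroup.centralizer (A : Set G)) := by
    rw [← hcore]
    exact le_inf le_rfl hWA0
  have hbot := Cfsg.Agent.Lib.Helper10.Timmesfeld.comm_eq_bot_of_eq W A A W hWc hWp hAN le_rfl
    hAp le_rfl (fun a ha => ⟨a, ha, 1, Subgroup.one_mem _, (mul_one a).symm⟩) hVeq
  have hAW : A ≤ Subgroup.centralizer (W : Set G) := by
    rw [Subgroup.le_centralizer_iff]
    exact Subgroup.commutator_eq_bot_iff_le_centralizer.mp hbot
  intro a ha
  exact hT1 ⟨hAT ha, Subgroup.centralizer_le hW1W (hAW ha)⟩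

end Cfsg.Agent.Lib.Helper10.AgemoA
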