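import Mathlib
import Cfsg.Prelude.Def_FusionSystem
import Cfsg.Prelude.Def_PLocal
import Cfsg.Agent.Lib.Helper10.Thompson
import Cfsg.Agent.Lib.Helper87.FSBasic
import Cfsg.Agent.Lib.Helper87.FSSat
import Cfsg.Agent.Lib.Helper87.FSNormal
import Cfsg.Agent.H85.FullyNorm

/-!
# General lemmas for the generation theorem `F = ⟨C_F(℧¹(Z(S))), N_F(J(S))⟩`

Abelian subgroups of maximal order and the Thompson subgroup, restriction of a fusion system,
normal subgroups of normalizer systems, monotonicity of normalizer and centralizer maps, and the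
transport of normalizer maps along a map of the system.
-/

set_option autoImplicit false

namespace Cfsg.Agent.Lib.Helper10.AgemoFus1

open Cfsg Cfsg.FusionSystem
open Cfsg.Agent.Lib.Helper10.Thompson
open Cfsg.Agent.Lib.Helper87.FSBasic Cfsg.Agent.Lib.Helper87.FSSat Cfsg.Agent.Lib.Helper87.FSNormal

variable {Ω : Type*} [Group Ω]

/-- Two commuting abelian subgroups generate an abelian subgroup. -/
theorem comm_sup {A B : Subgroup Ω} (hA : ∀ x ∈ A, ∀ y ∈ A, x * y = y * x)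
    (hB : ∀ x ∈ B, ∀ y ∈ B, x * y = y * x) (hAB : ∀ a ∈ A, ∀ b ∈ B, a * b = b * a) :
    ∀ x ∈ A ⊔ B, ∀ y ∈ A ⊔ B, x * y = y * x := by
  have ha : ∀ a ∈ A, A ⊔ B ≤ Subgroup.centralizer ({a} : Set Ω) := by
    intro a ha
    apply sup_le
    · intro x hx
      rw [Subgroup.mem_centralizer_iff]
      intro h hh
      rw [Set.mem_singleton_iff.mp hh]
      exact hA a ha x hx
    · intro x hx
      rw [Subgroup.mem_centralizer_iff]
      intro h hh
      rw [Set.mem_singleton_iff.mp hh]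
      exact hAB a ha x hx
  have hb : ∀ b ∈ B, A ⊔ B ≤ Subgroup.centralizer ({b} : Set Ω) := by
    intro b hb
    apply sup_le
    · intro x hx
      rw [Subgroup.mem_centralizer_iff]
      intro h hh
      rw [Set.mem_singleton_iff.mp hh]
      exact (hAB x hx b hb).symm
    · intro x hx
      rw [Subgroup.mem_centralizer_iff]
      intro h hh
      rw [Set.mem_singleton_iff.mp hh]
      exact hB b hb x hx
  have hK : A ⊔ B ≤ Subgroup.centralizer ((A ⊔ B : Subgroup Ω) : Set Ω) := by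
    apply sup_le
    · intro a ha'
      rw [Subgroup.mem_centralizer_iff]
      intro d hd
      exact ((Subgroup.mem_centralizer_iff.mp (ha a ha' hd)) a rfl).symm
    · intro b hb'
      rw [Subgroup.mem_centralizer_iff]
      intro d hd
      exact ((Subgroup.mem_centralizer_iff.mp (hb b hb' hd)) b rfl).symm
  intro x hx y hy
  exact (Subgroup.mem_centralizer_iff.mp (hK hy)) x hx

/-- `A` is an abelian subgroup of `T` of maximal order. -/
def MaxAb (T A : Subgroup Ω) : Prop :=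
  A ≤ T ∧ (∀ x ∈ A, ∀ y ∈ A, x * y = y * x) ∧
    ∀ B : Subgroup Ω, B ≤ T → (∀ x ∈ B, ∀ y ∈ B, x * y = y * x) → Nat.card B ≤ Nat.card A

theorem maxAb_le_thompson {T A : Subgroup Ω} (h : MaxAb T A) : A ≤ thompsonSubgroupAOf T := by
  have hA' : A.subgroupOf T ∈ maxAbelianSubgroups T := by
    refine ⟨⟨⟨fun x y => ?_⟩⟩, fun B hB => ?_⟩
    · apply Subtype.ext
      apply Subtype.ext
      exact h.2.1 _ x.2 _ y.2
    · have h1 := h.2.2 (B.map T.subtype) (Subgroup.map_subtype_le B) (by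
        rintro _ ⟨x, hx, rfl⟩ _ ⟨y, hy, rfl⟩
        have h2 := hB.is_comm.comm (⟨x, hx⟩ : B) ⟨y, hy⟩
        exact congrArg (fun t : B => ((t : T) : Ω)) h2)
      rw [card_map_subtype] at h1
      rw [card_subgroupOf h.1]
      exact h1
  intro x hx
  exact ⟨⟨x, h.1 hx⟩, (le_sSup hA' : A.subgroupOf T ≤ _) hx, rfl⟩

theorem thompson_le_of_maxAb {T R : Subgroup Ω} (h : ∀ A, MaxAb T A → A ≤ R) :
    thompsonSubgroupAOf T ≤ R := by
  unfold thompsonSubgroupAOf thompsonSubgroupA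
  rw [Subgroup.map_le_iff_le_comap]
  apply sSup_le
  intro A' hA'
  have hmax : MaxAb T (A'.map T.subtype) := by
    refine ⟨Subgroup.map_subtype_le A', ?_, ?_⟩
    · rintro _ ⟨x, hx, rfl⟩ _ ⟨y, hy, rfl⟩
      have h2 := hA'.1.is_comm.comm (⟨x, hx⟩ : A') ⟨y, hy⟩
      exact congrArg (fun t : A' => ((t : T) : Ω)) h2
    · intro B hBT hBc
      have hB' : IsMulCommutative (B.subgroupOf T) := ⟨⟨fun x y => by
        apply Subtype.ext
        apply Subtype.ext
        exact hBc _ x.2 _ y.2⟩⟩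
      have h1 := hA'.2 (B.subgroupOf T) hB'
      rw [card_subgroupOf hBT] at h1
      rw [card_map_subtype]
      exact h1
  intro x hx
  exact h _ hmax ⟨x, hx, rfl⟩

theorem exists_maxAb (T : Subgroup Ω) [Finite T] : ∃ A, MaxAb T A := by
  haveI : Nonempty {B : Subgroup T // ∀ x ∈ B, ∀ y ∈ B, x * y = y * x} :=
    ⟨⟨⊥, by
      intro x hx y hy
      rw [Subgroup.mem_bot] at hx hy
      rw [hx, hy]⟩⟩
  obtain ⟨B, hB⟩ := Finite.exists_max
    (fun B : {B : Subgroup T // ∀ x ∈ B, ∀ y ∈ B, x * y = y * x} => Nat.card B.1)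
  refine ⟨B.1.map T.subtype, Subgroup.map_subtype_le _, ?_, ?_⟩
  · rintro _ ⟨x, hx, rfl⟩ _ ⟨y, hy, rfl⟩
    exact congrArg (fun t : T => (t : Ω)) (B.2 x hx y hy)
  · intro D hDT hDc
    have h1 := hB ⟨D.subgroupOf T, by
      intro x hx y hy
      apply Subtype.ext
      exact hDc _ hx _ hy⟩
    simp only at h1
    rw [card_subgroupOf hDT] at h1
    rw [card_map_subtype]
    exact h1

/-- Injective maps into `T` defined on a subgroup containing `J(T)` send `J(T)` into itself. -/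
theorem thompson_maps_into {T : Subgroup Ω} [Finite T] {R : Subgroup Ω}
    (hJR : thompsonSubgroupAOf T ≤ R) (θ : R →* Ω) (hinj : Function.Injective θ)
    (hθT : ∀ x : R, (x : Ω) ∈ thompsonSubgroupAOf T → θ x ∈ T) :
    ∀ x : R, (x : Ω) ∈ thompsonSubgroupAOf T → θ x ∈ thompsonSubgroupAOf T := by
  have key : thompsonSubgroupAOf T ≤ ((thompsonSubgroupAOf T).comap θ).map R.subtype := by
    apply thompson_le_of_maxAb
    intro A hA
    have hAJ : A ≤ thompsonSubgroupAOf T := maxAb_le_thompson hA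
    have hAR : A ≤ R := hAJ.trans hJR
    have hmax : MaxAb T ((A.subgroupOf R).map θ) := by
      refine ⟨?_, ?_, ?_⟩
      · rintro _ ⟨x, hx, rfl⟩
        exact hθT x (hAJ hx)
      · rintro _ ⟨x, hx, rfl⟩ _ ⟨y, hy, rfl⟩
        rw [← map_mul, ← map_mul]
        congr 1
        apply Subtype.ext
        exact hA.2.1 _ hx _ hy
      · intro B hBT hBc
        rw [Subgroup.card_map_of_injective hinj, card_subgroupOf hAR]
        exact hA.2.2 B hBT hBc
    intro x hx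
    refine ⟨⟨x, hAR hx⟩, ?_, rfl⟩
    show θ ⟨x, hAR hx⟩ ∈ thompsonSubgroupAOf T
    exact maxAb_le_thompson hmax ⟨⟨x, hAR hx⟩, hx, rfl⟩
  intro x hx
  obtain ⟨y, hy, hyx⟩ := key hx
  have e : y = x := Subtype.ext hyx
  rw [← e]
  exact hy

/-- If `J(T) ≤ Q` then every element of `T` centralizing `Q` lies in `Q`. -/
theorem mem_of_thompson_le {T Q : Subgroup Ω} [Finite T] (hJ : thompsonSubgroupAOf T ≤ Q)
    {x : Ω} (hxT : x ∈ T) (hx : ∀ q ∈ Q, x * q = q * x) : x ∈ Q := by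
  obtain ⟨A, hA⟩ := exists_maxAb T
  have hAQ : A ≤ Q := (maxAb_le_thompson hA).trans hJ
  have hBT : A ⊔ Subgroup.zpowers x ≤ T :=
    sup_le hA.1 (by rw [Subgroup.zpowers_le]; exact hxT)
  have hZ : ∀ a ∈ Subgroup.zpowers x, ∀ b ∈ Subgroup.zpowers x, a * b = b * a := by
    intro a ha b hb
    obtain ⟨m, rfl⟩ := Subgroup.mem_zpowers_iff.mp ha
    obtain ⟨n, rfl⟩ := Subgroup.mem_zpowers_iff.mp hb
    exact (Commute.zpow_zpow_self x m n).eq
  have hAZ : ∀ a ∈ A, ∀ b ∈ Subgroup.zpowers x, a * b = b * a := by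
    intro a ha b hb
    obtain ⟨n, rfl⟩ := Subgroup.mem_zpowers_iff.mp hb
    have h1 : Commute x a := hx a (hAQ ha)
    exact (h1.zpow_left n).eq.symm
  have hBc := comm_sup hA.2.1 hZ hAZ
  have hcard := hA.2.2 _ hBT hBc
  haveI : Finite ↥(A ⊔ Subgroup.zpowers x) := Finite.of_injective
    (fun y : ↥(A ⊔ Subgroup.zpowers x) => (⟨y, hBT y.2⟩ : T))
    (fun a b hab => Subtype.ext (congrArg (fun t : T => (t : Ω)) hab))
  have heq : A = A ⊔ Subgroup.zpowers x := Subgroup.eq_of_le_of_card_ge le_sup_left hcard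
  have : x ∈ A := by
    rw [heq]
    exact Subgroup.mem_sup_right (Subgroup.mem_zpowers x)
  exact hAQ this

section fusion

variable {S : Subgroup Ω}

/-- The restriction of a fusion system to a subgroup. -/
def restrictSys (E : FusionSystem S) (T : Subgroup Ω) (hT : T ≤ S) : FusionSystem T where
  Hom P := {φ | φ ∈ E.Hom P ∧ P ≤ T ∧ ∀ x : P, φ x ∈ T}
  le_of_mem h := ⟨h.2.1, h.2.2⟩
  injective_of_mem h := E.injective_of_mem h.1
  conj_mem := by
    intro P g hP hg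
    refine ⟨E.conj_mem (hP.trans hT) (hT hg), hP, fun x => ?_⟩
    show g * (x : Ω) * g⁻¹ ∈ T
    exact T.mul_mem (T.mul_mem hg (hP x.2)) (T.inv_mem hg)
  comp_mem := by
    intro P Q φ ψ hφ hψ h
    exact ⟨E.comp_mem hφ.1 hψ.1 h, hφ.2.1, fun x => hψ.2.2 _⟩
  inv_mem := by
    intro P φ hφ
    obtain ⟨ψ, hψ, hinv⟩ := E.inv_mem hφ.1
    refine ⟨ψ, ⟨hψ, ?_, ?_⟩, hinv⟩
    · rintro _ ⟨x, rfl⟩
      exact hφ.2.2 x
    · rintro ⟨_, x, rfl⟩
      rw [hinv x]
      exact hφ.2.1 x.2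

theorem restrictSys_le (E : FusionSystem S) (T : Subgroup Ω) (hT : T ≤ S) (P : Subgroup Ω) :
    (restrictSys E T hT).Hom P ⊆ E.Hom P := fun _ h => h.1

/-- A subgroup normal in `F` is normal in the normalizer systems containing it. -/
theorem isNormal_sub {S' : Subgroup Ω} [Finite S] (F : FusionSystem S) {K Q : Subgroup Ω}
    (hQ : F.IsNormal Q) (hQK : Q ≤ normalizerIn S K) (N' : FusionSystem S') (hQS' : Q ≤ S')
    (hN : ∀ P, N'.Hom P = F.normalizerHom K P) : N'.IsNormal Q := by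
  refine ⟨hQS', ?_⟩
  intro P φ hφ
  rw [hN P] at hφ
  obtain ⟨hφF, hPN, hφN, ψ₁, hψ₁, hext₁, hmap₁⟩ := hφ
  obtain ⟨ψ₂, hψ₂, hext₂, hmap₂⟩ := hQ.2 (P ⊔ K) ψ₁ hψ₁
  have hKS : K ≤ S := le_sup_right.trans (dom_le F hψ₁)
  have hle : P ⊔ Q ≤ (P ⊔ K) ⊔ Q := sup_le (le_sup_left.trans le_sup_left) le_sup_right
  have hle' : (P ⊔ Q) ⊔ K ≤ (P ⊔ K) ⊔ Q := sup_le hle (le_sup_right.trans le_sup_left)
  have hψ : ψ₂.comp (Subgroup.inclusion hle) ∈ F.Hom (P ⊔ Q) := restrict_mem F hψ₂ hle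
  have hψ₃ : ψ₂.comp (Subgroup.inclusion hle') ∈ F.Hom ((P ⊔ Q) ⊔ K) := restrict_mem F hψ₂ hle'
  have hQQ : ∀ q : Q, (ψ₂.comp (Subgroup.inclusion hle)) (Subgroup.inclusion le_sup_right q) ∈ Q :=
    fun q => maps_into_of_map_eq hmap₂ q
  have hPP : ∀ x : P, (ψ₂.comp (Subgroup.inclusion hle)) (Subgroup.inclusion le_sup_left x) = φ x := by
    intro x
    have h1 := hext₂ (Subgroup.inclusion le_sup_left x)
    exact h1.trans (hext₁ x)
  have hmem : ψ₂.comp (Subgroup.inclusion hle) ∈ F.normalizerHom K (P ⊔ Q) := by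
    refine ⟨hψ, sup_le hPN hQK, ?_, ψ₂.comp (Subgroup.inclusion hle'), hψ₃, fun x => rfl, ?_⟩
    · apply sup_map_mem
      · intro x
        rw [hPP x]
        exact hφN x
      · intro q
        exact hQK (hQQ q)
    · apply map_eq_of_maps_into F hKS hψ₃
      intro k
      have h1 := hext₂ (Subgroup.inclusion le_sup_right k)
      have h2 : (ψ₂.comp (Subgroup.inclusion hle')) (Subgroup.inclusion le_sup_right k) =
          ψ₁ (Subgroup.inclusion le_sup_right k) := h1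
      rw [h2]
      exact maps_into_of_map_eq hmap₁ k
  refine ⟨ψ₂.comp (Subgroup.inclusion hle), ?_, hPP, ?_⟩
  · rw [hN]
    exact hmem
  · exact map_eq_of_maps_into F hQ.1 hψ hQQ

theorem centralizerHom_mono {S' : Subgroup Ω} (F : FusionSystem S) (N' : FusionSystem S')
    (hsub : ∀ P, N'.Hom P ⊆ F.Hom P) {V V' : Subgroup Ω} (hVV' : V ≤ V')
    (hVc : S ≤ Subgroup.centralizer (V : Set Ω)) (P : Subgroup Ω) :
    N'.centralizerHom V' P ⊆ F.centralizerHom V P := by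
  rintro φ ⟨hφ, -, -, ψ, hψ, hext, hfix⟩
  have hφF := hsub _ hφ
  have hPS : P ≤ S := dom_le F hφF
  refine ⟨hφF, fun x hx => ⟨hPS hx, hVc (hPS hx)⟩, fun x => ⟨map_mem F hφF x, hVc (map_mem F hφF x)⟩,
    ψ.comp (Subgroup.inclusion (sup_le_sup_left hVV' P)), restrict_mem F (hsub _ hψ) _, ?_, ?_⟩
  · intro x
    exact hext x
  · intro v
    exact hfix ⟨v, hVV' v.2⟩

theorem normalizerHom_mono {S' : Subgroup Ω} (F : FusionSystem S) (N' : FusionSystem S')
    (hsub : ∀ P, N'.Hom P ⊆ F.Hom P) (hS' : S' ≤ S) (J P : Subgroup Ω) :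
    N'.normalizerHom J P ⊆ F.normalizerHom J P := by
  rintro φ ⟨hφ, hP, hval, ψ, hψ, hext, hmap⟩
  exact ⟨hsub _ hφ, hP.trans (inf_le_inf_right _ hS'), fun x => inf_le_inf_right _ hS' (hval x),
    ψ, hsub _ hψ, hext, hmap⟩

/-- A map sending `K ≤ P` into itself is a normalizer map. -/
theorem normalizerHom_of_maps [Finite S] (F : FusionSystem S) {P K : Subgroup Ω} {φ : P →* Ω}
    (hφ : φ ∈ F.Hom P) (hKP : K ≤ P) (hPN : P ≤ normalizerIn S K)
    (hφN : ∀ x : P, φ x ∈ normalizerIn S K) (hφK : ∀ x : P, (x : Ω) ∈ K → φ x ∈ K) :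
    φ ∈ F.normalizerHom K P := by
  have hle : P ⊔ K ≤ P := sup_le le_rfl hKP
  have hψ : φ.comp (Subgroup.inclusion hle) ∈ F.Hom (P ⊔ K) := restrict_mem F hφ hle
  refine ⟨hφ, hPN, hφN, φ.comp (Subgroup.inclusion hle), hψ, fun x => rfl, ?_⟩
  apply map_eq_of_maps_into F (hKP.trans (dom_le F hφ)) hψ
  intro k
  exact hφK _ k.2

/-- Transport of normalizer maps: if `ψ`, defined on `N_S(J)`, lies in `E` and sends `J` onto
`K`, and the normalizer maps of `K` lie in `E`, then so do the normalizer maps of `J`. -/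
theorem normalizerHom_transport [Finite S] (F E : FusionSystem S) {J K : Subgroup Ω}
    {ψ : ↥(normalizerIn S J) →* Ω} (hψF : ψ ∈ F.Hom (normalizerIn S J))
    (hψE : ψ ∈ E.Hom (normalizerIn S J))
    (hK1 : ∀ x : ↥(normalizerIn S J), (x : Ω) ∈ J → ψ x ∈ K)
    (hK2 : ∀ t ∈ K, ∃ x : ↥(normalizerIn S J), (x : Ω) ∈ J ∧ ψ x = t)
    (hNK : ∀ P, F.normalizerHom K P ⊆ E.Hom P) :
    ∀ P, F.normalizerHom J P ⊆ E.Hom P := by
  rintro P φ ⟨hφ, hPN, hφN, φ', hφ', hext, hmap⟩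
  have hJS : J ≤ S := le_sup_right.trans (dom_le F hφ')
  have hJN : J ≤ normalizerIn S J := le_normalizerIn hJS
  have hR : P ⊔ J ≤ normalizerIn S J := sup_le hPN hJN
  have hψRF : ψ.comp (Subgroup.inclusion hR) ∈ F.Hom (P ⊔ J) := restrict_mem F hψF hR
  have hψRE : ψ.comp (Subgroup.inclusion hR) ∈ E.Hom (P ⊔ J) := restrict_mem E hψE hR
  obtain ⟨ψi, hψi, hψiR, hinv1, -, -⟩ := exists_inv F hψRF
  have hJJ : ∀ q : J, φ' (Subgroup.inclusion le_sup_right q) ∈ J := fun q =>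
    maps_into_of_map_eq hmap q
  have hval : ∀ z : ↥(P ⊔ J), φ' z ∈ normalizerIn S J := by
    apply sup_map_mem
    · intro x
      rw [hext x]
      exact hφN x
    · intro q
      exact hJN (hJJ q)
  have hφ₂ : ψ.comp ((φ'.comp (ψi.codRestrict (P ⊔ J) hψiR)).codRestrict (normalizerIn S J)
      (fun y => hval _)) ∈ F.Hom (ψ.comp (Subgroup.inclusion hR)).range :=
    F.comp_mem (F.comp_mem hψi hφ' hψiR) hψF _
  have hKr : K ≤ (ψ.comp (Subgroup.inclusion hR)).range := by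
    intro t ht
    obtain ⟨x, hxJ, hxt⟩ := hK2 t ht
    refine ⟨⟨x, Subgroup.mem_sup_right hxJ⟩, ?_⟩
    rw [← hxt]
    rfl
  have hinvJ : ∀ y : (ψ.comp (Subgroup.inclusion hR)).range, (y : Ω) ∈ K → (ψi y : Ω) ∈ J := by
    intro y hy
    obtain ⟨x, hxJ, hxt⟩ := hK2 _ hy
    have e : y = ⟨(ψ.comp (Subgroup.inclusion hR)) ⟨x, Subgroup.mem_sup_right hxJ⟩,
        ⟨⟨x, Subgroup.mem_sup_right hxJ⟩, rfl⟩⟩ := by
      apply Subtype.ext
      rw [← hxt]
      rfl
    rw [e, hinv1]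
    exact hxJ
  have hmem : ψ.comp ((φ'.comp (ψi.codRestrict (P ⊔ J) hψiR)).codRestrict (normalizerIn S J)
      (fun y => hval _)) ∈ F.normalizerHom K (ψ.comp (Subgroup.inclusion hR)).range := by
    apply normalizerHom_of_maps F hφ₂ hKr
    · rintro _ ⟨r, rfl⟩
      exact Cfsg.Agent.H85.map_normalizer_mem F hψF hK1 hK2 _
    · intro y
      exact Cfsg.Agent.H85.map_normalizer_mem F hψF hK1 hK2 _
    · intro y hy
      apply hK1
      show (φ' (ψi.codRestrict (P ⊔ J) hψiR y) : Ω) ∈ J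
      have h1 : (ψi y : Ω) ∈ J := hinvJ y hy
      have e : ψi.codRestrict (P ⊔ J) hψiR y =
          Subgroup.inclusion le_sup_right (⟨ψi y, h1⟩ : J) := Subtype.ext rfl
      rw [e]
      exact hJJ _
  have hφ₂E := hNK _ hmem
  have hcomp := E.comp_mem hψRE hφ₂E (fun x => ⟨x, rfl⟩)
  have hφ'E : φ' ∈ E.Hom (P ⊔ J) := by
    refine cancel_left E hψE hcomp hval ?_
    intro x
    show ψ ⟨φ' (ψi.codRestrict (P ⊔ J) hψiR
      ⟨(ψ.comp (Subgroup.inclusion hR)) x, ⟨x, rfl⟩⟩), _⟩ = ψ ⟨φ' x, hval x⟩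
    have e : ψi.codRestrict (P ⊔ J) hψiR ⟨(ψ.comp (Subgroup.inclusion hR)) x, ⟨x, rfl⟩⟩ = x :=
      Subtype.ext (hinv1 x)
    congr 2
    rw [e]
  exact mem_of_eq E (restrict_mem E hφ'E le_sup_left) (fun x => (hext x).symm)

end fusion

end Cfsg.Agent.Lib.Helper10.AgemoFus1
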