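import Mathlib

set_option autoImplicit false

namespace Cfsg.Agent.Lib.Helper10.AutSyl

section Abstract
variable {Γ : Type*} [Group Γ]

/-- the explicit subgroup `P₀·⟨a⟩` when `a` centralizes `P₀` -/
def TT (P₀ : Subgroup Γ) (a : Γ) (hcent : ∀ x ∈ P₀, a * x = x * a) : Subgroup Γ where
  carrier := {t | ∃ x ∈ P₀, ∃ k : ℤ, t = x * a ^ k}
  mul_mem' := by
    rintro _ _ ⟨x, hx, k, rfl⟩ ⟨y, hy, l, rfl⟩
    refine ⟨x * y, P₀.mul_mem hx hy, k + l, ?_⟩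
    have h : a ^ k * y = y * a ^ k := ((show Commute a y from hcent y hy).zpow_left k).eq
    rw [zpow_add]
    calc x * a ^ k * (y * a ^ l) = x * (a ^ k * y) * a ^ l := by group
      _ = x * (y * a ^ k) * a ^ l := by rw [h]
      _ = x * y * (a ^ k * a ^ l) := by group
  one_mem' := ⟨1, P₀.one_mem, 0, by simp⟩
  inv_mem' := by
    rintro _ ⟨x, hx, k, rfl⟩
    refine ⟨x⁻¹, P₀.inv_mem hx, -k, ?_⟩
    have h : a ^ (-k) * x⁻¹ = x⁻¹ * a ^ (-k) :=
      (((show Commute a x from hcent x hx).inv_right).zpow_left (-k)).eq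
    rw [mul_inv_rev, ← zpow_neg, h]

theorem mem_TT {P₀ : Subgroup Γ} {a : Γ} {hcent : ∀ x ∈ P₀, a * x = x * a} {t : Γ} :
    t ∈ TT P₀ a hcent ↔ ∃ x ∈ P₀, ∃ k : ℤ, t = x * a ^ k := Iff.rfl

variable [Finite Γ]

theorem abstract_main
    (hZstar : ∀ (P : Sylow 2 Γ) (u : Γ), orderOf u = 2 → u ∈ P →
      (∀ g : Γ, g * u * g⁻¹ ∈ P → g * u * g⁻¹ = u) →
      ∃ N : Subgroup Γ, N.Normal ∧ Odd (Nat.card N) ∧ ∀ g : Γ, u * g * u⁻¹ * g⁻¹ ∈ N)
    (I : Subgroup Γ) [hIn : I.Normal] (a : Γ) (j : ℕ) (ha : a ^ (2 ^ j) = 1)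
    (hgen : ∀ x : Γ, ∃ i ∈ I, ∃ k : ℤ, x = i * a ^ k)
    (P₀ : Subgroup Γ) (hP₀I : P₀ ≤ I) (hP₀2 : IsPGroup 2 P₀)
    (hmax : ∀ Q : Subgroup Γ, IsPGroup 2 Q → Q ≤ I → P₀ ≤ Q → Q ≤ P₀)
    (hcomm : ∀ x ∈ P₀, ∀ y ∈ P₀, x * y = y * x)
    (hcent : ∀ x ∈ P₀, a * x = x * a)
    (hO : ∀ M : Subgroup Γ, M.Normal → Odd (Nat.card M) → M ≤ I → M = ⊥)
    (hZ : ∀ s : Γ, (∀ x, s * x = x * s) → s = 1) : a ∈ I := by
  classical
  haveI : Fact (Nat.Prime 2) := ⟨Nat.prime_two⟩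
  -- commutators lie in I
  have hcomI : ∀ x y : Γ, x * y * x⁻¹ * y⁻¹ ∈ I := by
    intro x y
    obtain ⟨i, hi, k, rfl⟩ := hgen x
    obtain ⟨i', hi', l, rfl⟩ := hgen y
    rw [← QuotientGroup.eq_one_iff]
    have e1 : ((i : Γ) : Γ ⧸ I) = 1 := (QuotientGroup.eq_one_iff i).mpr hi
    have e2 : ((i' : Γ) : Γ ⧸ I) = 1 := (QuotientGroup.eq_one_iff i').mpr hi'
    simp only [QuotientGroup.mk_mul, QuotientGroup.mk_inv, QuotientGroup.mk_zpow, e1, e2, one_mul]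
    have hc : Commute ((a : Γ ⧸ I) ^ k) ((a : Γ ⧸ I) ^ l) := (Commute.refl _).zpow_zpow k l
    rw [hc.eq, mul_assoc, mul_assoc, mul_inv_cancel_left, mul_inv_cancel]
  set T := TT P₀ a hcent with hTdef
  have hP₀T : P₀ ≤ T := fun x hx => ⟨x, hx, 0, by simp⟩
  have haT : a ∈ T := ⟨1, P₀.one_mem, 1, by simp⟩
  have hTcomm : ∀ x ∈ T, ∀ y ∈ T, x * y = y * x := by
    rintro _ ⟨x, hx, k, rfl⟩ _ ⟨y, hy, l, rfl⟩
    have h1 : Commute x y := hcomm x hx y hy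
    have h2 : Commute (a ^ k) y := (show Commute a y from hcent y hy).zpow_left k
    have h3 : Commute x (a ^ l) := ((show Commute a x from hcent x hx).zpow_left l).symm
    have h4 : Commute (a ^ k) (a ^ l) := (Commute.refl a).zpow_zpow k l
    exact ((h1.mul_right h3).mul_left (h2.mul_right h4)).eq
  have hT2 : IsPGroup 2 T := by
    rintro ⟨t, x, hx, k, rfl⟩
    obtain ⟨e, he⟩ := hP₀2 ⟨x, hx⟩
    have hxe : x ^ (2 ^ e) = 1 := by simpa using congrArg Subtype.val he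
    refine ⟨e + j, Subtype.ext ?_⟩
    have hc : Commute x (a ^ k) := ((show Commute a x from hcent x hx).zpow_left k).symm
    show (x * a ^ k) ^ (2 ^ (e + j)) = 1
    have h1 : x ^ (2 ^ (e + j)) = 1 := by rw [pow_add, pow_mul, hxe, one_pow]
    have h2 : (a ^ k) ^ (2 ^ (e + j)) = 1 := by
      rw [← zpow_natCast, ← zpow_mul, mul_comm, zpow_mul, zpow_natCast, pow_add, mul_comm, pow_mul, ha,
        one_pow, one_zpow]
    rw [hc.mul_pow, h1, h2, one_mul]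
  have hSyl : ∀ Q : Subgroup Γ, IsPGroup 2 Q → T ≤ Q → Q ≤ T := by
    intro Q hQ hle x hx
    obtain ⟨i, hi, k, rfl⟩ := hgen x
    have hak : a ^ k ∈ Q := Q.zpow_mem (hle haT) k
    have hiQ : i ∈ Q := by
      have := Q.mul_mem hx (Q.inv_mem hak)
      simpa using this
    have hi' : i ∈ P₀ := hmax (Q ⊓ I) (hQ.to_le inf_le_left) inf_le_right
      (le_inf (hP₀T.trans hle) hP₀I) ⟨hiQ, hi⟩
    exact ⟨i, hi', k, rfl⟩
  let PT : Sylow 2 Γ := ⟨T, hT2, fun {Q} hQ hle => le_antisymm (hSyl Q hQ hle) hle⟩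
  have hPT : (PT : Subgroup Γ) = T := rfl
  -- the normalizer and the averaging map
  set N : Subgroup Γ := Subgroup.normalizer (T : Set Γ) with hN
  have hTN : T ≤ N := Subgroup.le_normalizer
  set T' : Subgroup ↥N := T.subgroupOf N with hT'
  haveI hT'n : T'.Normal := Subgroup.normal_in_normalizer
  have hT'comm : ∀ x y : ↥T', x * y = y * x := by
    intro x y
    apply Subtype.ext; apply Subtype.ext
    exact hTcomm _ (Subgroup.mem_subgroupOf.mp x.2) _ (Subgroup.mem_subgroupOf.mp y.2)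
  letI : CommGroup ↥T' := { (inferInstance : Group ↥T') with mul_comm := hT'comm }
  let φ : ↥N →* MulAut ↥T' := MulAut.conjNormal
  have hφ : ∀ (n : ↥N) (t : ↥T'), (((φ n t : ↥T') : ↥N) : Γ) = (n : Γ) * ((t : ↥N) : Γ) * (n : Γ)⁻¹ := by
    intro n t
    have := MulAut.conjNormal_apply (H := T') n t
    have h2 := congrArg (Subtype.val : ↥N → Γ) this
    exact h2
  have hker : T' ≤ φ.ker := by
    intro τ hτ
    rw [MonoidHom.mem_ker]
    apply MulEquiv.ext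
    intro t
    apply Subtype.ext; apply Subtype.ext
    rw [hφ]
    have h1 := hTcomm _ (Subgroup.mem_subgroupOf.mp hτ) _ (Subgroup.mem_subgroupOf.mp t.2)
    show (τ : Γ) * ((t : ↥N) : Γ) * (τ : Γ)⁻¹ = ((t : ↥N) : Γ)
    rw [h1, mul_inv_cancel_right]
  let ψ : ↥N ⧸ T' →* MulAut ↥T' := QuotientGroup.lift T' φ hker
  have hψ : ∀ n : ↥N, ψ (n : ↥N ⧸ T') = φ n := fun n => rfl
  haveI : Fintype (↥N ⧸ T') := Fintype.ofFinite _
  let ν : ↥T' → ↥T' := fun t => ∏ q : ↥N ⧸ T', ψ q t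
  have hνinv : ∀ (n : ↥N) (t : ↥T'), φ n (ν t) = ν t := by
    intro n t
    show φ n (∏ q : ↥N ⧸ T', ψ q t) = ∏ q : ↥N ⧸ T', ψ q t
    rw [map_prod]
    have h1 : ∀ q : ↥N ⧸ T', φ n (ψ q t) = ψ ((n : ↥N ⧸ T') * q) t := by
      intro q
      rw [map_mul, hψ]; rfl
    simp_rw [h1]
    exact Fintype.prod_equiv (Equiv.mulLeft (n : ↥N ⧸ T')) _ _ (fun q => rfl)
  let π : ↥T' →* Γ ⧸ I := (QuotientGroup.mk' I).comp (N.subtype.comp T'.subtype)
  have hπ : ∀ (q : ↥N ⧸ T') (t : ↥T'), π (ψ q t) = π t := by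
    intro q t
    induction q using QuotientGroup.induction_on with
    | H n =>
      rw [hψ]
      show (((φ n t : ↥T') : ↥N) : Γ) = ((((t : ↥T') : ↥N) : Γ) : Γ ⧸ I)
      rw [hφ, QuotientGroup.eq]
      have := hcomI ((t : ↥N) : Γ)⁻¹ (n : Γ)
      have h3 : ((n : Γ) * ((t : ↥N) : Γ) * (n : Γ)⁻¹)⁻¹ * ((t : ↥N) : Γ) ∈ I := by
        have h4 := I.inv_mem this
        have h5 : (((t : ↥N) : Γ)⁻¹ * (n : Γ) * (((t : ↥N) : Γ)⁻¹)⁻¹ * (n : Γ)⁻¹)⁻¹
            = ((n : Γ) * ((t : ↥N) : Γ) * (n : Γ)⁻¹)⁻¹ * ((t : ↥N) : Γ) := by group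
        rwa [h5] at h4
      exact h3
  have hπν : ∀ t : ↥T', π (ν t) = π t ^ Fintype.card (↥N ⧸ T') := by
    intro t
    have key : ∀ s : Finset (↥N ⧸ T'), π (∏ q ∈ s, ψ q t) = π t ^ s.card := by
      intro s
      induction s using Finset.induction_on with
      | empty => simp
      | insert q s hq ih =>
        rw [Finset.prod_insert hq, map_mul, ih, hπ, Finset.card_insert_of_notMem hq, pow_succ']
    have := key Finset.univ
    rwa [Finset.card_univ] at this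
  -- odd index
  have hodd : Odd (Fintype.card (↥N ⧸ T')) := by
    have h1 : Fintype.card (↥N ⧸ T') = T.relIndex N := by
      rw [← Nat.card_eq_fintype_card, ← Subgroup.index_eq_card]; rfl
    rw [h1]
    have h2 : ¬ 2 ∣ (PT : Subgroup Γ).index := Sylow.not_dvd_index PT
    rw [hPT, ← Subgroup.relIndex_mul_index hTN] at h2
    exact Nat.odd_iff.mpr (Nat.two_dvd_ne_zero.mp (fun h => h2 (Dvd.dvd.mul_right h _)))
  have haN : a ∈ N := hTN haT
  let a' : ↥T' := ⟨⟨a, haN⟩, Subgroup.mem_subgroupOf.mpr haT⟩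
  by_cases h1 : ν a' = 1
  · have h2 := hπν a'
    rw [h1, map_one] at h2
    have h3 : π a' = (a : Γ ⧸ I) := rfl
    rw [h3] at h2
    have h4 : (a : Γ ⧸ I) ^ (2 ^ j) = 1 := by rw [← QuotientGroup.mk_pow, ha]; rfl
    have h5 : orderOf (a : Γ ⧸ I) ∣ Nat.gcd (Fintype.card (↥N ⧸ T')) (2 ^ j) :=
      Nat.dvd_gcd (orderOf_dvd_of_pow_eq_one h2.symm) (orderOf_dvd_of_pow_eq_one h4)
    have h6 : Nat.gcd (Fintype.card (↥N ⧸ T')) (2 ^ j) = 1 :=
      Nat.Coprime.pow_right j (Nat.coprime_two_right.mpr hodd)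
    rw [h6, Nat.dvd_one, orderOf_eq_one_iff] at h5
    exact (QuotientGroup.eq_one_iff a).mp h5
  · exfalso
    set u₀ : Γ := ((ν a' : ↥N) : Γ) with hu₀
    have hu₀T : u₀ ∈ T := Subgroup.mem_subgroupOf.mp (ν a').2
    have hu₀1 : u₀ ≠ 1 := by
      intro h; apply h1; apply Subtype.ext; apply Subtype.ext; exact h
    have hu₀N : ∀ n ∈ N, n * u₀ * n⁻¹ = u₀ := by
      intro n hn
      have := hνinv ⟨n, hn⟩ a'
      have h2 := hφ ⟨n, hn⟩ (ν a')
      rw [this] at h2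
      exact h2.symm
    obtain ⟨k, hk⟩ := (IsPGroup.iff_orderOf.mp hT2) ⟨u₀, hu₀T⟩
    have hk' : orderOf u₀ = 2 ^ k := by
      rw [← hk]; exact (Subgroup.orderOf_mk u₀ hu₀T).symm
    have hk0 : k ≠ 0 := by
      rintro rfl
      rw [pow_zero, orderOf_eq_one_iff] at hk'
      exact hu₀1 hk'
    set s : Γ := u₀ ^ (2 ^ (k - 1)) with hs
    have hs2 : orderOf s = 2 := by
      rw [hs, orderOf_pow_of_dvd (by positivity) (by rw [hk']; exact pow_dvd_pow 2 (Nat.sub_le k 1)),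
        hk', Nat.pow_div (Nat.sub_le k 1) (by norm_num)]
      have : k - (k - 1) = 1 := by omega
      rw [this, pow_one]
    have hsT : s ∈ T := T.pow_mem hu₀T _
    have hsN : ∀ n ∈ N, n * s * n⁻¹ = s := by
      intro n hn
      rw [hs, ← conj_pow, hu₀N n hn]
    haveI : IsMulCommutative ↥(PT : Subgroup Γ) :=
      ⟨⟨fun x y => Subtype.ext (hTcomm x x.2 y y.2)⟩⟩
    have hiso : ∀ g : Γ, g * s * g⁻¹ ∈ PT → g * s * g⁻¹ = s := by
      intro g hg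
      obtain ⟨n, hn, hne⟩ := Sylow.conj_eq_normalizer_conj_of_mem PT s g⁻¹ hsT (by simpa using hg)
      have h3 := hsN n⁻¹ (Subgroup.inv_mem _ hn)
      rw [inv_inv] at hne h3
      rw [hne, h3]
    obtain ⟨N₀, hN₀n, hN₀odd, hcom⟩ := hZstar PT s hs2 hsT hiso
    have hM : N₀ ⊓ I = ⊥ := by
      haveI := hN₀n
      apply hO (N₀ ⊓ I) inferInstance _ inf_le_right
      exact Odd.of_dvd_nat hN₀odd (Subgroup.card_dvd_of_le inf_le_left)
    have hscent : ∀ x : Γ, s * x = x * s := by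
      intro x
      have h3 : s * x * s⁻¹ * x⁻¹ ∈ N₀ ⊓ I := ⟨hcom x, hcomI s x⟩
      rw [hM, Subgroup.mem_bot] at h3
      have : s * x = (s * x * s⁻¹ * x⁻¹) * (x * s) := by group
      rw [this, h3, one_mul]
    have := hZ s hscent
    rw [this, orderOf_one] at hs2
    exact absurd hs2 (by norm_num)

end Abstract

end Cfsg.Agent.Lib.Helper10.AutSyl
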