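import Mathlib
import Cfsg.Agent.Lib.Helper44.BCStmt

/-!
# S2362, piece CENT3: in dimension three, an isometry of order prime to `p` commuting with a
nontrivial unipotent isometry is `± 1`
-/

set_option autoImplicit false

namespace Cfsg.Agent.Lib.Helper10.BCCENT3

open Matrix Polynomial
open Cfsg.Agent.Lib.Helper44.QSpace Cfsg.Agent.Lib.Helper44.OGroup Cfsg.Agent.Lib.Helper44.OMat
open Cfsg.Agent.Lib.Helper44.OExt Cfsg.Agent.Lib.Helper44.BCStmt

universe u

section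

variable {F : Type u} [Field F] {κ : Type} [Fintype κ] [DecidableEq κ]

/-- an isometry of `qN N` preserves the Gram matrix `N + Nᵀ` -/
theorem gram_of_isom (N A : Matrix κ κ F) (h : ∀ v : κ → F, qN N (A *ᵥ v) = qN N v) :
    Aᵀ * (N + Nᵀ) * A = N + Nᵀ := by
  have hp : ∀ x y : κ → F, (A *ᵥ x) ⬝ᵥ (N + Nᵀ) *ᵥ (A *ᵥ y) = x ⬝ᵥ (N + Nᵀ) *ᵥ y := by
    intro x y
    rw [← polar_qN, ← polar_qN]
    unfold QuadraticMap.polar
    rw [← Matrix.mulVec_add, h, h, h]
  ext i j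
  have h1 := hp (Pi.single i 1) (Pi.single j 1)
  rw [mulVec_dot, Matrix.mulVec_mulVec, Matrix.mulVec_mulVec] at h1
  simpa [Matrix.mul_assoc] using h1

/-- a matrix killing a spanning family is zero -/
theorem eq_zero_of_kills {ι : Type} (b : ι → κ → F) (hb : Submodule.span F (Set.range b) = ⊤)
    (D : Matrix κ κ F) (h : ∀ i, D *ᵥ b i = 0) : D = 0 := by
  have hlin : Matrix.mulVecLin D = 0 := by
    apply LinearMap.ext_on hb
    rintro _ ⟨i, rfl⟩
    exact h i
  ext a c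
  have h2 := congrFun (LinearMap.congr_fun hlin (Pi.single c 1)) a
  simpa using h2

theorem pow_eig (S : Matrix κ κ F) (y : κ → F) (a : F) (hy : S *ᵥ y = a • y) :
    ∀ j : ℕ, (S ^ j) *ᵥ y = a ^ j • y := by
  intro j
  induction j with
  | zero => simp
  | succ j ih =>
    rw [pow_succ', ← Matrix.mulVec_mulVec, ih, Matrix.mulVec_smul, hy, smul_smul, pow_succ]

theorem pow_coeff (S : Matrix κ κ F) (x y : κ → F) (a e : F) (hx : S *ᵥ x = a • x + e • y)
    (hy : S *ᵥ y = a • y) :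
    ∀ j : ℕ, ∃ d : F, (S ^ j) *ᵥ x = a ^ j • x + d • y ∧ a * d = j * a ^ j * e := by
  intro j
  induction j with
  | zero => exact ⟨0, by simp, by simp⟩
  | succ j ih =>
    obtain ⟨d, hd, hd'⟩ := ih
    refine ⟨a ^ j * e + a * d, ?_, ?_⟩
    · rw [pow_succ', ← Matrix.mulVec_mulVec, hd, Matrix.mulVec_add, Matrix.mulVec_smul,
        Matrix.mulVec_smul, hx, hy, pow_succ]
      module
    · rw [mul_add, hd']
      push_cast
      ring

theorem coeff_eq_zero (S : Matrix κ κ F) (x y : κ → F) (a e : F)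
    (hx : S *ᵥ x = a • x + e • y) (hy : S *ᵥ y = a • y) (hy0 : y ≠ 0) (M : ℕ) (hM : S ^ M = 1)
    (hMF : (M : F) ≠ 0) : e = 0 ∧ a ^ M = 1 := by
  have h1 := pow_eig S y a hy M
  rw [hM, Matrix.one_mulVec] at h1
  have haM : a ^ M = 1 := by
    by_contra hne
    apply hy0
    have h2 : (1 - a ^ M) • y = 0 := by rw [sub_smul, one_smul, ← h1, sub_self]
    rcases smul_eq_zero.mp h2 with h | h
    · exact absurd (sub_eq_zero.mp h).symm hne
    · exact h
  obtain ⟨d, hd, hd'⟩ := pow_coeff S x y a e hx hy M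
  rw [hM, Matrix.one_mulVec, haM, one_smul] at hd
  have hd0 : d = 0 := by
    have h2 : d • y = 0 := by
      have h3 : x + d • y = x + 0 := by rw [← hd, add_zero]
      exact add_left_cancel h3
    rcases smul_eq_zero.mp h2 with h | h
    · exact h
    · exact absurd h hy0
  rw [hd0, mul_zero, haM, mul_one] at hd'
  rcases mul_eq_zero.mp hd'.symm with h | h
  · exact absurd h hMF
  · exact ⟨h, haM⟩

end

section three

variable {F : Type u} [Field F]

theorem pow_three_eq_zero (R : Matrix (Fin 3) (Fin 3) F) (k : ℕ) (h : R ^ k = 0) : R ^ 3 = 0 := by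
  have hnil : IsNilpotent R := ⟨k, h⟩
  have h1 := Matrix.isNilpotent_charpoly_sub_pow_of_isNilpotent hnil
  have h2 : R.charpoly - X ^ (Fintype.card (Fin 3)) = 0 := IsNilpotent.eq_zero h1
  have h3 : R.charpoly = X ^ 3 := by simpa [sub_eq_zero] using h2
  have h4 := Matrix.aeval_self_charpoly R
  rw [h3] at h4
  simpa using h4

theorem exists_vecMulVec (R : Matrix (Fin 3) (Fin 3) F) (h : R * R = 0) :
    ∃ w φ : Fin 3 → F, R = Matrix.vecMulVec w φ := by
  have hle : LinearMap.range (Matrix.mulVecLin R) ≤ LinearMap.ker (Matrix.mulVecLin R) := by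
    rintro _ ⟨x, rfl⟩
    rw [LinearMap.mem_ker]
    show R *ᵥ (R *ᵥ x) = 0
    rw [Matrix.mulVec_mulVec, h, Matrix.zero_mulVec]
  have hrk := LinearMap.finrank_range_add_finrank_ker (Matrix.mulVecLin R)
  have hmono := Submodule.finrank_mono hle
  have hdim : Module.finrank F (Fin 3 → F) = 3 := by simp
  have h1 : Module.finrank F (LinearMap.range (Matrix.mulVecLin R)) ≤ 1 := by omega
  obtain ⟨v₀, hv₀⟩ := finrank_le_one_iff.mp h1
  have hcol : ∀ k : Fin 3, ∃ c : F, c • (v₀ : Fin 3 → F) = R *ᵥ Pi.single k 1 := by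
    intro k
    obtain ⟨c, hc⟩ := hv₀ ⟨R *ᵥ Pi.single k 1, ⟨Pi.single k 1, rfl⟩⟩
    exact ⟨c, congrArg Subtype.val hc⟩
  choose φ hφ using hcol
  refine ⟨(v₀ : Fin 3 → F), φ, ?_⟩
  ext i k
  have h2 := congrFun (hφ k) i
  simp only [Pi.smul_apply, smul_eq_mul, Matrix.mulVec_single_one, Matrix.col_apply] at h2
  rw [Matrix.vecMulVec_apply, ← h2, mul_comm]

end three

theorem main : RankOne.{u} → Cent3.{u} := by
  intro hR1 F _ p _ _ h2 N S U M hdet hS hU hSU hUp hU1 hSM hcop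
  have hp : p.Prime := Fact.out
  obtain ⟨G, hG⟩ : ∃ G, G = N + Nᵀ := ⟨_, rfl⟩
  have hGsym : Gᵀ = G := by
    rw [hG, Matrix.transpose_add, Matrix.transpose_transpose, add_comm]
  have hGS : Sᵀ * G * S = G := by rw [hG]; exact gram_of_isom N S hS
  have hGU : Uᵀ * G * U = G := by rw [hG]; exact gram_of_isom N U hU
  have hGdet : G.det ≠ 0 := by rw [hG]; exact hdet
  obtain ⟨R, hRdef⟩ : ∃ R, R = U - 1 := ⟨_, rfl⟩
  have hRp : R ^ p = 0 := by
    rw [hRdef, sub_pow_char_of_commute (R := Matrix (Fin 3) (Fin 3) F) (p := p) (Commute.one_right U), hUp, one_pow,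
      sub_self]
  have hR3 : R ^ 3 = 0 := pow_three_eq_zero R p hRp
  have hSR : S * R = R * S := by rw [hRdef, mul_sub, sub_mul, hSU, mul_one, one_mul]
  have hRR : R * R ≠ 0 := by
    intro h0
    obtain ⟨w, φ, hwφ⟩ := exists_vecMulVec R h0
    apply hU1
    exact hR1 F (Fin 3) G U w φ p h2 hGsym hGdet hGU (hRdef ▸ hwφ) (hRdef ▸ hRp)
  obtain ⟨v, hv⟩ : ∃ v : Fin 3 → F, (R * R) *ᵥ v ≠ 0 := by
    by_contra hall
    push Not at hall
    apply hRR
    ext a c
    have h3 := congrFun (hall (Pi.single c 1)) a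
    simpa using h3
  obtain ⟨x₁, hx₁⟩ : ∃ x₁, x₁ = R *ᵥ v := ⟨_, rfl⟩
  obtain ⟨x₂, hx₂⟩ : ∃ x₂, x₂ = (R * R) *ᵥ v := ⟨_, rfl⟩
  have hx₂0 : x₂ ≠ 0 := hx₂ ▸ hv
  have hB1 : R *ᵥ x₁ = x₂ := by rw [hx₁, hx₂, Matrix.mulVec_mulVec]
  have hB2 : R *ᵥ x₂ = 0 := by
    rw [hx₂, Matrix.mulVec_mulVec]
    have : R * (R * R) = R ^ 3 := by rw [pow_succ, pow_two, mul_assoc]
    rw [this, hR3, Matrix.zero_mulVec]
  have hli : LinearIndependent F ![v, x₁, x₂] := by
    rw [Fintype.linearIndependent_iff]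
    intro g hg
    have hg' : g 0 • v + g 1 • x₁ + g 2 • x₂ = 0 := by
      simpa [Fin.sum_univ_three] using hg
    have e0 : g 0 = 0 := by
      have h3 := congrArg (fun z => R *ᵥ (R *ᵥ z)) hg'
      simp only [Matrix.mulVec_add, Matrix.mulVec_smul, Matrix.mulVec_zero] at h3
      rw [← hx₁, hB1, hB2, Matrix.mulVec_zero] at h3
      simp only [smul_zero, add_zero] at h3
      rcases smul_eq_zero.mp h3 with h | h
      · exact h
      · exact absurd h hx₂0
    rw [e0, zero_smul, zero_add] at hg'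
    have e1 : g 1 = 0 := by
      have h3 := congrArg (fun z => R *ᵥ z) hg'
      simp only [Matrix.mulVec_add, Matrix.mulVec_smul, Matrix.mulVec_zero] at h3
      rw [hB1, hB2] at h3
      simp only [smul_zero, add_zero] at h3
      rcases smul_eq_zero.mp h3 with h | h
      · exact h
      · exact absurd h hx₂0
    rw [e1, zero_smul, zero_add] at hg'
    have e2 : g 2 = 0 := by
      rcases smul_eq_zero.mp hg' with h | h
      · exact h
      · exact absurd h hx₂0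
    intro i
    fin_cases i
    · exact e0
    · exact e1
    · exact e2
  have hspan : Submodule.span F (Set.range ![v, x₁, x₂]) = ⊤ := by
    apply hli.span_eq_top_of_card_eq_finrank'
    simp
  obtain ⟨c, hc⟩ := (Submodule.mem_span_range_iff_exists_fun F).mp
    (hspan ▸ Submodule.mem_top : S *ᵥ v ∈ Submodule.span F (Set.range ![v, x₁, x₂]))
  have hSv : S *ᵥ v = c 0 • v + c 1 • x₁ + c 2 • x₂ := by
    rw [← hc]
    simp [Fin.sum_univ_three]
  have hSRv : ∀ z : Fin 3 → F, S *ᵥ (R *ᵥ z) = R *ᵥ (S *ᵥ z) := by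
    intro z
    rw [Matrix.mulVec_mulVec, Matrix.mulVec_mulVec, hSR]
  have hSx₁ : S *ᵥ x₁ = c 0 • x₁ + c 1 • x₂ := by
    rw [hx₁, hSRv, hSv]
    simp only [Matrix.mulVec_add, Matrix.mulVec_smul]
    rw [← hx₁, hB1, hB2, smul_zero, add_zero]
  have hSx₂ : S *ᵥ x₂ = c 0 • x₂ := by
    rw [← hB1, hSRv, hSx₁]
    simp only [Matrix.mulVec_add, Matrix.mulVec_smul]
    rw [hB1, hB2, smul_zero, add_zero]
  have hMF : (M : F) ≠ 0 := by
    intro h0
    have hdvd : p ∣ M := (CharP.cast_eq_zero_iff F p M).mp h0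
    exact (Nat.Prime.coprime_iff_not_dvd hp).mp hcop.symm hdvd
  obtain ⟨hc1, haM⟩ := coeff_eq_zero S x₁ x₂ (c 0) (c 1) hSx₁ hSx₂ hx₂0 M hSM hMF
  rw [hc1, zero_smul, add_zero] at hSv
  obtain ⟨hc2, -⟩ := coeff_eq_zero S v x₂ (c 0) (c 2) hSv hSx₂ hx₂0 M hSM hMF
  rw [hc2, zero_smul, add_zero] at hSv
  -- `S = c 0 • 1`
  have hD : S - c 0 • (1 : Matrix (Fin 3) (Fin 3) F) = 0 := by
    have hDR : (S - c 0 • (1 : Matrix (Fin 3) (Fin 3) F)) * R =
        R * (S - c 0 • (1 : Matrix (Fin 3) (Fin 3) F)) := by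
      rw [sub_mul, mul_sub, hSR]
      simp
    have hDv : (S - c 0 • (1 : Matrix (Fin 3) (Fin 3) F)) *ᵥ v = 0 := by
      rw [Matrix.sub_mulVec, hSv, Matrix.smul_mulVec, Matrix.one_mulVec, sub_self]
    have hDRz : ∀ z : Fin 3 → F, (S - c 0 • (1 : Matrix (Fin 3) (Fin 3) F)) *ᵥ (R *ᵥ z) =
        R *ᵥ ((S - c 0 • (1 : Matrix (Fin 3) (Fin 3) F)) *ᵥ z) := by
      intro z
      rw [Matrix.mulVec_mulVec, Matrix.mulVec_mulVec, hDR]
    have hDx₁ : (S - c 0 • (1 : Matrix (Fin 3) (Fin 3) F)) *ᵥ x₁ = 0 := by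
      rw [hx₁, hDRz, hDv, Matrix.mulVec_zero]
    have hDx₂ : (S - c 0 • (1 : Matrix (Fin 3) (Fin 3) F)) *ᵥ x₂ = 0 := by
      rw [← hB1, hDRz, hDx₁, Matrix.mulVec_zero]
    apply eq_zero_of_kills ![v, x₁, x₂] hspan
    intro i
    fin_cases i
    · exact hDv
    · exact hDx₁
    · exact hDx₂
  have hSa : S = c 0 • (1 : Matrix (Fin 3) (Fin 3) F) := sub_eq_zero.mp hD
  -- `c 0 ^ 2 = 1`
  have hsq : (c 0 * c 0 - 1) • G = 0 := by
    have h3 := hGS
    rw [hSa] at h3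
    simp only [Matrix.transpose_smul, Matrix.transpose_one, Matrix.smul_mul, Matrix.mul_smul,
      Matrix.one_mul, Matrix.mul_one, smul_smul] at h3
    rw [sub_smul, one_smul, h3, sub_self]
  have hG0 : G ≠ 0 := by
    intro h0
    apply hGdet
    rw [h0, Matrix.det_zero]
  have ha2 : c 0 * c 0 - 1 = 0 := by
    rcases smul_eq_zero.mp hsq with h | h
    · exact h
    · exact absurd h hG0
  have hfac : (c 0 - 1) * (c 0 + 1) = 0 := by
    have : (c 0 - 1) * (c 0 + 1) = c 0 * c 0 - 1 := by ring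
    rw [this, ha2]
  rcases mul_eq_zero.mp hfac with h | h
  · left
    rw [hSa, sub_eq_zero.mp h, one_smul]
  · right
    rw [hSa, eq_neg_of_add_eq_zero_left h, neg_smul, one_smul]

end Cfsg.Agent.Lib.Helper10.BCCENT3
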