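import Mathlib
import Cfsg.Agent.Lib.Helper44.BCStmt

/-!
# S2362, piece IRRKILL: the commutant of a matrix with irreducible characteristic polynomial
-/

set_option autoImplicit false

namespace Cfsg.Agent.Lib.Helper10.BCIRRKILL

open Matrix Polynomial
open Cfsg.Agent.Lib.Helper44.BCStmt

universe u

theorem main : IrrKill.{u} := by
  intro F _ κ _ _ T D hirr hDT ⟨v, hv0, hDv⟩
  classical
  have key : ∀ f : F[X], (aeval T f) *ᵥ v = 0 → T.charpoly ∣ f := by
    intro f hf
    by_contra hnd
    have hcop : IsCoprime T.charpoly f := (Irreducible.coprime_iff_not_dvd hirr).mpr hnd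
    obtain ⟨a, b, hab⟩ := hcop
    apply hv0
    have h1 : (aeval T (a * T.charpoly + b * f)) *ᵥ v = v := by
      rw [hab, map_one, Matrix.one_mulVec]
    rw [map_add, map_mul, map_mul, Matrix.aeval_self_charpoly, mul_zero, zero_add,
      ← Matrix.mulVec_mulVec, hf, Matrix.mulVec_zero] at h1
    exact h1.symm
  obtain ⟨n, hn⟩ : ∃ n, n = Fintype.card κ := ⟨_, rfl⟩
  have hli : LinearIndependent F (fun i : Fin n => (T ^ (i : ℕ)) *ᵥ v) := by
    rw [Fintype.linearIndependent_iff]
    intro g hg i
    have hf : (aeval T (∑ j : Fin n, monomial (j : ℕ) (g j))) *ᵥ v = 0 := by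
      rw [map_sum, Matrix.sum_mulVec, ← hg]
      refine Finset.sum_congr rfl (fun j _ => ?_)
      rw [aeval_monomial, Algebra.algebraMap_eq_smul_one, smul_mul_assoc, one_mul,
        Matrix.smul_mulVec]
    have hdvd := key _ hf
    have hdeg : (∑ j : Fin n, monomial (j : ℕ) (g j)).degree < T.charpoly.degree := by
      rw [Matrix.charpoly_degree_eq_dim, ← hn]
      refine lt_of_le_of_lt (degree_sum_le _ _) ?_
      rw [Finset.sup_lt_iff (WithBot.bot_lt_coe _)]
      intro j _
      exact lt_of_le_of_lt (degree_monomial_le _ _) (by exact_mod_cast j.2)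
    have hzero : (∑ j : Fin n, monomial (j : ℕ) (g j)) = 0 :=
      eq_zero_of_dvd_of_degree_lt hdvd hdeg
    have hcoeff := congrArg (fun q : F[X] => q.coeff (i : ℕ)) hzero
    simp only [finsetSum_coeff, coeff_monomial, coeff_zero] at hcoeff
    rw [Finset.sum_eq_single i] at hcoeff
    · simpa using hcoeff
    · intro j _ hji
      rw [if_neg]
      exact fun h => hji (Fin.ext h)
    · intro h
      exact absurd (Finset.mem_univ i) h
  have hspan : Submodule.span F (Set.range (fun i : Fin n => (T ^ (i : ℕ)) *ᵥ v)) = ⊤ := by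
    apply hli.span_eq_top_of_card_eq_finrank'
    rw [Fintype.card_fin, Module.finrank_fintype_fun_eq_card, hn]
  have hlin : Matrix.mulVecLin D = 0 := by
    apply LinearMap.ext_on hspan
    rintro _ ⟨i, rfl⟩
    show D *ᵥ ((T ^ (i : ℕ)) *ᵥ v) = 0
    have hc : D * T ^ (i : ℕ) = T ^ (i : ℕ) * D :=
      (Commute.pow_right (show Commute D T from hDT) _).eq
    rw [Matrix.mulVec_mulVec, hc, ← Matrix.mulVec_mulVec, hDv, Matrix.mulVec_zero]
  ext a b
  have h2 := congrFun (LinearMap.congr_fun hlin (Pi.single b 1)) a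
  simpa using h2

end Cfsg.Agent.Lib.Helper10.BCIRRKILL
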