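import Mathlib
import Cfsg.Agent.Lib.Helper30.CTIStmt

/-!
# S4064, piece DM: `D_u ∩ M = 1`
-/

set_option autoImplicit false

universe u

namespace Cfsg.Agent.Lib.Helper10.CTIDM

open Cfsg.Agent.Lib.Helper30.CTIStmt

theorem main : Cfsg.Agent.Lib.Helper30.CTIStmt.DM.{u} := by
  intro G _ _ M hcc hti u hu hunot
  rw [eq_bot_iff]
  intro y hy
  rw [Subgroup.mem_bot]
  by_contra hy1
  obtain ⟨⟨hyH, hyu⟩, hyM⟩ := hy
  have hu2 : u * u = 1 := by rw [← pow_two, ← hu, pow_orderOf_eq_one]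
  obtain ⟨h, hh, hhy⟩ := hyu
  have hhy' : u * h * u⁻¹ = y := hhy
  have hA' : u⁻¹ * y * u = h := by rw [← hhy']; group
  have hB : u * y * u⁻¹ = h := by
    calc u * y * u⁻¹ = u * (u * h * u⁻¹) * u⁻¹ := by rw [hhy']
      _ = (u * u) * h * (u * u)⁻¹ := by group
      _ = h := by rw [hu2]; simp
  have hB' : u⁻¹ * h * u = y := by rw [← hB]; group
  have hcM : y * h * y⁻¹ * h⁻¹ ∈ M := by
    have h1 : h * y⁻¹ * h⁻¹ ∈ M := (Subgroup.mem_normalizer_iff.mp hh y⁻¹).mp (M.inv_mem hyM)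
    have h2 := M.mul_mem hyM h1
    have e : y * (h * y⁻¹ * h⁻¹) = y * h * y⁻¹ * h⁻¹ := by group
    rwa [e] at h2
  have hm : u⁻¹ * (y * h * y⁻¹ * h⁻¹) * u ∈ M := by
    have e : u⁻¹ * (y * h * y⁻¹ * h⁻¹) * u = h * y * h⁻¹ * y⁻¹ := by
      calc u⁻¹ * (y * h * y⁻¹ * h⁻¹) * u
          = (u⁻¹ * y * u) * (u⁻¹ * h * u) * (u⁻¹ * y * u)⁻¹ * (u⁻¹ * h * u)⁻¹ := by group
        _ = h * y * h⁻¹ * y⁻¹ := by rw [hA', hB']
    rw [e]
    exact M.mul_mem ((Subgroup.mem_normalizer_iff.mp hh y).mp hyM) (M.inv_mem hyM)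
  have hc1 : y * h * y⁻¹ * h⁻¹ = 1 := by
    by_contra hc
    apply hunot
    refine hti u (u⁻¹ * (y * h * y⁻¹ * h⁻¹) * u) hm ?_ ?_
    · intro h1
      apply hc
      have e : y * h * y⁻¹ * h⁻¹ = u * (u⁻¹ * (y * h * y⁻¹ * h⁻¹) * u) * u⁻¹ := by group
      rw [e, h1]
      group
    · have e : u * (u⁻¹ * (y * h * y⁻¹ * h⁻¹) * u) * u⁻¹ = y * h * y⁻¹ * h⁻¹ := by group
      rw [e]
      exact hcM
  have hcomm : y * h = h * y := by
    calc y * h = (y * h * y⁻¹ * h⁻¹) * (h * y) := by group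
      _ = h * y := by rw [hc1, one_mul]
  have hhM : h ∈ M := by
    apply hcc y hyM hy1
    rw [Subgroup.mem_centralizer_iff]
    intro z hz
    rw [Set.mem_singleton_iff] at hz
    subst hz
    exact hcomm
  exact hunot (hti u y hyM hy1 (hB ▸ hhM))

end Cfsg.Agent.Lib.Helper10.CTIDM
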