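import Mathlib
import Cfsg.Agent.Lib.Helper82.Contrib
import Cfsg.Agent.Lib.Helper82.BlockDim
import Cfsg.Agent.Lib.Helper16.Defect

/-!
# Blocks of rank one with `k(B) = |D|` have equal degrees

Piece RK1 of helper75's split of S4889.
-/

set_option autoImplicit false
open Cfsg

namespace Cfsg.Agent.Lib.Helper10.DecRK1

open Cfsg.Agent.Lib.Helper82.Contrib
open scoped ComplexConjugate

universe u

/-- If every term of a finite integer sum is at least `c` and the sum is at most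
`card * c`, every term equals `c`. -/
theorem eq_of_sum_le {ι : Type*} (s : Finset ι) (f : ι → ℤ) (c : ℤ)
    (hf : ∀ i ∈ s, c ≤ f i) (hsum : ∑ i ∈ s, f i ≤ (s.card : ℤ) * c) :
    ∀ i ∈ s, f i = c := by
  intro i hi
  by_contra hne
  have hlt : c < f i := lt_of_le_of_ne (hf i hi) (Ne.symm hne)
  have h1 : ∑ j ∈ s, c < ∑ j ∈ s, f j :=
    Finset.sum_lt_sum hf ⟨i, hi, hlt⟩
  rw [Finset.sum_const, nsmul_eq_mul] at h1
  exact absurd hsum (not_le.2 h1)

theorem equal_degrees_of_rank_one {G : Type u} [Group G] [Finite G] (p : ℕ) [Fact p.Prime]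
    (M : Ideal AlgInt) (hM : IsPModular p M) (B : Set (IrrCharacter G)) (hB : IsPBlock M B)
    (D : Subgroup G) (hD : IsDefectGroup p M B D) (hl : blockRank p B = 1)
    (hk : Nat.card B = Nat.card D) :
    ∃ n : ℕ, ∀ χ ∈ B, charDegree (χ : G → ℂ) = n := by
  classical
  have hpp : p.Prime := Fact.out
  letI : Fintype G := Fintype.ofFinite G
  haveI := Cfsg.Agent.Lib.CT.Wedderburn.finite_irrCharacter G
  letI : Fintype (IrrCharacter G) := Fintype.ofFinite _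
  by_cases hne : B.Nonempty
  swap
  · refine ⟨0, fun χ hχ => absurd ⟨χ, hχ⟩ hne⟩
  obtain ⟨χ₀, hχ₀⟩ := hne
  -- notation
  set a : ℕ := (Nat.card G).factorization p with ha
  set m : ℕ := sInf ((fun χ : IrrCharacter G => (charDegree (χ : G → ℂ)).factorization p) '' B)
    with hm
  have hcardD : Nat.card D = p ^ (a - m) :=
    Cfsg.Agent.Lib.Helper16.Defect.card_defectGroup p hM B hB D hD
  have hdegC : ∀ ψ : IrrCharacter G, (ψ : G → ℂ) 1 = ((charDegree (ψ : G → ℂ) : ℤ) : ℂ) := by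
    intro ψ
    rw [Int.cast_natCast]
    exact (Cfsg.Agent.Lib.CT.Wedderburn.char_natCast_charDegree
      (Cfsg.Agent.Lib.CT.Wedderburn.isCharacter_of_irr ψ.2)).symm
  have hdegpos : ∀ ψ : IrrCharacter G, (0 : ℤ) < (charDegree (ψ : G → ℂ) : ℤ) := fun ψ =>
    Int.natCast_pos.2 (Cfsg.Agent.Lib.CT.Wedderburn.irr_charDegree_pos ψ.2)
  -- rank one: proportionality
  have hprop : ∀ χ ∈ B, ∀ ψ ∈ B, ∀ ξ : IrrCharacter G,
      ctr p χ ξ * (charDegree (ψ : G → ℂ) : ℤ) = ctr p ψ ξ * (charDegree (χ : G → ℂ) : ℤ) := by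
    intro χ hχ ψ hψ ξ
    have hl' := hl
    unfold blockRank at hl'
    obtain ⟨v₀, -, hspan⟩ := finrank_eq_one_iff'.1 hl'
    obtain ⟨c₁, hc₁⟩ := hspan ⟨pRegularPart p (χ : G → ℂ), Submodule.subset_span ⟨χ, hχ, rfl⟩⟩
    obtain ⟨c₂, hc₂⟩ := hspan ⟨pRegularPart p (ψ : G → ℂ), Submodule.subset_span ⟨ψ, hψ, rfl⟩⟩
    have e1 : c₁ • (v₀ : G → ℂ) = pRegularPart p (χ : G → ℂ) := congrArg Subtype.val hc₁
    have e2 : c₂ • (v₀ : G → ℂ) = pRegularPart p (ψ : G → ℂ) := congrArg Subtype.val hc₂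
    have h1reg : IsPRegular p (1 : G) := by
      unfold IsPRegular
      rw [orderOf_one]
      exact hpp.not_dvd_one
    have hval : ∀ (φ : G → ℂ), pRegularPart p φ 1 = φ 1 := by
      intro φ
      unfold pRegularPart
      rw [if_pos h1reg]
    have e3 : c₁ * (v₀ : G → ℂ) 1 = (χ : G → ℂ) 1 := by
      have h2 := congrFun e1 1
      rw [hval] at h2
      exact h2
    have e4 : c₂ * (v₀ : G → ℂ) 1 = (ψ : G → ℂ) 1 := by
      have h2 := congrFun e2 1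
      rw [hval] at h2
      exact h2
    have hc : ∀ (φ : IrrCharacter G) (c : ℂ), c • (v₀ : G → ℂ) = pRegularPart p (φ : G → ℂ) →
        (ctr p φ ξ : ℂ) = ((p ^ (Nat.card G).factorization p : ℕ) : ℂ)
          * (c * classInner (v₀ : G → ℂ) (ξ : G → ℂ)) := by
      intro φ c hφ
      rw [← ctr_spec, tw_eq_smul, Cfsg.Agent.Lib.CT.Orth.classInner_smul_left, ← hφ,
        Cfsg.Agent.Lib.CT.Orth.classInner_smul_left]
    have h5 : ((ctr p χ ξ * (charDegree (ψ : G → ℂ) : ℤ) : ℤ) : ℂ)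
        = ((ctr p ψ ξ * (charDegree (χ : G → ℂ) : ℤ) : ℤ) : ℂ) := by
      rw [Int.cast_mul, Int.cast_mul, ← hdegC ψ, ← hdegC χ, hc χ c₁ e1, hc ψ c₂ e2, ← e3, ← e4]
      ring
    exact_mod_cast h5
  -- the sum of squares of the degrees
  set S : ℤ := ∑ ψ ∈ Finset.univ.filter (· ∈ B), (charDegree (ψ : G → ℂ) : ℤ) ^ 2 with hS
  have hSpos : 0 < S := by
    apply Finset.sum_pos'
    · intro ψ _
      positivity
    · exact ⟨χ₀, Finset.mem_filter.2 ⟨Finset.mem_univ _, hχ₀⟩, by have := hdegpos χ₀; positivity⟩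
  -- `ctr χ χ * S = p^a χ(1)^2`
  have hkey : ∀ χ ∈ B, ctr p χ χ * S = (p : ℤ) ^ a * (charDegree (χ : G → ℂ) : ℤ) ^ 2 := by
    intro χ hχ
    have h1 := Cfsg.Agent.Lib.Helper82.BlockDim.sum_ctr_mul_deg p χ
    rw [← Cfsg.Agent.Lib.Helper82.BlockDim.sum_block_eq p hM B hB χ hχ] at h1
    have h2 : ctr p χ χ * S
        = (charDegree (χ : G → ℂ) : ℤ) * ∑ ψ ∈ Finset.univ.filter (· ∈ B),
            ctr p χ ψ * (charDegree (ψ : G → ℂ) : ℤ) := by
      rw [hS, Finset.mul_sum, Finset.mul_sum]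
      refine Finset.sum_congr rfl fun ψ hψ => ?_
      have hψB : ψ ∈ B := (Finset.mem_filter.1 hψ).2
      have h3 := hprop χ hχ ψ hψB χ
      rw [ctr_symm p ψ χ] at h3
      calc ctr p χ χ * (charDegree (ψ : G → ℂ) : ℤ) ^ 2
          = (ctr p χ χ * (charDegree (ψ : G → ℂ) : ℤ)) * (charDegree (ψ : G → ℂ) : ℤ) := by ring
        _ = (ctr p χ ψ * (charDegree (χ : G → ℂ) : ℤ)) * (charDegree (ψ : G → ℂ) : ℤ) := by
            rw [h3]
        _ = (charDegree (χ : G → ℂ) : ℤ) * (ctr p χ ψ * (charDegree (ψ : G → ℂ) : ℤ)) := by ring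
    rw [h2, h1]
    ring
  -- the sum of the self-contributions is `p^a`
  have hsumctr : ∑ χ ∈ Finset.univ.filter (· ∈ B), ctr p χ χ = (p : ℤ) ^ a := by
    have h1 : (∑ χ ∈ Finset.univ.filter (· ∈ B), ctr p χ χ) * S = (p : ℤ) ^ a * S := by
      rw [Finset.sum_mul]
      conv_rhs => rw [hS, Finset.mul_sum]
      refine Finset.sum_congr rfl fun χ hχ => ?_
      exact hkey χ (Finset.mem_filter.1 hχ).2
    exact mul_right_cancel₀ hSpos.ne' h1
  -- lower bounds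
  have hlow : ∀ χ ∈ Finset.univ.filter (· ∈ B), (p : ℤ) ^ m ≤ ctr p χ χ := by
    intro χ hχ
    have hχB : χ ∈ B := (Finset.mem_filter.1 hχ).2
    have h1 : m ≤ (charDegree (χ : G → ℂ)).factorization p :=
      Nat.sInf_le (Set.mem_image_of_mem _ hχB)
    have h2 : (p : ℤ) ^ m ∣ ctr p χ χ :=
      (pow_dvd_pow (p : ℤ) h1).trans (pow_dvd_ctr p hM χ χ)
    exact Int.le_of_dvd (ctr_self_pos p χ) h2
  have hcardB : (Finset.univ.filter (· ∈ B)).card = p ^ (a - m) := by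
    rw [← hcardD, ← hk, Nat.card_eq_fintype_card, Fintype.card_subtype]
  -- `m ≤ a`
  have hma : m ≤ a := by
    by_contra hcon
    rw [not_le] at hcon
    have h1 : (p : ℤ) ^ m ≤ ctr p χ₀ χ₀ :=
      hlow χ₀ (Finset.mem_filter.2 ⟨Finset.mem_univ _, hχ₀⟩)
    have h2 : ctr p χ₀ χ₀ ≤ (p : ℤ) ^ a := ctr_self_le p χ₀
    have h3 : (p : ℤ) ^ a < (p : ℤ) ^ m :=
      pow_lt_pow_right₀ (by exact_mod_cast hpp.one_lt) hcon
    omega
  have hall : ∀ χ ∈ Finset.univ.filter (· ∈ B), ctr p χ χ = (p : ℤ) ^ m := by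
    apply eq_of_sum_le _ _ _ hlow
    rw [hsumctr, hcardB]
    push_cast
    rw [← pow_add, Nat.sub_add_cancel hma]
  -- conclusion
  refine ⟨charDegree (χ₀ : G → ℂ), fun χ hχ => ?_⟩
  have h1 := hkey χ hχ
  have h2 := hkey χ₀ hχ₀
  rw [hall χ (Finset.mem_filter.2 ⟨Finset.mem_univ _, hχ⟩)] at h1
  rw [hall χ₀ (Finset.mem_filter.2 ⟨Finset.mem_univ _, hχ₀⟩)] at h2
  have hpa : (p : ℤ) ^ a ≠ 0 := pow_ne_zero _ (by exact_mod_cast hpp.ne_zero)
  have h3 : (charDegree (χ : G → ℂ) : ℤ) ^ 2 = (charDegree (χ₀ : G → ℂ) : ℤ) ^ 2 :=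
    mul_left_cancel₀ hpa (h1.symm.trans h2)
  have h4 : (charDegree (χ : G → ℂ) : ℤ) = (charDegree (χ₀ : G → ℂ) : ℤ) := by
    have := hdegpos χ
    have := hdegpos χ₀
    nlinarith
  exact_mod_cast h4

end Cfsg.Agent.Lib.Helper10.DecRK1
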