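import Mathlib
import Cfsg.Agent.Lib.Helper10.EMC2FIX
import Cfsg.Agent.Lib.Helper41.TMWire
import Cfsg.Agent.Lib.Helper72.C2MPLANE0M
import Cfsg.Agent.Lib.Helper91.C2MPLUSSUMM
import Cfsg.Agent.Lib.Helper28.C2MQUADVAN
import Cfsg.Agent.Lib.Helper47.C2MBLOCK4M

/-!
# S5990, piece C2FIX, wired

`EMC2FIX.main` with the landed minus Props of S5987 (`Helper41.TMWire`) and the four landed
pieces of the sub-call `Helper10.C2MStmt` (PLANE0M helper72, PLUSSUMM helper91, QUADVANM helper28,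
BLOCK4M helper47).  Remaining hypotheses: `EMStmt.CancelM`, `EMStmt.SubTypeE`.
-/

set_option autoImplicit false

universe u

namespace Cfsg.Agent.Lib.Helper10.EMC2FIXW

open Cfsg.Agent.Lib.Helper41.EMStmt

theorem main (hCancel : CancelM.{u}) (hST : SubTypeE.{u}) : C2Fix.{u} :=
  Cfsg.Agent.Lib.Helper10.EMC2FIX.main
    Cfsg.Agent.Lib.Helper41.TMWire.hTop
    Cfsg.Agent.Lib.Helper41.TMWire.hSubPerp
    Cfsg.Agent.Lib.Helper41.TMWire.hOrthSum
    Cfsg.Agent.Lib.Helper41.TMWire.hTsIn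
    hCancel hST
    Cfsg.Agent.Lib.Helper72.C2MPLANE0M.main
    Cfsg.Agent.Lib.Helper91.C2MPLUSSUMM.main
    Cfsg.Agent.Lib.Helper28.C2MQUADVAN.main
    Cfsg.Agent.Lib.Helper47.C2MBLOCK4M.main

end Cfsg.Agent.Lib.Helper10.EMC2FIXW
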