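import Mathlib
import Cfsg.Agent.Lib.Helper10.KW1
import Cfsg.Agent.S0143
import Cfsg.Agent.S0581
import Cfsg.Agent.S0560
import Cfsg.Agent.S0562

set_option autoImplicit false

/-! The minimal simple configuration for Wielandt's theorem on products of nilpotent groups of
coprime orders (Kegel–Wielandt package, helper10). -/

namespace Cfsg.Agent.Lib.Helper10.KW2

open scoped Pointwise
open Cfsg.Agent.Lib.Helper10.KW0 Cfsg.Agent.Lib.Helper10.KW1

variable {G : Type*} [Group G] [Finite G]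

/-- A simple non-solvable group `G = AB` with `A`, `B` nilpotent of coprime orders, such that
every proper factorized subgroup is solvable. -/
structure Cfg (A B : Subgroup G) : Prop where
  nilA : Group.IsNilpotent A
  nilB : Group.IsNilpotent B
  cop : (Nat.card A).Coprime (Nat.card B)
  fac : ∀ g : G, ∃ a ∈ A, ∃ b ∈ B, g = a * b
  simple : ∀ N : Subgroup G, N.Normal → N = ⊥ ∨ N = ⊤
  nonsolv : ¬ Group.IsSolvable G
  ih : ∀ M : Subgroup G, M ≠ ⊤ →
    (∀ m ∈ M, ∃ a ∈ A, ∃ b ∈ B, a ∈ M ∧ b ∈ M ∧ m = a * b) → Group.IsSolvable M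

variable {A B : Subgroup G}

theorem Cfg.symm (h : Cfg A B) : Cfg B A where
  nilA := h.nilB
  nilB := h.nilA
  cop := h.cop.symm
  fac := fun g => by
    obtain ⟨a, ha, b, hb, e⟩ := h.fac g⁻¹
    refine ⟨b⁻¹, B.inv_mem hb, a⁻¹, A.inv_mem ha, ?_⟩
    rw [← mul_inv_rev, ← e, inv_inv]
  simple := h.simple
  nonsolv := h.nonsolv
  ih := fun M hM hfac => by
    apply h.ih M hM
    intro m hm
    obtain ⟨b, hb, a, ha, hbM, haM, e⟩ := hfac m⁻¹ (M.inv_mem hm)
    refine ⟨a⁻¹, A.inv_mem ha, b⁻¹, B.inv_mem hb, M.inv_mem haM, M.inv_mem hbM, ?_⟩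
    rw [← mul_inv_rev, ← e, inv_inv]

theorem Cfg.inf (h : Cfg A B) : A ⊓ B = ⊥ := (Subgroup.disjoint_of_coprime_natCard h.cop).eq_bot

theorem Cfg.card (h : Cfg A B) : Nat.card G = Nat.card A * Nat.card B := by
  have := Cfsg.Agent.S0560.card_mul_inf_eq A B h.fac
  rw [h.inf, Subgroup.card_bot, mul_one] at this
  exact this

theorem Cfg.index_A (h : Cfg A B) : A.index = Nat.card B := by
  have h1 := A.card_mul_index
  rw [h.card] at h1
  exact Nat.eq_of_mul_eq_mul_left Nat.card_pos h1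

theorem Cfg.index_B (h : Cfg A B) : B.index = Nat.card A := by
  have h1 := B.card_mul_index
  rw [h.card, mul_comm (Nat.card A)] at h1
  exact Nat.eq_of_mul_eq_mul_left Nat.card_pos h1

theorem Cfg.unique (h : Cfg A B) {a a' b b' : G} (ha : a ∈ A) (hb : b ∈ B) (ha' : a' ∈ A)
    (hb' : b' ∈ B) (e : a * b = a' * b') : a = a' ∧ b = b' := by
  have h1 : a'⁻¹ * a = b' * b⁻¹ := by
    calc a'⁻¹ * a = a'⁻¹ * (a * b) * b⁻¹ := by group
      _ = a'⁻¹ * (a' * b') * b⁻¹ := by rw [e]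
      _ = b' * b⁻¹ := by group
  have h2 : a'⁻¹ * a ∈ A ⊓ B :=
    ⟨A.mul_mem (A.inv_mem ha') ha, by rw [h1]; exact B.mul_mem hb' (B.inv_mem hb)⟩
  rw [h.inf, Subgroup.mem_bot] at h2
  have h3 : a = a' := by
    calc a = a' * (a'⁻¹ * a) := by group
      _ = a' := by rw [h2, mul_one]
  refine ⟨h3, ?_⟩
  subst h3
  exact mul_left_cancel e

theorem Cfg.ne_top_A (h : Cfg A B) : A ≠ ⊤ := by
  intro hA
  apply h.nonsolv
  have h1 : Group.IsNilpotent (⊤ : Subgroup G) := hA ▸ h.nilA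
  have h2 : Group.IsNilpotent G := Group.nilpotent_of_mulEquiv Subgroup.topEquiv
  exact inferInstance

theorem Cfg.ne_bot_A (h : Cfg A B) : A ≠ ⊥ := by
  intro hA
  apply h.symm.ne_top_A
  rw [eq_top_iff]
  intro g _
  obtain ⟨a, ha, b, hb, e⟩ := h.fac g
  rw [hA, Subgroup.mem_bot] at ha
  rw [e, ha, one_mul]; exact hb

theorem Cfg.nontrivial (h : Cfg A B) : Nontrivial G := by
  by_contra hn
  rw [not_nontrivial_iff_subsingleton] at hn
  have : Group.IsSolvable G := inferInstance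
  exact h.nonsolv this

theorem Cfg.isSimple (h : Cfg A B) : IsSimpleGroup G :=
  { toNontrivial := h.nontrivial
    eq_bot_or_eq_top_of_normal := h.simple }

theorem Cfg.center_eq_bot (h : Cfg A B) : Subgroup.center G = ⊥ := by
  rcases h.simple (Subgroup.center G) inferInstance with h1 | h1
  · exact h1
  · exfalso
    apply h.nonsolv
    apply Group.isSolvable_of_comm
    intro a b
    have : a ∈ Subgroup.center G := by rw [h1]; trivial
    exact (Subgroup.mem_center_iff.mp this b).symm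

theorem Cfg.card_not_prime (h : Cfg A B) : ¬ (Nat.card G).Prime := by
  intro hp
  haveI : Fact (Nat.card G).Prime := ⟨hp⟩
  have := isCyclic_of_prime_card (α := G) rfl
  apply h.nonsolv
  apply Group.isSolvable_of_comm
  intro a b
  exact (IsCyclic.commGroup (α := G)).mul_comm a b

theorem Cfg.normalizer_ne_top (h : Cfg A B) {X : Subgroup G} (h1 : X ≠ ⊥) (h2 : X ≠ ⊤) :
    Subgroup.normalizer (X : Set G) ≠ ⊤ := by
  intro hN
  rcases h.simple X (Subgroup.normalizer_eq_top_iff.mp hN) with h3 | h3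
  · exact h1 h3
  · exact h2 h3

theorem Cfg.centralizer_ne_top (h : Cfg A B) {x : G} (hx : x ≠ 1) :
    Subgroup.centralizer ({x} : Set G) ≠ ⊤ := by
  intro hC
  have : x ∈ Subgroup.center G := by
    rw [Subgroup.mem_center_iff]
    intro g
    have hg : g ∈ Subgroup.centralizer ({x} : Set G) := by rw [hC]; trivial
    rw [Subgroup.mem_centralizer_iff] at hg
    exact (hg x rfl).symm
  rw [h.center_eq_bot, Subgroup.mem_bot] at this
  exact hx this

/-- (F1) A subgroup containing `B` and a nontrivial normal subgroup of `A` is `G`. -/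
theorem Cfg.gen (h : Cfg A B) {X : Subgroup G} (hX : NormIn A X) (hne : X ≠ ⊥)
    {M : Subgroup G} (hXM : X ≤ M) (hBM : B ≤ M) : M = ⊤ := by
  have h1 : Subgroup.normalClosure (X : Set G) ≤ M := by
    unfold Subgroup.normalClosure
    apply (Subgroup.closure_le M).mpr
    intro y hy
    obtain ⟨x, hx, hxy⟩ := Group.mem_conjugatesOfSet_iff.mp hy
    obtain ⟨c, rfl⟩ := isConj_iff.mp hxy
    obtain ⟨b, hb, a, ha, e⟩ := h.symm.fac c
    have e1 : c * x * c⁻¹ = b * (a * x * a⁻¹) * b⁻¹ := by rw [e]; group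
    rw [e1]
    exact M.mul_mem (M.mul_mem (hBM hb) (hXM (hX.2 a ha x hx))) (M.inv_mem (hBM hb))
  rcases h.simple _ (Subgroup.normalClosure_normal (s := (X : Set G))) with h2 | h2
  · exfalso
    apply hne
    rw [eq_bot_iff, ← h2]
    exact Subgroup.le_normalClosure
  · rw [eq_top_iff, ← h2]; exact h1

/-- Neither factor is a `p`-group (Burnside). -/
theorem Cfg.not_pgroup_B (h : Cfg A B) (p : ℕ) [hp : Fact p.Prime] : ¬ IsPGroup p B := by
  intro hB
  obtain ⟨z, -, hz, hz1⟩ := exists_mem_inf_Zc A A h.nilA (normIn_self A) h.ne_bot_A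
  have hle : A ≤ Subgroup.centralizer ({z} : Set G) := by
    intro a ha
    rw [Subgroup.mem_centralizer_iff]
    intro y hy
    rw [Set.mem_singleton_iff] at hy
    subst hy
    exact (((mem_Zc A y).mp hz).2 a ha).symm
  have h1 : (Subgroup.centralizer ({z} : Set G)).index ∣ Nat.card B := by
    rw [← h.index_A]; exact Subgroup.index_dvd_of_le hle
  obtain ⟨n, hn⟩ := IsPGroup.iff_card.mp hB
  rw [hn] at h1
  obtain ⟨k, -, hk⟩ := (Nat.dvd_prime_pow hp.out).mp h1
  haveI := h.isSimple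
  exact h.card_not_prime (Cfsg.Agent.S0143.result p k hp.out z hz1 hk)

theorem Cfg.not_pgroup_A (h : Cfg A B) (p : ℕ) [Fact p.Prime] : ¬ IsPGroup p A :=
  h.symm.not_pgroup_B p

theorem Cfg.exists_prime_ne (h : Cfg A B) (t : ℕ) [ht : Fact t.Prime] :
    ∃ p : ℕ, p.Prime ∧ p ∣ Nat.card A ∧ p ≠ t := by
  by_contra hcon
  push Not at hcon
  apply h.not_pgroup_A t
  have := Nat.eq_prime_pow_of_unique_prime_dvd (n := Nat.card A) (p := t) Nat.card_pos.ne'
    (fun {d} hd hdvd => hcon d hd hdvd)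
  exact IsPGroup.of_card this

/-- A subgroup of order prime to `|B|` lies in a conjugate of `A` (Wielandt). -/
theorem Cfg.conj_A (h : Cfg A B) (U : Subgroup G) (hU : (Nat.card U).Coprime (Nat.card B)) :
    ∃ g : G, U ≤ MulAut.conj g • A := by
  apply Cfsg.Agent.S0581.result A U h.nilA (by rw [h.index_A]; exact h.cop)
  intro p hp hpU
  have h1 : p ∣ Nat.card A * Nat.card B := by
    rw [← h.card]; exact hpU.trans (Subgroup.card_subgroup_dvd_card U)
  rcases (Nat.Prime.dvd_mul hp).mp h1 with h2 | h2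
  · exact h2
  · exfalso
    have := Nat.Coprime.eq_one_of_dvd (Nat.Coprime.coprime_dvd_left hpU hU) h2
    exact hp.ne_one this

theorem Cfg.conj_B (h : Cfg A B) (U : Subgroup G) (hU : (Nat.card U).Coprime (Nat.card A)) :
    ∃ g : G, U ≤ MulAut.conj g • B := h.symm.conj_A U hU

/-- Conjugates of `A` are conjugates by elements of `B`. -/
theorem Cfg.conj_eq (h : Cfg A B) (g : G) : ∃ b ∈ B, MulAut.conj g • A = MulAut.conj b • A := by
  obtain ⟨b, hb, a, ha, e⟩ := h.symm.fac g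
  refine ⟨b, hb, ?_⟩
  rw [e, ← conj_conj, conj_eq_of_normIn (normIn_self A) ha]

theorem Cfg.dvd_card (h : Cfg A B) {p : ℕ} (hp : p.Prime) (hpG : p ∣ Nat.card G) :
    p ∣ Nat.card A ∨ p ∣ Nat.card B := by
  rw [h.card] at hpG
  exact (Nat.Prime.dvd_mul hp).mp hpG

theorem Cfg.not_dvd_B (h : Cfg A B) {p : ℕ} (hp : p.Prime) (hpA : p ∣ Nat.card A) :
    ¬ p ∣ Nat.card B := by
  intro hpB
  exact hp.ne_one (Nat.eq_one_of_dvd_coprimes h.cop hpA hpB)

/-- The order of a factorized subgroup. -/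
theorem Cfg.card_fact (h : Cfg A B) (M : Subgroup G)
    (hM : ∀ m ∈ M, ∃ a ∈ A, ∃ b ∈ B, a ∈ M ∧ b ∈ M ∧ m = a * b) :
    Nat.card M = Nat.card (A ⊓ M : Subgroup G) * Nat.card (B ⊓ M : Subgroup G) := by
  rw [← Nat.card_prod]
  symm
  apply Nat.card_congr
  refine Equiv.ofBijective
    (fun x : (A ⊓ M : Subgroup G) × (B ⊓ M : Subgroup G) =>
      (⟨(x.1 : G) * x.2, M.mul_mem x.1.2.2 x.2.2.2⟩ : M)) ⟨?_, ?_⟩
  · rintro ⟨⟨a, ha⟩, ⟨b, hb⟩⟩ ⟨⟨a', ha'⟩, ⟨b', hb'⟩⟩ e
    simp only [Subtype.mk.injEq] at e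
    obtain ⟨e1, e2⟩ := h.unique ha.1 hb.1 ha'.1 hb'.1 e
    subst e1; subst e2; rfl
  · rintro ⟨m, hm⟩
    obtain ⟨a, ha, b, hb, haM, hbM, e⟩ := hM m hm
    exact ⟨(⟨a, ha, haM⟩, ⟨b, hb, hbM⟩), Subtype.ext e.symm⟩

/-- A normal `r`-subgroup of a factorized subgroup lies in `A` when `r` divides `|A|`. -/
theorem Cfg.normal_sub_A (h : Cfg A B) (L U : Subgroup G)
    (hL : ∀ m ∈ L, ∃ a ∈ A, ∃ b ∈ B, a ∈ L ∧ b ∈ L ∧ m = a * b) (hUL : U ≤ L)
    (hnorm : ∀ l ∈ L, ∀ u ∈ U, l * u * l⁻¹ ∈ U) (r : ℕ) [hr : Fact r.Prime]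
    (hrA : r ∣ Nat.card A) (hU : IsPGroup r U) : U ≤ A := by
  have hidx : ¬ r ∣ (A.subgroupOf L).index := by
    intro hdvd
    have h1 : Nat.card (A ⊓ L : Subgroup G) * (A ⊓ L).relIndex L = Nat.card L :=
      Cfsg.Agent.Lib.Helper10.Thompson.card_mul_relIndex inf_le_right
    rw [Subgroup.inf_relIndex_right, h.card_fact L hL] at h1
    have h2 : A.relIndex L = Nat.card (B ⊓ L : Subgroup G) :=
      Nat.eq_of_mul_eq_mul_left Nat.card_pos h1
    have h3 : r ∣ Nat.card (B ⊓ L : Subgroup G) := by rw [← h2]; exact hdvd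
    exact h.not_dvd_B hr.out hrA (h3.trans (Subgroup.card_dvd_of_le inf_le_left))
  obtain ⟨g, hg⟩ := Cfsg.Agent.S0581.pgroup_le_conj (A.subgroupOf L) r hidx (U.subgroupOf L)
    (hU.comap_of_injective L.subtype L.subtype_injective)
  intro u hu
  have hu' : (g : G) * u * (g : G)⁻¹ ∈ U := hnorm g g.2 u hu
  have h1 : (⟨(g : G) * u * (g : G)⁻¹, hUL hu'⟩ : L) ∈ U.subgroupOf L := by
    rw [Subgroup.mem_subgroupOf]; exact hu'
  have h2 := hg h1
  rw [mem_conj, Subgroup.mem_subgroupOf] at h2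
  have e : ((g⁻¹ * (⟨(g : G) * u * (g : G)⁻¹, hUL hu'⟩ : L) * g : L) : G) = u := by
    simp [mul_assoc]
  rw [e] at h2
  exact h2

theorem solv_of_le {K L : Subgroup G} (hKL : K ≤ L) (hL : Group.IsSolvable L) :
    Group.IsSolvable K :=
  Group.isSolvable_of_isSolvable_injective (Subgroup.inclusion_injective hKL)

end Cfsg.Agent.Lib.Helper10.KW2
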