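import Mathlib
import Cfsg.Agent.Lib.Helper10.KW2

set_option autoImplicit false

/-! Case II of Wielandt's theorem: some pair of nontrivial normal subgroups of the factors
generates a proper subgroup (Kegel–Wielandt package, helper10). -/

namespace Cfsg.Agent.Lib.Helper10.KW3

open scoped Pointwise
open Cfsg.Agent.Lib.Helper10.KW0 Cfsg.Agent.Lib.Helper10.KW1 Cfsg.Agent.Lib.Helper10.KW2

variable {G : Type*} [Group G] [Finite G] {A B : Subgroup G}

omit [Finite G] in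
theorem normIn_normal {A X : Subgroup G} (h : NormIn A X) : (X.subgroupOf A).Normal := by
  refine ⟨fun n hn g => ?_⟩
  rw [Subgroup.mem_subgroupOf] at hn ⊢
  exact h.2 g g.2 n hn

/-- A pair of nontrivial normal subgroups of the factors generating a proper subgroup. -/
def BadPair (A B A₀ B₀ : Subgroup G) : Prop :=
  NormIn A A₀ ∧ NormIn B B₀ ∧ A₀ ≠ ⊥ ∧ B₀ ≠ ⊥ ∧ A₀ ⊔ B₀ ≠ ⊤

omit [Finite G] in
theorem BadPair.symm {A₀ B₀ : Subgroup G} (h : BadPair A B A₀ B₀) : BadPair B A B₀ A₀ :=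
  ⟨h.2.1, h.1, h.2.2.2.1, h.2.2.1, by rw [sup_comm]; exact h.2.2.2.2⟩

structure IIData (A B A₀ B₀ K F : Subgroup G) : Prop where
  cfg : Cfg A B
  bad : BadPair A B A₀ B₀
  max : ∀ A₁ B₁, BadPair A B A₁ B₁ → Nat.card A₁ * Nat.card B₁ ≤ Nat.card A₀ * Nat.card B₀
  hK : K = A₀ ⊔ B₀
  hFK : F ≤ K
  nilF : Group.IsNilpotent F
  normF : ∀ g ∈ Subgroup.normalizer (K : Set G), ∀ x ∈ F, g * x * g⁻¹ ∈ F
  centF : ∀ x ∈ K, (∀ f ∈ F, x * f = f * x) → x ∈ F

variable {A₀ B₀ K F : Subgroup G}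

theorem IIData.symm (d : IIData A B A₀ B₀ K F) : IIData B A B₀ A₀ K F where
  cfg := d.cfg.symm
  bad := d.bad.symm
  max := fun B₁ A₁ h => by
    rw [mul_comm, mul_comm (Nat.card B₀)]
    exact d.max A₁ B₁ h.symm
  hK := d.hK.trans (sup_comm _ _)
  hFK := d.hFK
  nilF := d.nilF
  normF := d.normF
  centF := d.centF

theorem IIData.A₀_le (d : IIData A B A₀ B₀ K F) : A₀ ≤ K := d.hK ▸ le_sup_left

theorem IIData.B₀_le (d : IIData A B A₀ B₀ K F) : B₀ ≤ K := d.hK ▸ le_sup_right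

theorem IIData.K_ne_top (d : IIData A B A₀ B₀ K F) : K ≠ ⊤ := d.hK ▸ d.bad.2.2.2.2

theorem IIData.K_ne_bot (d : IIData A B A₀ B₀ K F) : K ≠ ⊥ := by
  intro h
  apply d.bad.2.2.1
  rw [eq_bot_iff, ← h]
  exact d.A₀_le

theorem IIData.fact_L (d : IIData A B A₀ B₀ K F) :
    ∀ m ∈ Subgroup.normalizer (K : Set G), ∃ a ∈ A, ∃ b ∈ B,
      a ∈ Subgroup.normalizer (K : Set G) ∧ b ∈ Subgroup.normalizer (K : Set G) ∧ m = a * b := by
  intro m hm
  have := Cfsg.Agent.S0562.result A B A₀ B₀ d.cfg.fac d.bad.1.1 (normIn_normal d.bad.1)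
    d.bad.2.1.1 (normIn_normal d.bad.2.1) m (by rw [← d.hK]; exact hm)
  obtain ⟨a, ha, b, hb, e⟩ := this
  rw [← d.hK] at ha hb
  exact ⟨a, ha.2, b, hb.2, ha.1, hb.1, e⟩

theorem IIData.rPart_normal (d : IIData A B A₀ B₀ K F) (r : ℕ) [Fact r.Prime] :
    ∀ l ∈ Subgroup.normalizer (K : Set G), ∀ u ∈ rPart F r, l * u * l⁻¹ ∈ rPart F r :=
  fun l hl u hu => rPart_conj_mem F d.nilF r l (d.normF l hl) u hu

theorem IIData.step (d : IIData A B A₀ B₀ K F) (r : ℕ) [hr : Fact r.Prime]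
    (hrA : r ∣ Nat.card A) (hne : rPart F r ≠ ⊥) : rPart F r ≤ A ∧ Ec A r ≤ A₀ := by
  have hle : rPart F r ≤ A :=
    d.cfg.normal_sub_A (Subgroup.normalizer (K : Set G)) (rPart F r) d.fact_L
      ((rPart_le F r).trans (d.hFK.trans Subgroup.le_normalizer)) (d.rPart_normal r) r hrA
      (isPGroup_rPart F r)
  refine ⟨hle, ?_⟩
  have hFr_ne_top : rPart F r ≠ ⊤ := fun h =>
    d.K_ne_top (top_le_iff.mp (h ▸ (rPart_le F r).trans d.hFK))
  have hN := d.cfg.normalizer_ne_top hne hFr_ne_top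
  have hKN : K ≤ Subgroup.normalizer (rPart F r : Set G) :=
    Cfsg.Agent.S0581.le_normalizer_of_conj_mem K (rPart F r)
      (fun x hx u hu => d.rPart_normal r x (Subgroup.le_normalizer hx) u hu)
  have hEN : Ec A r ≤ Subgroup.normalizer (rPart F r : Set G) := by
    apply Cfsg.Agent.S0581.le_normalizer_of_conj_mem
    intro x hx u hu
    have hu' := (mem_rPart F d.nilF r u).mp hu
    have hc := Ec_commute A d.cfg.nilA r (hle hu) hu'.2 x hx
    rw [hc, mul_assoc, mul_inv_cancel, mul_one]; exact hu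
  have hbad' : BadPair A B (A₀ ⊔ Ec A r) B₀ := by
    refine ⟨normIn_sup d.bad.1 (normIn_Ec A r), d.bad.2.1, ?_, d.bad.2.2.2.1, ?_⟩
    · intro h; apply d.bad.2.2.1; rw [eq_bot_iff, ← h]; exact le_sup_left
    · intro h
      apply hN
      rw [eq_top_iff, ← h]
      exact sup_le (sup_le (d.A₀_le.trans hKN) hEN) (d.B₀_le.trans hKN)
  have h1 := d.max _ _ hbad'
  have h2 : Nat.card (A₀ ⊔ Ec A r : Subgroup G) ≤ Nat.card A₀ :=
    Nat.le_of_mul_le_mul_right h1 Nat.card_pos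
  have h3 : A₀ = A₀ ⊔ Ec A r := Subgroup.eq_of_le_of_card_ge le_sup_left h2
  rw [h3]; exact le_sup_right

theorem IIData.unique (d : IIData A B A₀ B₀ K F) (r₁ r₂ : ℕ) [Fact r₁.Prime] [Fact r₂.Prime]
    (h1 : r₁ ∣ Nat.card A) (h2 : r₂ ∣ Nat.card A) (hne1 : rPart F r₁ ≠ ⊥)
    (hne2 : rPart F r₂ ≠ ⊥) : r₁ = r₂ := by
  by_contra hne
  have e1 := (d.step r₁ h1 hne1).2
  have e2 := (d.step r₂ h2 hne2).2
  have hA : A ≤ A₀ := fun x hx => (sup_le e1 e2) (mem_sup_Ec A hne hx)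
  have hK : K = ⊤ := d.cfg.symm.gen d.bad.2.1 d.bad.2.2.2.1 d.B₀_le (hA.trans d.A₀_le)
  exact d.K_ne_top hK

theorem IIData.F_ne_bot (d : IIData A B A₀ B₀ K F) : F ≠ ⊥ := by
  intro hF
  apply d.K_ne_bot
  rw [eq_bot_iff]
  intro x hx
  have := d.centF x hx (fun f hf => by
    rw [hF, Subgroup.mem_bot] at hf; rw [hf, mul_one, one_mul])
  rw [hF] at this; exact this

theorem IIData.exists_prime (d : IIData A B A₀ B₀ K F) :
    ∃ (t : ℕ) (_ : Fact t.Prime), t ∣ Nat.card A ∧ rPart F t ≠ ⊥ := by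
  by_contra hcon
  push Not at hcon
  have hcard1 : Nat.card F ≠ 1 := fun h => d.F_ne_bot (Subgroup.card_eq_one.mp h)
  have hsp : (Nat.minFac (Nat.card F)).Prime := Nat.minFac_prime hcard1
  set s := Nat.minFac (Nat.card F) with hs
  haveI : Fact s.Prime := ⟨hsp⟩
  have hsF : s ∣ Nat.card F := Nat.minFac_dvd _
  have hB : ∀ r : ℕ, r.Prime → r ∣ Nat.card F → r ∣ Nat.card B := by
    intro r hr hrF
    haveI : Fact r.Prime := ⟨hr⟩
    rcases d.cfg.dvd_card hr (hrF.trans (Subgroup.card_subgroup_dvd_card F)) with h1 | h1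
    · exact absurd (rPart_ne_bot F d.nilF r hrF) (not_not.mpr (hcon r ⟨hr⟩ h1))
    · exact h1
  have hSne : rPart F s ≠ ⊥ := rPart_ne_bot F d.nilF s hsF
  have hall : ∀ {r : ℕ}, r.Prime → r ∣ Nat.card F → r = s := by
    intro r hr hrF
    haveI : Fact r.Prime := ⟨hr⟩
    exact d.symm.unique r s (hB r hr hrF) (hB s hsp hsF) (rPart_ne_bot F d.nilF r hrF) hSne
  have hFcard := Nat.eq_prime_pow_of_unique_prime_dvd (n := Nat.card F) (p := s)
    Nat.card_pos.ne' hall
  obtain ⟨hSB, hEB⟩ := d.symm.step s (hB s hsp hsF) hSne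
  have hEbot : Ec B s = ⊥ := by
    rw [eq_bot_iff]
    apply (Subgroup.closure_le _).mpr
    intro x hx
    have hxK : x ∈ K := d.B₀_le (hEB (mem_Ec hx.1 hx.2))
    have hxF : x ∈ F := by
      apply d.centF x hxK
      intro f hf
      have h1 : orderOf f ∣ s ^ (Nat.card F).primeFactorsList.length := by
        rw [← hFcard]; exact orderOf_dvd_card_of_mem F hf
      obtain ⟨j, -, hj⟩ := (Nat.dvd_prime_pow hsp).mp h1
      have hfB : f ∈ B := hSB ((mem_rPart F d.nilF s f).mpr ⟨hf, j, hj⟩)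
      exact commute_of_coprime B d.cfg.nilB hx.1 hfB
        (by rw [hj]; exact Nat.Coprime.pow_right j hx.2)
    have h1 : orderOf x ∣ s ^ (Nat.card F).primeFactorsList.length := by
      rw [← hFcard]; exact orderOf_dvd_card_of_mem F hxF
    have h2 : orderOf x = 1 :=
      Nat.eq_one_of_dvd_coprimes (Nat.Coprime.pow_right _ hx.2) dvd_rfl h1
    rw [SetLike.mem_coe, Subgroup.mem_bot]
    exact orderOf_eq_one_iff.mp h2
  exact d.cfg.not_pgroup_B s (isPGroup_of_Ec_eq_bot B s hEbot)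

theorem IIData.false (d : IIData A B A₀ B₀ K F) : False := by
  obtain ⟨t, ht, htA, hT⟩ := d.exists_prime
  obtain ⟨s, hs, hsB, hS⟩ := d.symm.exists_prime
  obtain ⟨hTA, hEA⟩ := d.step t htA hT
  obtain ⟨hSB, hEB⟩ := d.symm.step s hsB hS
  have hprimes : ∀ r : ℕ, r.Prime → r ∣ Nat.card F → r = t ∨ r = s := by
    intro r hr hrF
    haveI : Fact r.Prime := ⟨hr⟩
    have hne := rPart_ne_bot F d.nilF r hrF
    rcases d.cfg.dvd_card hr (hrF.trans (Subgroup.card_subgroup_dvd_card F)) with h1 | h1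
    · left; exact d.unique r t h1 htA hne hT
    · right; exact d.symm.unique r s h1 hsB hne hS
  obtain ⟨p, hp, hpA, hpt⟩ := d.cfg.exists_prime_ne t
  haveI : Fact p.Prime := ⟨hp⟩
  obtain ⟨z, hzZ, hzo⟩ := exists_center_order A d.cfg.nilA p hpA
  have hzA : z ∈ A := Zc_le A hzZ
  have hz1 : z ≠ 1 := by
    rintro rfl; rw [orderOf_one] at hzo; exact hp.ne_one hzo.symm
  have hzK : z ∈ K :=
    d.A₀_le (hEA (mem_Ec hzA (by rw [hzo]; exact (Nat.coprime_primes hp ht.out).mpr hpt)))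
  have hps : p ≠ s := by
    rintro rfl; exact d.cfg.not_dvd_B hp hpA hsB
  have hpF : ¬ p ∣ Nat.card F := fun h => by
    rcases hprimes p hp h with h1 | h1
    · exact hpt h1
    · exact hps h1
  have hcent : ∀ c ∈ K, (∀ y ∈ rPart F t, c * y = y * c) →
      (∀ y ∈ rPart F s, c * y = y * c) → c ∈ F := by
    intro c hc h1 h2
    apply d.centF c hc
    have hle : F ≤ Subgroup.centralizer {c} := by
      apply le_of_prime_pow_mem
      rintro x hx ⟨r, k, hr, hk⟩
      rw [Subgroup.mem_centralizer_iff]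
      intro y hy
      rw [Set.mem_singleton_iff] at hy
      subst hy
      by_cases hk0 : k = 0
      · subst hk0
        rw [pow_zero] at hk
        rw [orderOf_eq_one_iff.mp hk, mul_one, one_mul]
      · haveI : Fact r.Prime := ⟨hr⟩
        have hrF : r ∣ Nat.card F := by
          have := orderOf_dvd_card_of_mem F hx
          rw [hk] at this
          exact (dvd_pow_self r hk0).trans this
        have hxr : x ∈ rPart F r := (mem_rPart F d.nilF r x).mpr ⟨hx, k, hk⟩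
        rcases hprimes r hr hrF with rfl | rfl
        · exact h1 x hxr
        · exact h2 x hxr
    intro f hf
    have := hle hf
    rw [Subgroup.mem_centralizer_iff] at this
    exact this c rfl
  have hzT : ∀ y ∈ rPart F t, z * y = y * z := fun y hy =>
    (((mem_Zc A z).mp hzZ).2 y (hTA hy)).symm
  have hKnorm : ∀ (r : ℕ) [Fact r.Prime], ∀ k ∈ K, ∀ u ∈ rPart F r,
      k * u * k⁻¹ ∈ rPart F r :=
    fun r _ k hk u hu => d.rPart_normal r k (Subgroup.le_normalizer hk) u hu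
  have hKF : K ≤ Subgroup.normalizer (F : Set G) :=
    Cfsg.Agent.S0581.le_normalizer_of_conj_mem K F
      (fun x hx f hf => d.normF x (Subgroup.le_normalizer hx) f hf)
  have hidx : ∀ q : ℕ, q.Prime → q ∣ Nat.card B → q ≠ s →
      ¬ q ∣ (Subgroup.centralizer ({z} : Set G)).index := by
    intro q hq hqB hqs
    haveI : Fact q.Prime := ⟨hq⟩
    set Q := rPart B q with hQdef
    have hQK : Q ≤ K := by
      intro x hx
      have hx' := (mem_rPart B d.cfg.nilB q x).mp hx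
      obtain ⟨j, hj⟩ := hx'.2
      have : x ∈ Ec B s := mem_Ec hx'.1
        (by rw [hj]; exact Nat.Coprime.pow_left j ((Nat.coprime_primes hq hs.out).mpr hqs))
      exact d.B₀_le (hEB this)
    have hQS : ∀ b ∈ Q, ∀ y ∈ rPart F s, b * y = y * b := by
      intro b hb y hy
      have hb' := (mem_rPart B d.cfg.nilB q b).mp hb
      have hy' := (mem_rPart F d.nilF s y).mp hy
      obtain ⟨j, hj⟩ := hb'.2
      obtain ⟨i, hi⟩ := hy'.2
      exact commute_of_coprime B d.cfg.nilB hb'.1 (hSB hy)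
        (by rw [hj, hi]; exact Nat.Coprime.pow _ _ ((Nat.coprime_primes hq hs.out).mpr hqs))
    have hqA : ¬ q ∣ Nat.card A := d.cfg.symm.not_dvd_B hq hqB
    have hqt : q ≠ t := by rintro rfl; exact hqA htA
    have hqF : ¬ q ∣ Nat.card F := fun h => by
      rcases hprimes q hq h with h1 | h1
      · exact hqt h1
      · exact hqs h1
    have hcomm : ∀ b ∈ Q, z⁻¹ * (b * z * b⁻¹) ∈ F := by
      intro b hb
      have hbK := hQK hb
      apply hcent
      · exact K.mul_mem (K.inv_mem hzK) (K.mul_mem (K.mul_mem hbK hzK) (K.inv_mem hbK))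
      · intro y hy
        have h1 := hzT y hy
        have hy2 : b⁻¹ * y * b ∈ rPart F t := by
          have := hKnorm t b⁻¹ (K.inv_mem hbK) y hy
          rwa [inv_inv] at this
        have h2 := hzT _ hy2
        have h3 : (b * z * b⁻¹) * y = y * (b * z * b⁻¹) := by
          calc (b * z * b⁻¹) * y = b * (z * (b⁻¹ * y * b)) * b⁻¹ := by group
            _ = b * ((b⁻¹ * y * b) * z) * b⁻¹ := by rw [h2]
            _ = y * (b * z * b⁻¹) := by group
        have h4 : z⁻¹ * y = y * z⁻¹ := by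
          calc z⁻¹ * y = z⁻¹ * (y * z) * z⁻¹ := by group
            _ = z⁻¹ * (z * y) * z⁻¹ := by rw [h1]
            _ = y * z⁻¹ := by group
        calc z⁻¹ * (b * z * b⁻¹) * y = z⁻¹ * ((b * z * b⁻¹) * y) := by group
          _ = z⁻¹ * (y * (b * z * b⁻¹)) := by rw [h3]
          _ = (z⁻¹ * y) * (b * z * b⁻¹) := by group
          _ = (y * z⁻¹) * (b * z * b⁻¹) := by rw [h4]
          _ = y * (z⁻¹ * (b * z * b⁻¹)) := by group
      · intro y hy
        have h1 := hQS b hb y hy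
        have hy2 : z * y * z⁻¹ ∈ rPart F s := hKnorm s z hzK y hy
        have h2 := hQS b hb _ hy2
        have h3 : (z⁻¹ * b * z) * y = y * (z⁻¹ * b * z) := by
          calc (z⁻¹ * b * z) * y = z⁻¹ * (b * (z * y * z⁻¹)) * z := by group
            _ = z⁻¹ * ((z * y * z⁻¹) * b) * z := by rw [h2]
            _ = y * (z⁻¹ * b * z) := by group
        have h4 : b⁻¹ * y = y * b⁻¹ := by
          calc b⁻¹ * y = b⁻¹ * (y * b) * b⁻¹ := by group
            _ = b⁻¹ * (b * y) * b⁻¹ := by rw [h1]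
            _ = y * b⁻¹ := by group
        calc z⁻¹ * (b * z * b⁻¹) * y = (z⁻¹ * b * z) * (b⁻¹ * y) := by group
          _ = (z⁻¹ * b * z) * (y * b⁻¹) := by rw [h4]
          _ = ((z⁻¹ * b * z) * y) * b⁻¹ := by group
          _ = (y * (z⁻¹ * b * z)) * b⁻¹ := by rw [h3]
          _ = y * (z⁻¹ * (b * z * b⁻¹)) := by group
    obtain ⟨c, hcF, hc⟩ := exists_conj_centralizing p q z 1
      (by rw [pow_one, ← hzo, pow_orderOf_eq_one]) F Q (hKF hzK) (hQK.trans hKF) hcomm hpF hqF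
      (isPGroup_rPart B q)
    have hQ1 : MulAut.conj c • Q ≤ Subgroup.centralizer ({z} : Set G) := by
      intro x hx
      rw [mem_conj] at hx
      have := hc _ hx
      have e : c * (c⁻¹ * x * c) * c⁻¹ = x := by group
      rw [e] at this
      rw [Subgroup.mem_centralizer_iff]
      intro y hy
      rw [Set.mem_singleton_iff] at hy
      subst hy
      exact this.symm
    intro hdvd
    have h1 : q ∣ (MulAut.conj c • Q : Subgroup G).index :=
      hdvd.trans (Subgroup.index_dvd_of_le hQ1)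
    rw [Cfsg.Agent.S0581.index_conj] at h1
    have hcardQ : Nat.card Q = q ^ (Nat.card B).factorization q := card_rPart B q
    have h2 : q ^ ((Nat.card B).factorization q + 1) ∣ Nat.card G := by
      rw [← Q.card_mul_index, hcardQ, pow_succ]
      exact Nat.mul_dvd_mul_left _ h1
    rw [d.cfg.card] at h2
    have h3 : q ^ ((Nat.card B).factorization q + 1) ∣ Nat.card B :=
      Nat.Coprime.dvd_of_dvd_mul_left
        (Nat.Coprime.pow_left _ ((Nat.Prime.coprime_iff_not_dvd hq).mpr hqA)) h2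
    exact Nat.pow_succ_factorization_not_dvd Nat.card_pos.ne' hq h3
  have hAC : A ≤ Subgroup.centralizer ({z} : Set G) := by
    intro a ha
    rw [Subgroup.mem_centralizer_iff]
    intro y hy
    rw [Set.mem_singleton_iff] at hy
    subst hy
    exact (((mem_Zc A y).mp hzZ).2 a ha).symm
  have hdvdB : (Subgroup.centralizer ({z} : Set G)).index ∣ Nat.card B := by
    rw [← d.cfg.index_A]; exact Subgroup.index_dvd_of_le hAC
  have hidx0 : (Subgroup.centralizer ({z} : Set G)).index ≠ 0 := Subgroup.index_ne_zero_of_finite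
  have hpow := Nat.eq_prime_pow_of_unique_prime_dvd
    (n := (Subgroup.centralizer ({z} : Set G)).index) (p := s) hidx0
    (fun {q} hq hqd => by
      by_contra hne
      exact hidx q hq (hqd.trans hdvdB) hne hqd)
  haveI := d.cfg.isSimple
  exact d.cfg.card_not_prime (Cfsg.Agent.S0143.result s _ hs.out z hz1 hpow)

/-- Case II is impossible. -/
theorem caseII (h : Cfg A B) (hex : ∃ A₀ B₀, BadPair A B A₀ B₀) : False := by
  obtain ⟨A₀, B₀, hbad, hmax⟩ : ∃ A₀ B₀, BadPair A B A₀ B₀ ∧ ∀ A₁ B₁, BadPair A B A₁ B₁ →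
      Nat.card A₁ * Nat.card B₁ ≤ Nat.card A₀ * Nat.card B₀ := by
    obtain ⟨A₁, B₁, h1⟩ := hex
    haveI : Nonempty {P : Subgroup G × Subgroup G // BadPair A B P.1 P.2} := ⟨⟨(A₁, B₁), h1⟩⟩
    obtain ⟨P, hP⟩ := Finite.exists_max
      (fun P : {P : Subgroup G × Subgroup G // BadPair A B P.1 P.2} =>
        Nat.card P.1.1 * Nat.card P.1.2)
    exact ⟨P.1.1, P.1.2, P.2, fun A₂ B₂ h2 => hP ⟨(A₂, B₂), h2⟩⟩
  have hKbot : A₀ ⊔ B₀ ≠ ⊥ := by
    intro hK
    apply hbad.2.2.1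
    rw [eq_bot_iff, ← hK]
    exact le_sup_left
  have hL : Subgroup.normalizer ((A₀ ⊔ B₀ : Subgroup G) : Set G) ≠ ⊤ :=
    h.normalizer_ne_top hKbot hbad.2.2.2.2
  have hfactL : ∀ m ∈ Subgroup.normalizer ((A₀ ⊔ B₀ : Subgroup G) : Set G), ∃ a ∈ A, ∃ b ∈ B,
      a ∈ Subgroup.normalizer ((A₀ ⊔ B₀ : Subgroup G) : Set G) ∧
      b ∈ Subgroup.normalizer ((A₀ ⊔ B₀ : Subgroup G) : Set G) ∧ m = a * b := by
    intro m hm
    obtain ⟨a, ha, b, hb, e⟩ := Cfsg.Agent.S0562.result A B A₀ B₀ h.fac hbad.1.1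
      (normIn_normal hbad.1) hbad.2.1.1 (normIn_normal hbad.2.1) m hm
    exact ⟨a, ha.2, b, hb.2, ha.1, hb.1, e⟩
  have hLsolv := h.ih _ hL hfactL
  have hKsolv : Group.IsSolvable (A₀ ⊔ B₀ : Subgroup G) := solv_of_le Subgroup.le_normalizer hLsolv
  obtain ⟨F, hFK, hFnil, hFnorm, hFcent⟩ := exists_fitting (A₀ ⊔ B₀) hKsolv
  exact IIData.false ⟨h, hbad, hmax, rfl, hFK, hFnil, hFnorm, hFcent⟩

end Cfsg.Agent.Lib.Helper10.KW3
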