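import Mathlib
import Cfsg.Agent.Lib.Helper10.KW3
import Cfsg.Agent.S0558
import Cfsg.Agent.S0557

set_option autoImplicit false

/-! Case I of Wielandt's theorem: every pair of nontrivial normal subgroups of the factors
generates the group (Kegel–Wielandt package, helper10). -/

namespace Cfsg.Agent.Lib.Helper10.KW4

open scoped Pointwise
open Cfsg.Agent.Lib.Helper10.KW0 Cfsg.Agent.Lib.Helper10.KW1 Cfsg.Agent.Lib.Helper10.KW2
open Cfsg.Agent.Lib.Helper10.KW3

variable {G : Type*} [Group G] [Finite G] {A B : Subgroup G}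

structure CfgI (A B : Subgroup G) : Prop where
  cfg : Cfg A B
  good : ∀ A₀ B₀, NormIn A A₀ → NormIn B B₀ → A₀ ≠ ⊥ → B₀ ≠ ⊥ → A₀ ⊔ B₀ = ⊤

theorem CfgI.symm (c : CfgI A B) : CfgI B A where
  cfg := c.cfg.symm
  good := fun B₀ A₀ hB hA hB1 hA1 => by rw [sup_comm]; exact c.good A₀ B₀ hA hB hA1 hB1

theorem Zc_ne_bot (h : Cfg A B) : Zc A ≠ ⊥ := by
  obtain ⟨z, -, hz, hz1⟩ := exists_mem_inf_Zc A A h.nilA (normIn_self A) h.ne_bot_A
  intro hbot
  rw [hbot, Subgroup.mem_bot] at hz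
  exact hz1 hz

theorem CfgI.gen_conj (c : CfgI A B) {A₀ B₀ : Subgroup G} (hA₀ : NormIn A A₀)
    (hB₀ : NormIn B B₀) (hA1 : A₀ ≠ ⊥) (hB1 : B₀ ≠ ⊥) (g : G) (M : Subgroup G)
    (h1 : A₀ ≤ M) (h2 : MulAut.conj g • B₀ ≤ M) : M = ⊤ := by
  obtain ⟨a, ha, b, hb, e⟩ := c.cfg.fac g
  have e2 : MulAut.conj g • B₀ = MulAut.conj a • B₀ := by
    rw [e, ← conj_conj, conj_eq_of_normIn hB₀ hb]
  rw [e2] at h2
  have hA : A₀ ≤ MulAut.conj a⁻¹ • M := by
    intro y hy
    rw [mem_conj, inv_inv]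
    exact h1 (hA₀.2 a ha y hy)
  have hB : B₀ ≤ MulAut.conj a⁻¹ • M := by
    intro y hy
    rw [mem_conj, inv_inv]
    exact h2 (conj_mem_conj B₀ a hy)
  have htop : MulAut.conj a⁻¹ • M = ⊤ := by
    rw [eq_top_iff, ← c.good A₀ B₀ hA₀ hB₀ hA1 hB1]
    exact sup_le hA hB
  rw [eq_top_iff]
  intro x _
  have hx : a⁻¹ * x * a⁻¹⁻¹ ∈ MulAut.conj a⁻¹ • M := by rw [htop]; trivial
  rw [mem_conj] at hx
  have e3 : a⁻¹⁻¹ * (a⁻¹ * x * a⁻¹⁻¹) * a⁻¹ = x := by group
  rwa [e3] at hx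

/-- (C1) The centralizer of a nontrivial central element of `A` is `A`. -/
theorem CfgI.cent_Z (c : CfgI A B) {z : G} (hz : z ∈ Zc A) (hz1 : z ≠ 1) :
    Subgroup.centralizer ({z} : Set G) = A := by
  have hAC : A ≤ Subgroup.centralizer ({z} : Set G) := by
    intro a ha
    rw [Subgroup.mem_centralizer_iff]
    intro y hy
    rw [Set.mem_singleton_iff] at hy
    subst hy
    exact (((mem_Zc A y).mp hz).2 a ha).symm
  apply le_antisymm _ hAC
  intro g hg
  obtain ⟨a, ha, b, hb, e⟩ := c.cfg.fac g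
  have hbC : b ∈ Subgroup.centralizer ({z} : Set G) := by
    have : b = a⁻¹ * g := by rw [e]; group
    rw [this]
    exact Subgroup.mul_mem _ (Subgroup.inv_mem _ (hAC ha)) hg
  have hb1 : b = 1 := by
    by_contra hb1
    apply c.cfg.centralizer_ne_top hb1
    rw [eq_top_iff, ← c.good (Subgroup.zpowers z) (Zc B) (normIn_zpowers hz) (normIn_Zc B)
      (by rw [Ne, Subgroup.zpowers_eq_bot]; exact hz1) (Zc_ne_bot c.cfg.symm)]
    apply sup_le
    · rw [Subgroup.zpowers_le, Subgroup.mem_centralizer_iff]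
      intro y hy
      rw [Set.mem_singleton_iff] at hy
      subst hy
      rw [Subgroup.mem_centralizer_iff] at hbC
      exact (hbC z rfl).symm
    · intro w hw
      rw [Subgroup.mem_centralizer_iff]
      intro y hy
      rw [Set.mem_singleton_iff] at hy
      subst hy
      exact ((mem_Zc B w).mp hw).2 y hb
  rw [e, hb1, mul_one]; exact ha

theorem CfgI.cent_Z_conj (c : CfgI A B) (g : G) {z : G} (hz : z ∈ Zc (MulAut.conj g • A))
    (hz1 : z ≠ 1) {y : G} (hy : y * z = z * y) : y ∈ MulAut.conj g • A := by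
  have hz0 : g⁻¹ * z * g ∈ Zc A := by
    have := mem_Zc_conj (MulAut.conj g • A) g⁻¹ hz
    rwa [conj_conj, inv_mul_cancel, conj_one, inv_inv] at this
  have hz01 : g⁻¹ * z * g ≠ 1 := by
    intro h
    apply hz1
    calc z = g * (g⁻¹ * z * g) * g⁻¹ := by group
      _ = 1 := by rw [h]; group
  rw [mem_conj, ← c.cent_Z hz0 hz01, Subgroup.mem_centralizer_iff]
  intro w hw
  rw [Set.mem_singleton_iff] at hw
  subst hw
  calc g⁻¹ * z * g * (g⁻¹ * y * g) = g⁻¹ * (z * y) * g := by group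
    _ = g⁻¹ * (y * z) * g := by rw [hy]
    _ = g⁻¹ * y * g * (g⁻¹ * z * g) := by group

/-- (TIZ) A nontrivial central element of `A` lies in no other conjugate of `A`. -/
theorem CfgI.tiz (c : CfgI A B) {z : G} (hz : z ∈ Zc A) (hz1 : z ≠ 1) (g : G)
    (hzg : z ∈ MulAut.conj g • A) : MulAut.conj g • A = A := by
  obtain ⟨r, k, hr, hk⟩ := exists_pow_prime_order hz1
  haveI : Fact r.Prime := ⟨hr⟩
  have hz' : z ^ k ∈ Zc A := Subgroup.pow_mem _ hz k
  have hz1' : z ^ k ≠ 1 := by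
    intro h; rw [h, orderOf_one] at hk; exact hr.ne_one hk.symm
  have hzg' : z ^ k ∈ MulAut.conj g • A := Subgroup.pow_mem _ hzg k
  have hnil' : Group.IsNilpotent (MulAut.conj g • A : Subgroup G) :=
    Cfsg.Agent.S0581.nilpotent_conj A c.cfg.nilA g
  have hC := c.cent_Z hz' hz1'
  -- step 1
  have step1 : ∀ x ∈ MulAut.conj g • A, (orderOf x).Coprime r → x ∈ A := by
    intro x hx hcop
    rw [← hC, Subgroup.mem_centralizer_iff]
    intro y hy
    rw [Set.mem_singleton_iff] at hy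
    subst hy
    exact (commute_of_coprime _ hnil' hx hzg' (by rw [hk]; exact hcop)).symm
  obtain ⟨s, hs, hsA, hsr⟩ := c.cfg.exists_prime_ne r
  haveI : Fact s.Prime := ⟨hs⟩
  have hcard : Nat.card (MulAut.conj g • A : Subgroup G) = Nat.card A := card_conj A g
  obtain ⟨z', hz'Z, hz'o⟩ := exists_center_order (MulAut.conj g • A) hnil' s
    (by rw [hcard]; exact hsA)
  have hz'1 : z' ≠ 1 := by
    rintro rfl; rw [orderOf_one] at hz'o; exact hs.ne_one hz'o.symm
  have hz'A : z' ∈ A := step1 z' (Zc_le _ hz'Z)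
    (by rw [hz'o]; exact (Nat.coprime_primes hs hr).mpr hsr)
  -- step 3
  have step3 : ∀ x ∈ A, (orderOf x).Coprime s → x ∈ MulAut.conj g • A := by
    intro x hx hcop
    apply c.cent_Z_conj g hz'Z hz'1
    exact commute_of_coprime A c.cfg.nilA hx hz'A (by rw [hz'o]; exact hcop)
  -- step 4
  have step4 : rPart A s ≤ MulAut.conj g • A := by
    have hle : rPart (MulAut.conj g • A) s ≤ rPart A s := by
      intro x hx
      have hx' := (mem_rPart _ hnil' s x).mp hx
      obtain ⟨j, hj⟩ := hx'.2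
      refine (mem_rPart A c.cfg.nilA s x).mpr ⟨step1 x hx'.1 ?_, j, hj⟩
      rw [hj]; exact Nat.Coprime.pow_left j ((Nat.coprime_primes hs hr).mpr hsr)
    have hcard2 : Nat.card (rPart A s) ≤ Nat.card (rPart (MulAut.conj g • A) s) := by
      rw [card_rPart, card_rPart, hcard]
    have := Subgroup.eq_of_le_of_card_ge hle hcard2
    rw [← this]
    exact rPart_le _ s
  have hle : A ≤ MulAut.conj g • A := by
    intro x hx
    obtain ⟨u, v, hu, hv, hxuv, ⟨j, hj⟩, hcop⟩ := exists_decomp s x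
    have huA : u ∈ A := (Subgroup.zpowers_le.mpr hx) hu
    have hvA : v ∈ A := (Subgroup.zpowers_le.mpr hx) hv
    rw [hxuv]
    exact Subgroup.mul_mem _ (step4 ((mem_rPart A c.cfg.nilA s u).mpr ⟨huA, j, hj⟩))
      (step3 v hvA hcop)
  exact (Subgroup.eq_of_le_of_card_ge hle hcard.le).symm

/-- A subgroup of order prime to `|B|` containing a nontrivial central element of `A` lies
in `A`. -/
theorem CfgI.sub_A_of_mem (c : CfgI A B) (U : Subgroup G)
    (hU : (Nat.card U).Coprime (Nat.card B)) {z : G} (hz : z ∈ Zc A) (hz1 : z ≠ 1)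
    (hzU : z ∈ U) : U ≤ A := by
  obtain ⟨g, hg⟩ := c.cfg.conj_A U hU
  rw [c.tiz hz hz1 g (hg hzU)] at hg
  exact hg

/-- A subgroup of order prime to `|A|` normalized by a subgroup containing `Z(A)` is trivial. -/
theorem CfgI.normal_eq_bot (c : CfgI A B) (H V : Subgroup G) (hZH : Zc A ≤ H)
    (hV : (Nat.card V).Coprime (Nat.card A))
    (hnorm : ∀ h ∈ H, ∀ v ∈ V, h * v * h⁻¹ ∈ V) : V = ⊥ := by
  obtain ⟨g, hg⟩ := c.cfg.conj_B V hV
  have hHN : H ≤ Subgroup.normalizer (V : Set G) :=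
    Cfsg.Agent.S0581.le_normalizer_of_conj_mem H V hnorm
  have hBN : MulAut.conj g • Zc B ≤ Subgroup.normalizer (V : Set G) := by
    apply Cfsg.Agent.S0581.le_normalizer_of_conj_mem
    intro y hy v hv
    rw [mem_conj] at hy
    have hv' := hg hv
    rw [mem_conj] at hv'
    have h1 := ((mem_Zc B _).mp hy).2 _ hv'
    have h2 : y * v = v * y := by
      calc y * v = g * ((g⁻¹ * y * g) * (g⁻¹ * v * g)) * g⁻¹ := by group
        _ = g * ((g⁻¹ * v * g) * (g⁻¹ * y * g)) * g⁻¹ := by rw [h1]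
        _ = v * y := by group
    rw [h2, mul_assoc, mul_inv_cancel, mul_one]; exact hv
  have htop := c.gen_conj (normIn_Zc A) (normIn_Zc B) (Zc_ne_bot c.cfg) (Zc_ne_bot c.cfg.symm)
    g _ (hZH.trans hHN) hBN
  rcases c.cfg.simple V (Subgroup.normalizer_eq_top_iff.mp htop) with h1 | h1
  · exact h1
  · exfalso
    rw [h1, Subgroup.card_top] at hV
    have h2 : Nat.card A ∣ Nat.card G := Subgroup.card_subgroup_dvd_card A
    have h3 : Nat.card A = 1 := Nat.eq_one_of_dvd_coprimes hV h2 dvd_rfl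
    exact c.cfg.ne_bot_A (Subgroup.card_eq_one.mp h3)

omit [Finite G] in
theorem mem_cent {a x : G} : x ∈ Subgroup.centralizer ({a} : Set G) ↔ a * x = x * a := by
  rw [Subgroup.mem_centralizer_iff]
  constructor
  · intro h; exact h a rfl
  · intro h y hy
    rw [Set.mem_singleton_iff] at hy
    rw [hy]; exact h

/-- Elements of the normalizer of `A` of order prime to `|B|` lie in `A`. -/
theorem mem_A_of_normalizer (h : Cfg A B) {x : G} (hx : x ∈ Subgroup.normalizer (A : Set G))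
    (hcop : (orderOf x).Coprime (Nat.card B)) : x ∈ A := by
  have hn : (A.subgroupOf (Subgroup.normalizer (A : Set G))).Normal :=
    Subgroup.normal_in_normalizer
  have hidx : (A.subgroupOf (Subgroup.normalizer (A : Set G))).index ∣ Nat.card B := by
    rw [← h.index_A]
    exact Subgroup.relIndex_dvd_index_of_le Subgroup.le_normalizer
  have := Cfsg.Agent.S0557.mem_of_coprime (A.subgroupOf (Subgroup.normalizer (A : Set G)))
    ⟨x, hx⟩ (by rw [Subgroup.orderOf_mk]; exact Nat.Coprime.coprime_dvd_right hidx hcop)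
  exact Subgroup.mem_subgroupOf.mp this

/-- If the centralizer of an element `a ∈ A` of prime order is solvable, it normalizes `A`. -/
theorem CfgI.cent_le_of_solv (c : CfgI A B) {a : G} (ha : a ∈ A) (p : ℕ) [hp : Fact p.Prime]
    (hao : orderOf a = p) (hsolv : Group.IsSolvable (Subgroup.centralizer ({a} : Set G))) :
    Subgroup.centralizer ({a} : Set G) ≤ Subgroup.normalizer (A : Set G) := by
  set M := Subgroup.centralizer ({a} : Set G) with hM
  have ha1 : a ≠ 1 := by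
    rintro rfl; rw [orderOf_one] at hao; exact hp.out.ne_one hao.symm
  have hmemM : ∀ x, x ∈ M ↔ a * x = x * a := fun x => mem_cent
  have haM : a ∈ M := (hmemM a).mpr rfl
  have hZM : Zc A ≤ M := fun z hz => (hmemM z).mpr (((mem_Zc A z).mp hz).2 a ha)
  obtain ⟨F, hFM, hFnil, hFnorm, hFcent⟩ := exists_fitting M hsolv
  have hFnormM : ∀ m ∈ M, ∀ x ∈ F, m * x * m⁻¹ ∈ F :=
    fun m hm => hFnorm m (Subgroup.le_normalizer hm)
  have hFne : F ≠ ⊥ := by
    intro hF
    have := hFcent a haM (fun f hf => by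
      rw [hF, Subgroup.mem_bot] at hf; rw [hf, mul_one, one_mul])
    rw [hF, Subgroup.mem_bot] at this
    exact ha1 this
  have hrnorm : ∀ (r : ℕ) [Fact r.Prime], ∀ m ∈ M, ∀ u ∈ rPart F r,
      m * u * m⁻¹ ∈ rPart F r :=
    fun r _ m hm u hu => rPart_conj_mem F hFnil r m (hFnormM m hm) u hu
  have hdvdA : ∀ (r : ℕ) [Fact r.Prime], rPart F r ≠ ⊥ → r ∣ Nat.card A := by
    intro r hr hne
    by_contra hrA
    apply hne
    apply c.normal_eq_bot M (rPart F r) hZM _ (hrnorm r)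
    obtain ⟨n, hn⟩ := IsPGroup.iff_card.mp (isPGroup_rPart F r)
    rw [hn]
    exact Nat.Coprime.pow_left n ((Nat.Prime.coprime_iff_not_dvd hr.out).mpr hrA)
  have hleA : ∀ (r : ℕ) [Fact r.Prime], rPart F r ≠ ⊥ → rPart F r ≤ A := by
    intro r hr hne
    have hrA := hdvdA r hne
    obtain ⟨z, hzZ, hzo⟩ := exists_center_order A c.cfg.nilA r hrA
    have hz1 : z ≠ 1 := by
      rintro rfl; rw [orderOf_one] at hzo; exact hr.out.ne_one hzo.symm
    have hzN : Subgroup.zpowers z ≤ Subgroup.normalizer (rPart F r : Set G) := by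
      rw [Subgroup.zpowers_le]
      exact (Cfsg.Agent.S0581.le_normalizer_of_conj_mem M (rPart F r) (hrnorm r)) (hZM hzZ)
    have hzp : IsPGroup r (Subgroup.zpowers z) := by
      apply IsPGroup.of_card (n := 1); rw [Nat.card_zpowers, hzo, pow_one]
    have hU : IsPGroup r (rPart F r ⊔ Subgroup.zpowers z : Subgroup G) :=
      IsPGroup.to_sup_of_normal_left' (isPGroup_rPart F r) hzp hzN
    obtain ⟨n, hn⟩ := IsPGroup.iff_card.mp hU
    have hcop : (Nat.card (rPart F r ⊔ Subgroup.zpowers z : Subgroup G)).Coprime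
        (Nat.card B) := by
      rw [hn]
      exact Nat.Coprime.pow_left n
        ((Nat.Prime.coprime_iff_not_dvd hr.out).mpr (c.cfg.not_dvd_B hr.out hrA))
    exact le_sup_left.trans
      (c.sub_A_of_mem _ hcop hzZ hz1 (Subgroup.mem_sup_right (Subgroup.mem_zpowers z)))
  obtain ⟨r, hr, hrp, hne⟩ : ∃ (r : ℕ) (_ : Fact r.Prime), r ≠ p ∧ rPart F r ≠ ⊥ := by
    by_contra hcon
    push Not at hcon
    have hall : ∀ {d : ℕ}, d.Prime → d ∣ Nat.card F → d = p := by
      intro d hd hdF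
      haveI : Fact d.Prime := ⟨hd⟩
      by_contra hdp
      exact rPart_ne_bot F hFnil d hdF (hcon d ⟨hd⟩ hdp)
    have hFcard := Nat.eq_prime_pow_of_unique_prime_dvd (n := Nat.card F) (p := p)
      Nat.card_pos.ne' hall
    have hpF : p ∣ Nat.card F := by
      have hcard1 : Nat.card F ≠ 1 := fun h => hFne (Subgroup.card_eq_one.mp h)
      have h1 := Nat.minFac_dvd (Nat.card F)
      have h2 := hall (Nat.minFac_prime hcard1) h1
      rw [h2] at h1
      exact h1
    have hFp_ne : rPart F p ≠ ⊥ := rPart_ne_bot F hFnil p hpF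
    have hFpA := hleA p hFp_ne
    have hEbot : Ec A p = ⊥ := by
      rw [eq_bot_iff]
      apply (Subgroup.closure_le _).mpr
      intro x hx
      have hxM : x ∈ M := (hmemM x).mpr
        (commute_of_coprime A c.cfg.nilA ha hx.1 (by rw [hao]; exact hx.2.symm))
      have hxF : x ∈ F := by
        apply hFcent x hxM
        intro f hf
        have h1 : orderOf f ∣ p ^ (Nat.card F).primeFactorsList.length := by
          rw [← hFcard]; exact orderOf_dvd_card_of_mem F hf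
        obtain ⟨j, -, hj⟩ := (Nat.dvd_prime_pow hp.out).mp h1
        have hfA : f ∈ A := hFpA ((mem_rPart F hFnil p f).mpr ⟨hf, j, hj⟩)
        exact commute_of_coprime A c.cfg.nilA hx.1 hfA
          (by rw [hj]; exact Nat.Coprime.pow_right j hx.2)
      have h1 : orderOf x ∣ p ^ (Nat.card F).primeFactorsList.length := by
        rw [← hFcard]; exact orderOf_dvd_card_of_mem F hxF
      have h2 : orderOf x = 1 :=
        Nat.eq_one_of_dvd_coprimes (Nat.Coprime.pow_right _ hx.2) dvd_rfl h1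
      rw [SetLike.mem_coe, Subgroup.mem_bot]
      exact orderOf_eq_one_iff.mp h2
    exact c.cfg.not_pgroup_A p (isPGroup_of_Ec_eq_bot A p hEbot)
  have hNA := hleA r hne
  have hNorm : NormIn A (rPart F r) := by
    refine ⟨hNA, fun x hx u hu => ?_⟩
    obtain ⟨u₁, v₁, hu₁, hv₁, hxuv, ⟨j, hj⟩, hcop⟩ := exists_decomp r x
    have hu₁A : u₁ ∈ A := (Subgroup.zpowers_le.mpr hx) hu₁
    have hv₁A : v₁ ∈ A := (Subgroup.zpowers_le.mpr hx) hv₁
    have hu₁M : u₁ ∈ M := (hmemM u₁).mpr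
      (commute_of_coprime A c.cfg.nilA ha hu₁A (by
        rw [hj, hao]
        exact Nat.Coprime.pow_right j ((Nat.coprime_primes hp.out hr.out).mpr (Ne.symm hrp))))
    have hu' := (mem_rPart F hFnil r u).mp hu
    obtain ⟨i, hi⟩ := hu'.2
    have hvu : v₁ * u = u * v₁ := commute_of_coprime A c.cfg.nilA hv₁A (hNA hu)
      (by rw [hi]; exact Nat.Coprime.pow_right i hcop)
    have e : x * u * x⁻¹ = u₁ * u * u₁⁻¹ := by
      rw [hxuv]
      calc u₁ * v₁ * u * (u₁ * v₁)⁻¹ = u₁ * (v₁ * u) * v₁⁻¹ * u₁⁻¹ := by group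
        _ = u₁ * (u * v₁) * v₁⁻¹ * u₁⁻¹ := by rw [hvu]
        _ = u₁ * u * u₁⁻¹ := by group
    rw [e]
    exact hrnorm r u₁ hu₁M u hu
  obtain ⟨z, hzN, hzZ, hz1⟩ := exists_mem_inf_Zc A (rPart F r) c.cfg.nilA hNorm hne
  have hconj : ∀ m ∈ M, MulAut.conj m • A = A := by
    intro m hm
    have h1 : m⁻¹ * z * m⁻¹⁻¹ ∈ rPart F r := hrnorm r m⁻¹ (M.inv_mem hm) z hzN
    have h2 : z ∈ MulAut.conj m • A := by
      rw [mem_conj]
      rw [inv_inv] at h1
      exact hNA h1
    exact c.tiz hzZ hz1 m h2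
  intro m hm
  exact (Cfsg.Agent.S0562.mem_normalizer_iff_smul A m).mpr (hconj m hm)

/-- The centralizer of an element of `A` normalizing `B` is factorized. -/
theorem cent_fact (h : Cfg A B) {a : G} (ha : a ∈ A)
    (haN : a ∈ Subgroup.normalizer (B : Set G)) :
    ∀ m ∈ Subgroup.centralizer ({a} : Set G), ∃ a₂ ∈ A, ∃ b₂ ∈ B,
      a₂ ∈ Subgroup.centralizer ({a} : Set G) ∧ b₂ ∈ Subgroup.centralizer ({a} : Set G) ∧
      m = a₂ * b₂ := by
  intro m hm
  obtain ⟨a₂, ha₂, b₂, hb₂, e⟩ := h.fac m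
  have hma : a * m = m * a := mem_cent.mp hm
  have hb' : a⁻¹ * b₂ * a ∈ B := by
    have := (Subgroup.mem_normalizer_iff.mp (Subgroup.inv_mem _ haN) b₂).mp hb₂
    rwa [inv_inv] at this
  have e1 : (a * a₂) * b₂ = (a₂ * a) * (a⁻¹ * b₂ * a) := by
    calc (a * a₂) * b₂ = a * (a₂ * b₂) := by group
      _ = a * m := by rw [e]
      _ = m * a := hma
      _ = a₂ * b₂ * a := by rw [e]
      _ = (a₂ * a) * (a⁻¹ * b₂ * a) := by group
  obtain ⟨e2, e3⟩ := h.unique (A.mul_mem ha ha₂) hb₂ (A.mul_mem ha₂ ha) hb' e1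
  refine ⟨a₂, ha₂, b₂, hb₂, mem_cent.mpr e2, mem_cent.mpr ?_, e⟩
  calc a * b₂ = a * (a⁻¹ * b₂ * a) := by rw [← e3]
    _ = b₂ * a := by group

theorem CfgI.cent_le_of_norm (c : CfgI A B) {a : G} (ha : a ∈ A)
    (haN : a ∈ Subgroup.normalizer (B : Set G)) (p : ℕ) [hp : Fact p.Prime]
    (hao : orderOf a = p) :
    Subgroup.centralizer ({a} : Set G) ≤ Subgroup.normalizer (A : Set G) := by
  have ha1 : a ≠ 1 := by
    rintro rfl; rw [orderOf_one] at hao; exact hp.out.ne_one hao.symm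
  exact c.cent_le_of_solv ha p hao
    (c.cfg.ih _ (c.cfg.centralizer_ne_top ha1) (cent_fact c.cfg ha haN))

/-- The centralizer of an element of prime order of `A` normalizes `A`. -/
theorem CfgI.cent_le (c : CfgI A B) {a : G} (ha : a ∈ A) (p : ℕ) [hp : Fact p.Prime]
    (hao : orderOf a = p) :
    Subgroup.centralizer ({a} : Set G) ≤ Subgroup.normalizer (A : Set G) := by
  set H := Subgroup.centralizer ({a} : Set G) with hH
  have hZH : Zc A ≤ H := fun z hz => mem_cent.mpr (((mem_Zc A z).mp hz).2 a ha)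
  have hcentral : ∀ r : ℕ, r.Prime → r ∣ Nat.card A →
      ∃ z : G, z ∈ Zc A ∧ orderOf z = r ∧ z ≠ 1 := fun r hr hrA => by
    haveI : Fact r.Prime := ⟨hr⟩
    obtain ⟨z, hzZ, hzo⟩ := exists_center_order A c.cfg.nilA r hrA
    refine ⟨z, hzZ, hzo, ?_⟩
    rintro rfl; rw [orderOf_one] at hzo; exact hr.ne_one hzo.symm
  by_cases hβ : H ⊓ Subgroup.normalizer (A : Set G) ≤ A
  · set K' : Subgroup H := A.subgroupOf H with hK'
    have hnilA := c.cfg.nilA
    let f : K' →* A :=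
      { toFun := fun x => ⟨((x : H) : G), x.2⟩
        map_one' := rfl
        map_mul' := fun x y => rfl }
    have hf : Function.Injective f := fun x y hxy => by
      apply Subtype.ext; apply Subtype.ext
      have h0 : ((f x : A) : G) = ((f y : A) : G) := congrArg Subtype.val hxy
      exact h0
    have hK'nil : Group.IsNilpotent K' := Cfsg.Agent.S0581.nilpotent_of_injective f hf
    have hcardK' : Nat.card K' ∣ Nat.card A := Subgroup.card_dvd_of_injective f hf
    have hnot : ∀ p' : ℕ, p'.Prime → ∀ P : Sylow p' H, (P : Subgroup H) ≠ K' := by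
      intro p' hp' P hPK
      obtain ⟨r₁, hr₁, hr₁A, -⟩ := c.cfg.exists_prime_ne p
      haveI : Fact r₁.Prime := ⟨hr₁⟩
      obtain ⟨r₂, hr₂, hr₂A, hne⟩ := c.cfg.exists_prime_ne r₁
      have key : ∀ r : ℕ, r.Prime → r ∣ Nat.card A → r = p' := by
        intro r hr hrA
        obtain ⟨z, hzZ, hzo, -⟩ := hcentral r hr hrA
        have hzK : (⟨z, hZH hzZ⟩ : H) ∈ K' := Subgroup.mem_subgroupOf.mpr (Zc_le A hzZ)
        rw [← hPK] at hzK
        obtain ⟨k, hk⟩ := P.isPGroup' ⟨_, hzK⟩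
        have hk' : z ^ p' ^ k = 1 := by
          have := congrArg (fun x : (P : Subgroup H) => ((x : H) : G)) hk
          simpa using this
        have h1 : r ∣ p' ^ k := by rw [← hzo]; exact orderOf_dvd_of_pow_eq_one hk'
        exact (Nat.prime_dvd_prime_iff_eq hr hp').mp (hr.dvd_of_dvd_pow h1)
      exact hne ((key r₂ hr₂ hr₂A).trans (key r₁ hr₁ hr₁A).symm)
    have hnorm : ∀ r : ℕ, r.Prime → r ∣ Nat.card K' → ∀ P : Sylow r K',
        Subgroup.normalizer (((P : Subgroup K').map K'.subtype : Subgroup H) : Set H) = K' := by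
      intro r hr hrK P
      haveI : Fact r.Prime := ⟨hr⟩
      have hrA : r ∣ Nat.card A := hrK.trans hcardK'
      obtain ⟨z, hzZ, hzo, hz1⟩ := hcentral r hr hrA
      have hPn : (P : Subgroup K').Normal := sylow_normal_of_nilpotent r P
      have hzK : (⟨z, hZH hzZ⟩ : H) ∈ K' := Subgroup.mem_subgroupOf.mpr (Zc_le A hzZ)
      have hzP : (⟨⟨z, hZH hzZ⟩, hzK⟩ : K') ∈ (P : Subgroup K') := by
        have hz : IsPGroup r (Subgroup.zpowers (⟨⟨z, hZH hzZ⟩, hzK⟩ : K')) := by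
          apply IsPGroup.of_card (n := 1)
          rw [Nat.card_zpowers, pow_one, Subgroup.orderOf_mk, Subgroup.orderOf_mk, hzo]
        obtain ⟨Q, hQ⟩ := hz.exists_le_sylow
        have hu := Sylow.unique_of_normal P hPn
        have hQP : Q = P := Subsingleton.elim _ _
        rw [hQP] at hQ
        exact hQ (Subgroup.mem_zpowers _)
      apply le_antisymm
      · intro n hn
        have h1 : n * ⟨z, hZH hzZ⟩ * n⁻¹ ∈ (P : Subgroup K').map K'.subtype :=
          (Subgroup.mem_normalizer_iff.mp hn _).mp ⟨⟨⟨z, hZH hzZ⟩, hzK⟩, hzP, rfl⟩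
        have h2 : n * ⟨z, hZH hzZ⟩ * n⁻¹ ∈ K' := Subgroup.map_subtype_le _ h1
        have h3 : (n : G) * z * (n : G)⁻¹ ∈ A := Subgroup.mem_subgroupOf.mp h2
        have h4 : z ∈ MulAut.conj (n : G)⁻¹ • A := by rw [mem_conj, inv_inv]; exact h3
        have h5 := c.tiz hzZ hz1 _ h4
        have h6 : (n : G)⁻¹ ∈ Subgroup.normalizer (A : Set G) :=
          (Cfsg.Agent.S0562.mem_normalizer_iff_smul A _).mpr h5
        have h7 : (n : G) ∈ Subgroup.normalizer (A : Set G) := by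
          have := Subgroup.inv_mem _ h6; rwa [inv_inv] at this
        exact Subgroup.mem_subgroupOf.mpr (hβ ⟨n.2, h7⟩)
      · apply Cfsg.Agent.S0581.le_normalizer_of_conj_mem
        rintro x hx _ ⟨y, hy, rfl⟩
        exact ⟨⟨x, hx⟩ * y * ⟨x, hx⟩⁻¹, hPn.conj_mem y hy ⟨x, hx⟩, rfl⟩
    obtain ⟨N, hNn, hNc⟩ := Cfsg.Agent.S0558.result K' hnot hnorm
    have hVnorm : ∀ h ∈ H, ∀ v ∈ N.map H.subtype, h * v * h⁻¹ ∈ N.map H.subtype := by
      rintro h hh _ ⟨n, hn, rfl⟩
      exact ⟨⟨h, hh⟩ * n * ⟨h, hh⟩⁻¹, hNn.conj_mem n hn ⟨h, hh⟩, rfl⟩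
    have hcardV : Nat.card (N.map H.subtype) = Nat.card N :=
      Nat.card_congr (N.equivMapOfInjective H.subtype H.subtype_injective).toEquiv.symm
    have hidx : K'.index = Nat.card N := hNc.index_eq_card
    have hcop : (Nat.card (N.map H.subtype)).Coprime (Nat.card A) := by
      rw [hcardV, ← hidx]
      apply Nat.Coprime.symm
      apply Nat.coprime_of_dvd
      intro r hr hrA hrK
      haveI : Fact r.Prime := ⟨hr⟩
      obtain ⟨z, hzZ, hzo, hz1⟩ := hcentral r hr hrA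
      have hz : IsPGroup r (Subgroup.zpowers (⟨z, hZH hzZ⟩ : H)) := by
        apply IsPGroup.of_card (n := 1)
        rw [Nat.card_zpowers, pow_one, Subgroup.orderOf_mk, hzo]
      obtain ⟨R, hR⟩ := hz.exists_le_sylow
      have hUp : IsPGroup r ((R : Subgroup H).map H.subtype) := R.isPGroup'.map _
      obtain ⟨n, hn⟩ := IsPGroup.iff_card.mp hUp
      have hUcop : (Nat.card ((R : Subgroup H).map H.subtype)).Coprime (Nat.card B) := by
        rw [hn]
        exact Nat.Coprime.pow_left n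
          ((Nat.Prime.coprime_iff_not_dvd hr).mpr (c.cfg.not_dvd_B hr hrA))
      have hUA := c.sub_A_of_mem _ hUcop hzZ hz1
        ⟨⟨z, hZH hzZ⟩, hR (Subgroup.mem_zpowers _), rfl⟩
      have hRK : (R : Subgroup H) ≤ K' := fun x hx =>
        Subgroup.mem_subgroupOf.mpr (hUA ⟨x, hx, rfl⟩)
      exact R.not_dvd_index (hrK.trans (Subgroup.index_dvd_of_le hRK))
    have hVbot := c.normal_eq_bot H (N.map H.subtype) hZH hcop hVnorm
    have hN1 : Nat.card N = 1 := by rw [← hcardV, hVbot, Subgroup.card_bot]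
    have hK'top : K' = ⊤ := Subgroup.index_eq_one.mp (hidx.trans hN1)
    intro x hx
    have : (⟨x, hx⟩ : H) ∈ K' := by rw [hK'top]; trivial
    exact Subgroup.le_normalizer (Subgroup.mem_subgroupOf.mp this)
  · obtain ⟨n, hn, hnA⟩ := SetLike.not_le_iff_exists.mp hβ
    have hnH : n ∈ H := hn.1
    have hnN : n ∈ Subgroup.normalizer (A : Set G) := hn.2
    have hn'1 : n ^ Nat.card A ≠ 1 := by
      intro h1
      apply hnA
      apply mem_A_of_normalizer c.cfg hnN
      exact Nat.Coprime.coprime_dvd_left (orderOf_dvd_of_pow_eq_one h1) c.cfg.cop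
    have hn'B : (n ^ Nat.card A) ^ Nat.card B = 1 := by
      rw [← pow_mul, ← c.cfg.card, pow_card_eq_one']
    obtain ⟨q, k, hq, hk⟩ := exists_pow_prime_order hn'1
    haveI : Fact q.Prime := ⟨hq⟩
    set y₀ := (n ^ Nat.card A) ^ k with hy₀
    have hy₀H : y₀ ∈ H := Subgroup.pow_mem _ (Subgroup.pow_mem _ hnH _) _
    have hy₀N : y₀ ∈ Subgroup.normalizer (A : Set G) :=
      Subgroup.pow_mem _ (Subgroup.pow_mem _ hnN _) _
    have hqB : q ∣ Nat.card B := by
      rw [← hk]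
      exact (orderOf_dvd_of_mem_zpowers
        (Subgroup.pow_mem _ (Subgroup.mem_zpowers _) k)).trans (orderOf_dvd_of_pow_eq_one hn'B)
    have hqA : ¬ q ∣ Nat.card A := c.cfg.symm.not_dvd_B hq hqB
    have hcopy : (Nat.card (Subgroup.zpowers y₀)).Coprime (Nat.card A) := by
      rw [Nat.card_zpowers, hk]; exact (Nat.Prime.coprime_iff_not_dvd hq).mpr hqA
    obtain ⟨g, hg⟩ := c.cfg.conj_B _ hcopy
    obtain ⟨a₁, ha₁, hga⟩ := c.cfg.symm.conj_eq g
    rw [hga] at hg
    have hyB : a₁⁻¹ * y₀ * a₁ ∈ B := (mem_conj B a₁ y₀).mp (hg (Subgroup.mem_zpowers _))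
    have ha'A : a₁⁻¹ * a * a₁ ∈ A := A.mul_mem (A.mul_mem (A.inv_mem ha₁) ha) ha₁
    have ha'o : orderOf (a₁⁻¹ * a * a₁) = p := by
      have := orderOf_conj a₁⁻¹ a
      rw [inv_inv] at this
      rw [this, hao]
    have hyo : orderOf (a₁⁻¹ * y₀ * a₁) = q := by
      have := orderOf_conj a₁⁻¹ y₀
      rw [inv_inv] at this
      rw [this, hk]
    have ha₁N : a₁ ∈ Subgroup.normalizer (A : Set G) := Subgroup.le_normalizer ha₁
    have hyN : a₁⁻¹ * y₀ * a₁ ∈ Subgroup.normalizer (A : Set G) :=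
      Subgroup.mul_mem _ (Subgroup.mul_mem _ (Subgroup.inv_mem _ ha₁N) hy₀N) ha₁N
    have hcomm : a₁⁻¹ * y₀ * a₁ * (a₁⁻¹ * a * a₁) = a₁⁻¹ * a * a₁ * (a₁⁻¹ * y₀ * a₁) := by
      have h1 : a * y₀ = y₀ * a := mem_cent.mp hy₀H
      calc a₁⁻¹ * y₀ * a₁ * (a₁⁻¹ * a * a₁) = a₁⁻¹ * (y₀ * a) * a₁ := by group
        _ = a₁⁻¹ * (a * y₀) * a₁ := by rw [h1]
        _ = a₁⁻¹ * a * a₁ * (a₁⁻¹ * y₀ * a₁) := by group
    have h1 : Subgroup.centralizer ({a₁⁻¹ * y₀ * a₁} : Set G) ≤
        Subgroup.normalizer (B : Set G) := c.symm.cent_le_of_norm hyB hyN q hyo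
    have ha'N : a₁⁻¹ * a * a₁ ∈ Subgroup.normalizer (B : Set G) := h1 (mem_cent.mpr hcomm)
    have h2 := c.cent_le_of_norm ha'A ha'N p ha'o
    intro m hm
    have hm' : a₁⁻¹ * m * a₁ ∈ Subgroup.centralizer ({a₁⁻¹ * a * a₁} : Set G) := by
      rw [mem_cent]
      have h3 : a * m = m * a := mem_cent.mp hm
      calc a₁⁻¹ * a * a₁ * (a₁⁻¹ * m * a₁) = a₁⁻¹ * (a * m) * a₁ := by group
        _ = a₁⁻¹ * (m * a) * a₁ := by rw [h3]
        _ = a₁⁻¹ * m * a₁ * (a₁⁻¹ * a * a₁) := by group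
    have h4 := h2 hm'
    have e : m = a₁ * (a₁⁻¹ * m * a₁) * a₁⁻¹ := by group
    rw [e]
    exact Subgroup.mul_mem _ (Subgroup.mul_mem _ ha₁N h4) (Subgroup.inv_mem _ ha₁N)

/-- `A` is a TI-subgroup. -/
theorem CfgI.ti (c : CfgI A B) (g : G) (hg : MulAut.conj g • A ≠ A) :
    A ⊓ MulAut.conj g • A = ⊥ := by
  rw [eq_bot_iff]
  intro x hx
  rw [Subgroup.mem_bot]
  by_contra hx1
  obtain ⟨p, k, hp, hk⟩ := exists_pow_prime_order hx1
  haveI : Fact p.Prime := ⟨hp⟩
  have haA : x ^ k ∈ A := Subgroup.pow_mem _ hx.1 k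
  have haA' : x ^ k ∈ MulAut.conj g • A := Subgroup.pow_mem _ hx.2 k
  have hC := c.cent_le haA p hk
  have hnil' := Cfsg.Agent.S0581.nilpotent_conj A c.cfg.nilA g
  have hcard : Nat.card (MulAut.conj g • A : Subgroup G) = Nat.card A := card_conj A g
  have hne' : (MulAut.conj g • A : Subgroup G) ≠ ⊥ := by
    intro h
    rw [h, Subgroup.card_bot] at hcard
    exact c.cfg.ne_bot_A (Subgroup.card_eq_one.mp hcard.symm)
  obtain ⟨z', -, hz'Z, hz'1⟩ := exists_mem_inf_Zc _ _ hnil' (normIn_self _) hne'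
  have hz'C : z' ∈ Subgroup.centralizer ({x ^ k} : Set G) :=
    mem_cent.mpr (((mem_Zc _ z').mp hz'Z).2 _ haA')
  have hz'N := hC hz'C
  have hz'A : z' ∈ A := by
    apply mem_A_of_normalizer c.cfg hz'N
    have : orderOf z' ∣ Nat.card A := by
      rw [← hcard]; exact orderOf_dvd_card_of_mem _ (Zc_le _ hz'Z)
    exact Nat.Coprime.coprime_dvd_left this c.cfg.cop
  have hz0 : g⁻¹ * z' * g ∈ Zc A := by
    have := mem_Zc_conj (MulAut.conj g • A) g⁻¹ hz'Z
    rwa [conj_conj, inv_mul_cancel, conj_one, inv_inv] at this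
  have hz01 : g⁻¹ * z' * g ≠ 1 := by
    intro h
    apply hz'1
    calc z' = g * (g⁻¹ * z' * g) * g⁻¹ := by group
      _ = 1 := by rw [h]; group
  have h1 : g⁻¹ * z' * g ∈ MulAut.conj g⁻¹ • A := by
    rw [mem_conj, inv_inv]
    have e : g * (g⁻¹ * z' * g) * g⁻¹ = z' := by group
    rw [e]; exact hz'A
  have h2 := c.tiz hz0 hz01 g⁻¹ h1
  apply hg
  calc MulAut.conj g • A = MulAut.conj g • (MulAut.conj g⁻¹ • A) := by rw [h2]
    _ = A := by rw [conj_conj, mul_inv_cancel, conj_one]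

theorem CfgI.card_le (c : CfgI A B) : Nat.card A ≤ Nat.card B := by
  have hN := c.cfg.normalizer_ne_top c.cfg.ne_bot_A c.cfg.ne_top_A
  obtain ⟨g, hg⟩ : ∃ g, g ∉ Subgroup.normalizer (A : Set G) := by
    by_contra h
    push Not at h
    exact hN (eq_top_iff.mpr (fun x _ => h x))
  have hg' : MulAut.conj g • A ≠ A := fun h =>
    hg ((Cfsg.Agent.S0562.mem_normalizer_iff_smul A g).mpr h)
  have hti := c.ti g hg'
  have h1 := Cfsg.Agent.Lib.Helper10.Thompson.card_mul_card_le A (MulAut.conj g • A)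
  rw [hti, Subgroup.card_bot, mul_one, card_conj] at h1
  have h2 : Nat.card A * Nat.card A ≤ Nat.card A * Nat.card B := by
    rw [← c.cfg.card]; exact h1.trans (Subgroup.card_le_card_group _)
  exact Nat.le_of_mul_le_mul_left h2 Nat.card_pos

theorem CfgI.false (c : CfgI A B) : False := by
  have h1 := c.card_le
  have h2 := c.symm.card_le
  have h3 : Nat.card A = Nat.card B := le_antisymm h1 h2
  have h4 := c.cfg.cop
  rw [h3, Nat.coprime_self] at h4
  exact c.cfg.symm.ne_bot_A (Subgroup.card_eq_one.mp h4)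

/-- The minimal simple configuration does not exist. -/
theorem Cfg.false (h : Cfg A B) : False := by
  by_cases hex : ∃ A₀ B₀, BadPair A B A₀ B₀
  · exact caseII h hex
  · push Not at hex
    refine CfgI.false ⟨h, fun A₀ B₀ hA hB hA1 hB1 => ?_⟩
    by_contra hne
    exact hex A₀ B₀ ⟨hA, hB, hA1, hB1, hne⟩

end Cfsg.Agent.Lib.Helper10.KW4
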