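import Mathlib
import Cfsg.Agent.Lib.Helper10.KW4

set_option autoImplicit false

/-! Wielandt's theorem: a finite group which is the product of two nilpotent subgroups of
coprime orders is solvable (Kegel–Wielandt package, helper10). -/

namespace Cfsg.Agent.Lib.Helper10.KW5

open scoped Pointwise
open Cfsg.Agent.Lib.Helper10.KW0 Cfsg.Agent.Lib.Helper10.KW1 Cfsg.Agent.Lib.Helper10.KW2

universe u

theorem nilpotent_subgroupOf {G : Type*} [Group G] (A M : Subgroup G)
    (hA : Group.IsNilpotent A) : Group.IsNilpotent (A.subgroupOf M) := by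
  let f : A.subgroupOf M →* A :=
    { toFun := fun x => ⟨((x : M) : G), x.2⟩
      map_one' := rfl
      map_mul' := fun x y => rfl }
  have hf : Function.Injective f := fun x y hxy => by
    apply Subtype.ext; apply Subtype.ext
    have h0 : ((f x : A) : G) = ((f y : A) : G) := congrArg Subtype.val hxy
    exact h0
  exact Cfsg.Agent.S0581.nilpotent_of_injective f hf

theorem card_subgroupOf_dvd {G : Type*} [Group G] (A M : Subgroup G) :
    Nat.card (A.subgroupOf M) ∣ Nat.card A := by
  let f : A.subgroupOf M →* A :=
    { toFun := fun x => ⟨((x : M) : G), x.2⟩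
      map_one' := rfl
      map_mul' := fun x y => rfl }
  have hf : Function.Injective f := fun x y hxy => by
    apply Subtype.ext; apply Subtype.ext
    have h0 : ((f x : A) : G) = ((f y : A) : G) := congrArg Subtype.val hxy
    exact h0
  exact Subgroup.card_dvd_of_injective f hf

theorem nilpotent_map {G H : Type*} [Group G] [Group H] (A : Subgroup G)
    (hA : Group.IsNilpotent A) (f : G →* H) : Group.IsNilpotent (A.map f) :=
  Group.nilpotent_of_surjective (f.subgroupMap A) (f.subgroupMap_surjective A)

/-- Wielandt's theorem, by induction on the order. -/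
theorem wielandt_aux : ∀ (n : ℕ) (G : Type u) [Group G] [Finite G], Nat.card G = n →
    ∀ A B : Subgroup G, Group.IsNilpotent A → Group.IsNilpotent B →
    (Nat.card A).Coprime (Nat.card B) → (∀ g : G, ∃ a ∈ A, ∃ b ∈ B, g = a * b) →
    Group.IsSolvable G := by
  intro n
  induction n using Nat.strong_induction_on with
  | _ n ih =>
    intro G _ _ hn A B hA hB hcop hfac
    by_contra hns
    have ihsub : ∀ M : Subgroup G, M ≠ ⊤ →
        (∀ m ∈ M, ∃ a ∈ A, ∃ b ∈ B, a ∈ M ∧ b ∈ M ∧ m = a * b) → Group.IsSolvable M := by
      intro M hM hfacM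
      have hlt : Nat.card M < n := by
        rw [← hn]
        exact lt_of_le_of_ne (Subgroup.card_le_card_group M)
          (fun h => hM ((Subgroup.card_eq_iff_eq_top M).mp h))
      refine ih (Nat.card M) hlt M rfl (A.subgroupOf M) (B.subgroupOf M)
        (nilpotent_subgroupOf A M hA) (nilpotent_subgroupOf B M hB) ?_ ?_
      · exact Nat.Coprime.coprime_dvd_left (card_subgroupOf_dvd A M)
          (Nat.Coprime.coprime_dvd_right (card_subgroupOf_dvd B M) hcop)
      · intro m
        obtain ⟨a, ha, b, hb, haM, hbM, e⟩ := hfacM m m.2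
        exact ⟨⟨a, haM⟩, Subgroup.mem_subgroupOf.mpr ha, ⟨b, hbM⟩,
          Subgroup.mem_subgroupOf.mpr hb, Subtype.ext e⟩
    have hsimple : ∀ N : Subgroup G, N.Normal → N = ⊥ ∨ N = ⊤ := by
      intro N hN
      by_contra hcon
      push Not at hcon
      obtain ⟨hN1, hN2⟩ := hcon
      have hQ : Group.IsSolvable (G ⧸ N) := by
        have hlt : Nat.card (G ⧸ N) < n := by
          rw [← hn, Subgroup.card_eq_card_quotient_mul_card_subgroup N]
          have h1 : 1 < Nat.card N := by
            rcases Nat.lt_or_ge 1 (Nat.card N) with h | h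
            · exact h
            · exfalso
              have h2 : Nat.card N = 1 := le_antisymm h Nat.card_pos
              exact hN1 (Subgroup.card_eq_one.mp h2)
          have h0 : 0 < Nat.card (G ⧸ N) := Nat.card_pos
          nlinarith
        refine ih _ hlt (G ⧸ N) rfl (A.map (QuotientGroup.mk' N)) (B.map (QuotientGroup.mk' N))
          (nilpotent_map A hA _) (nilpotent_map B hB _) ?_ ?_
        · exact Nat.Coprime.coprime_dvd_left (Subgroup.card_map_dvd _ _)
            (Nat.Coprime.coprime_dvd_right (Subgroup.card_map_dvd _ _) hcop)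
        · intro q
          obtain ⟨g, rfl⟩ := QuotientGroup.mk_surjective q
          obtain ⟨a, ha, b, hb, e⟩ := hfac g
          exact ⟨_, ⟨a, ha, rfl⟩, _, ⟨b, hb, rfl⟩, by rw [e]; rfl⟩
      have key : ∀ X : Subgroup G, X ⊔ N ≠ ⊤ →
          (∀ m ∈ X ⊔ N, ∃ a ∈ A, ∃ b ∈ B, a ∈ X ⊔ N ∧ b ∈ X ⊔ N ∧ m = a * b) → False := by
        intro X hX hfacX
        have hsolv := ihsub _ hX hfacX
        have hNsolv : Group.IsSolvable N := solv_of_le le_sup_right hsolv
        exact hns (Group.isSolvable_of_ker_le_range N.subtype (QuotientGroup.mk' N) (by simp))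
      have hAN : A ⊔ N = ⊤ := by
        by_contra h
        apply key A h
        intro m hm
        obtain ⟨a, ha, b, hb, e⟩ := hfac m
        have haM : a ∈ A ⊔ N := Subgroup.mem_sup_left ha
        refine ⟨a, ha, b, hb, haM, ?_, e⟩
        have : b = a⁻¹ * m := by rw [e]; group
        rw [this]; exact Subgroup.mul_mem _ (Subgroup.inv_mem _ haM) hm
      have hBN : B ⊔ N = ⊤ := by
        by_contra h
        apply key B h
        intro m hm
        obtain ⟨a, ha, b, hb, e⟩ := hfac m
        have hbM : b ∈ B ⊔ N := Subgroup.mem_sup_left hb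
        refine ⟨a, ha, b, hb, ?_, hbM, e⟩
        have : a = m * b⁻¹ := by rw [e]; group
        rw [this]; exact Subgroup.mul_mem _ hm (Subgroup.inv_mem _ hbM)
      have h1 : N.index ∣ Nat.card A := by
        have := Subgroup.relIndex_sup_right (H := A) (K := N)
        rw [hAN, Subgroup.relIndex_top_right] at this
        rw [this]; exact Subgroup.relIndex_dvd_card _ _
      have h2 : N.index ∣ Nat.card B := by
        have := Subgroup.relIndex_sup_right (H := B) (K := N)
        rw [hBN, Subgroup.relIndex_top_right] at this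
        rw [this]; exact Subgroup.relIndex_dvd_card _ _
      have h3 : N.index = 1 := Nat.eq_one_of_dvd_coprimes hcop h1 h2
      exact hN2 (Subgroup.index_eq_one.mp h3)
    exact Cfsg.Agent.Lib.Helper10.KW4.Cfg.false ⟨hA, hB, hcop, hfac, hsimple, hns, ihsub⟩

/-- **Wielandt's theorem**: a finite group which is the product of two nilpotent subgroups of
coprime orders is solvable. -/
theorem wielandt {G : Type u} [Group G] [Finite G] (A B : Subgroup G)
    (hA : Group.IsNilpotent A) (hB : Group.IsNilpotent B)
    (hcop : (Nat.card A).Coprime (Nat.card B)) (hfac : ∀ g : G, ∃ a ∈ A, ∃ b ∈ B, g = a * b) :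
    Group.IsSolvable G :=
  wielandt_aux _ G rfl A B hA hB hcop hfac

end Cfsg.Agent.Lib.Helper10.KW5
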