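import Mathlib
import Cfsg.Agent.Lib.Helper10.KW5
import Cfsg.Agent.S0566
import Cfsg.Agent.S0559
import Cfsg.Agent.S0560
import Cfsg.Agent.S0557
import Cfsg.Agent.S0581

set_option autoImplicit false

/-! The Kegel–Wielandt theorem: a finite group which is the product of two nilpotent subgroups
is solvable (Kegel–Wielandt package, helper10). -/

namespace Cfsg.Agent.Lib.Helper10.KW6

open scoped Pointwise
open Cfsg.Agent.Lib.Helper10.KW0 Cfsg.Agent.Lib.Helper10.KW1 Cfsg.Agent.Lib.Helper10.KW2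

universe u

section

variable {G : Type*} [Group G] [Finite G]

/-- In a nilpotent subgroup, every Sylow subgroup is the `r`-part. -/
theorem map_sylow_eq_rPart (F : Subgroup G) (hF : Group.IsNilpotent F) (r : ℕ) [Fact r.Prime]
    (P : Sylow r F) : (P : Subgroup F).map F.subtype = rPart F r := by
  haveI := hF
  have hn : (P : Subgroup F).Normal := sylow_normal_of_nilpotent r P
  haveI : Subsingleton (Sylow r F) := (Sylow.unique_of_normal P hn).instSubsingleton
  unfold rPart
  rw [Subsingleton.elim P (Classical.arbitrary (Sylow r F))]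

theorem rPart_conj (B : Subgroup G) (hB : Group.IsNilpotent B) (r : ℕ) [Fact r.Prime] (g : G) :
    rPart (MulAut.conj g • B) r = MulAut.conj g • rPart B r := by
  ext x
  rw [mem_rPart _ (Cfsg.Agent.S0581.nilpotent_conj B hB g), mem_conj, mem_conj, mem_rPart B hB]
  have e : orderOf (g⁻¹ * x * g) = orderOf x := by
    have := orderOf_conj g⁻¹ x
    rwa [inv_inv] at this
  rw [e]

/-- A minimal counterexample to the Kegel–Wielandt theorem, with a common prime divisor `p`
of the orders of the factors. -/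
structure KCfg (A B : Subgroup G) (p : ℕ) : Prop where
  nilA : Group.IsNilpotent A
  nilB : Group.IsNilpotent B
  fac : ∀ g : G, ∃ a ∈ A, ∃ b ∈ B, g = a * b
  dvdA : p ∣ Nat.card A
  dvdB : p ∣ Nat.card B
  supA : ∀ N : Subgroup G, N.Normal → N ≠ ⊥ → A ⊔ N = ⊤
  supB : ∀ N : Subgroup G, N.Normal → N ≠ ⊥ → B ⊔ N = ⊤
  nsN : ∀ N : Subgroup G, N.Normal → N ≠ ⊥ → ¬ Group.IsSolvable N

theorem KCfg.symm {A B : Subgroup G} {p : ℕ} (h : KCfg A B p) : KCfg B A p :=
  { nilA := h.nilB
    nilB := h.nilA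
    fac := fun g => by
      obtain ⟨a, ha, b, hb, e⟩ := h.fac g⁻¹
      exact ⟨b⁻¹, B.inv_mem hb, a⁻¹, A.inv_mem ha, by rw [← mul_inv_rev, ← e, inv_inv]⟩
    dvdA := h.dvdB
    dvdB := h.dvdA
    supA := h.supB
    supB := h.supA
    nsN := h.nsN }

theorem KCfg.perm {A B : Subgroup G} {p : ℕ} [Fact p.Prime] (h : KCfg A B p) (g : G) :
    ∃ R : Sylow p G, ((R : Subgroup G) : Set G) =
      (rPart A p : Set G) * ((MulAut.conj g • rPart B p : Subgroup G) : Set G) := by
  have hfac : ∀ x : G, ∃ a ∈ A, ∃ b ∈ (MulAut.conj g • B : Subgroup G), x = a * b := by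
    have := (Cfsg.Agent.S0559.result A B (MulAut.conj 1 • A) (MulAut.conj g • B) h.fac
      ⟨1, rfl⟩ ⟨g, rfl⟩).1
    rwa [conj_one] at this
  obtain ⟨P, Q, R, hR⟩ := Cfsg.Agent.S0560.result A (MulAut.conj g • B) hfac p
  refine ⟨R, ?_⟩
  rw [hR, map_sylow_eq_rPart A h.nilA p P,
    map_sylow_eq_rPart _ (Cfsg.Agent.S0581.nilpotent_conj B h.nilB g) p Q, rPart_conj B h.nilB p g]

theorem KCfg.not_pgroup {A B : Subgroup G} {p : ℕ} [Fact p.Prime] (h : KCfg A B p)
    (N : Subgroup G) (hN : N.Normal) (hne : N ≠ ⊥) : ¬ IsPGroup p N := by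
  intro hp
  apply h.nsN N hN hne
  haveI : Group.IsNilpotent N := hp.isNilpotent
  infer_instance

theorem KCfg.not_dvd_index {A B : Subgroup G} {p : ℕ} [hp : Fact p.Prime] (h : KCfg A B p) :
    ¬ p ∣ (Subgroup.normalClosure (rPart A p : Set G)).index := by
  obtain ⟨M, hM⟩ : ∃ M, M = Subgroup.normalClosure (rPart A p : Set G) := ⟨_, rfl⟩
  rw [← hM]
  have hMn : M.Normal := hM ▸ Subgroup.normalClosure_normal
  have hAM : rPart A p ≤ M := hM ▸ Subgroup.le_normalClosure
  have hne : M ≠ ⊥ := fun h0 => rPart_ne_bot A h.nilA p h.dvdA (le_bot_iff.mp (h0 ▸ hAM))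
  have hsup := h.supA M hMn hne
  have h1 : M.index = M.relIndex A := by
    have := Subgroup.relIndex_sup_right (H := A) (K := M)
    rwa [hsup, Subgroup.relIndex_top_right] at this
  have h2 : Nat.card (A ⊓ M : Subgroup G) * M.relIndex A = Nat.card A := by
    have := Cfsg.Agent.Lib.Helper10.Thompson.card_mul_relIndex (inf_le_left : A ⊓ M ≤ A)
    rwa [Subgroup.inf_relIndex_left] at this
  have h3 : Nat.card (rPart A p) ∣ Nat.card (A ⊓ M : Subgroup G) :=
    Subgroup.card_dvd_of_le (le_inf (rPart_le A p) hAM)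
  rw [card_rPart] at h3
  intro hdvd
  rw [h1] at hdvd
  have h4 : p ^ ((Nat.card A).factorization p + 1) ∣ Nat.card A := by
    rw [pow_succ]
    exact (Nat.mul_dvd_mul h3 hdvd).trans (dvd_of_eq h2)
  exact Nat.pow_succ_factorization_not_dvd (Nat.card_pos (α := A)).ne' hp.out h4

theorem KCfg.le_closure {A B : Subgroup G} {p : ℕ} [hp : Fact p.Prime] (h : KCfg A B p) :
    rPart B p ≤ Subgroup.normalClosure (rPart A p : Set G) := by
  intro x hx
  haveI : (Subgroup.normalClosure (rPart A p : Set G)).Normal := Subgroup.normalClosure_normal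
  apply Cfsg.Agent.S0557.mem_of_coprime
  obtain ⟨k, hk⟩ := ((mem_rPart B h.nilB p x).mp hx).2
  rw [hk]
  exact Nat.Coprime.pow_left k ((Nat.Prime.coprime_iff_not_dvd hp.out).mpr h.not_dvd_index)

omit [Finite G] in
/-- If `G = F M` with `M` normal, `X` is normalized by `F`, and `X ≤ M₁` with `M₁` normalized
by `M`, then the normal closure of `X` lies in `M₁`. -/
theorem closure_le_of (X F M M₁ : Subgroup G) (hMn : M.Normal)
    (hFX : ∀ a ∈ F, ∀ x ∈ X, a * x * a⁻¹ ∈ X) (hFM : F ⊔ M = ⊤)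
    (hconj : ∀ m ∈ M, ∀ y ∈ M₁, m * y * m⁻¹ ∈ M₁) (hX : X ≤ M₁) :
    Subgroup.normalClosure (X : Set G) ≤ M₁ := by
  show Subgroup.closure (Group.conjugatesOfSet (X : Set G)) ≤ M₁
  rw [Subgroup.closure_le]
  intro y hy
  obtain ⟨b, hb, hc⟩ := Group.mem_conjugatesOfSet_iff.mp hy
  obtain ⟨c, hc⟩ := isConj_iff.mp hc
  have hc' : c ∈ ((M ⊔ F : Subgroup G) : Set G) := by
    rw [sup_comm, hFM]; trivial
  rw [Subgroup.normal_mul] at hc'
  obtain ⟨m, hm, f, hf, rfl⟩ := Set.mem_mul.mp hc'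
  have e : y = m * (f * b * f⁻¹) * m⁻¹ := by rw [← hc]; group
  rw [e]
  exact hconj m hm _ (hX (hFX f hf b hb))

theorem KCfg.false {A B : Subgroup G} {p : ℕ} [hp : Fact p.Prime] (h : KCfg A B p) : False := by
  obtain ⟨M, hM⟩ : ∃ M, M = Subgroup.normalClosure (rPart A p : Set G) := ⟨_, rfl⟩
  have hMn : M.Normal := hM ▸ Subgroup.normalClosure_normal
  have hAM : rPart A p ≤ M := hM ▸ Subgroup.le_normalClosure
  have hBM : rPart B p ≤ M := hM ▸ h.le_closure
  have hAne : rPart A p ≠ ⊥ := rPart_ne_bot A h.nilA p h.dvdA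
  have hBne : rPart B p ≠ ⊥ := rPart_ne_bot B h.nilB p h.dvdB
  have hne : M ≠ ⊥ := fun h0 => hAne (le_bot_iff.mp (h0 ▸ hAM))
  have hnp : ¬ IsPGroup p M := h.not_pgroup M hMn hne
  have hA' : (rPart A p).subgroupOf M ≠ ⊥ := by
    intro h0
    rw [Subgroup.subgroupOf_eq_bot] at h0
    exact hAne ((inf_eq_left.mpr hAM).symm.trans (disjoint_iff.mp h0))
  have hB' : (rPart B p).subgroupOf M ≠ ⊥ := by
    intro h0
    rw [Subgroup.subgroupOf_eq_bot] at h0
    exact hBne ((inf_eq_left.mpr hBM).symm.trans (disjoint_iff.mp h0))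
  have hK := Cfsg.Agent.S0566.result ((rPart A p).subgroupOf M) ((rPart B p).subgroupOf M)
    hA' hB' (by
      intro x
      obtain ⟨R, hR⟩ := h.perm (x : G)
      refine ⟨(R : Subgroup G).subgroupOf M, ?_, ?_⟩
      · intro h0
        rw [Subgroup.subgroupOf_eq_top] at h0
        exact hnp (R.isPGroup'.to_le h0)
      · ext y
        constructor
        · intro hy
          have hy' : (y : G) ∈ ((R : Subgroup G) : Set G) := Subgroup.mem_subgroupOf.mp hy
          rw [hR] at hy'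
          obtain ⟨a, ha, b, hb, e⟩ := Set.mem_mul.mp hy'
          have hb' : (x : G)⁻¹ * b * (x : G) ∈ rPart B p := (mem_conj _ _ _).mp hb
          have hbM : b ∈ M := by
            have e2 : b = (x : G) * ((x : G)⁻¹ * b * (x : G)) * (x : G)⁻¹ := by group
            rw [e2]
            exact M.mul_mem (M.mul_mem x.2 (hBM hb')) (M.inv_mem x.2)
          refine Set.mem_mul.mpr ⟨⟨a, hAM ha⟩, Subgroup.mem_subgroupOf.mpr ha, ⟨b, hbM⟩, ?_,
            Subtype.ext e⟩
          show (⟨b, hbM⟩ : M) ∈ MulAut.conj x • (rPart B p).subgroupOf M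
          rw [mem_conj, Subgroup.mem_subgroupOf]
          exact hb'
        · intro hy
          obtain ⟨a, ha, b, hb, e⟩ := Set.mem_mul.mp hy
          have ha' : (a : G) ∈ rPart A p := Subgroup.mem_subgroupOf.mp ha
          have hb1 : b ∈ MulAut.conj x • (rPart B p).subgroupOf M := hb
          rw [mem_conj, Subgroup.mem_subgroupOf] at hb1
          have hb' : (b : G) ∈ (MulAut.conj (x : G) • rPart B p : Subgroup G) := by
            rw [mem_conj]; exact hb1
          have h1 : (a : G) * (b : G) ∈ ((R : Subgroup G) : Set G) := by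
            rw [hR]; exact Set.mem_mul.mpr ⟨_, ha', _, hb', rfl⟩
          show y ∈ (R : Subgroup G).subgroupOf M
          rw [Subgroup.mem_subgroupOf, ← e]
          exact h1)
  obtain ⟨N₁, hN₁n, hN₁top, hcase⟩ := hK
  have hconj : ∀ m ∈ M, ∀ y ∈ N₁.map M.subtype, m * y * m⁻¹ ∈ N₁.map M.subtype := by
    intro m hm y hy
    obtain ⟨y', hy', rfl⟩ := Subgroup.mem_map.mp hy
    exact Subgroup.mem_map.mpr ⟨⟨m, hm⟩ * y' * ⟨m, hm⟩⁻¹, hN₁n.conj_mem y' hy' ⟨m, hm⟩, rfl⟩
  have hM₁ : ¬ M ≤ N₁.map M.subtype := by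
    intro hle
    apply hN₁top
    rw [eq_top_iff]
    intro y _
    obtain ⟨z, hz, e⟩ := Subgroup.mem_map.mp (hle y.2)
    have : z = y := Subtype.ext e
    rwa [← this]
  rcases hcase with hc | hc
  · have hAM₁ : rPart A p ≤ N₁.map M.subtype := by
      intro x hx
      exact Subgroup.mem_map.mpr ⟨⟨x, hAM hx⟩, hc (Subgroup.mem_subgroupOf.mpr hx), rfl⟩
    have h1 := closure_le_of (rPart A p) A M (N₁.map M.subtype) hMn
      (fun a ha => rPart_conj_mem A h.nilA p a
        (fun x hx => A.mul_mem (A.mul_mem ha hx) (A.inv_mem ha)))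
      (h.supA M hMn hne) hconj hAM₁
    rw [← hM] at h1
    exact hM₁ h1
  · have hBM₁ : rPart B p ≤ N₁.map M.subtype := by
      intro x hx
      exact Subgroup.mem_map.mpr ⟨⟨x, hBM hx⟩, hc (Subgroup.mem_subgroupOf.mpr hx), rfl⟩
    have h1 := closure_le_of (rPart B p) B M (N₁.map M.subtype) hMn
      (fun a ha => rPart_conj_mem B h.nilB p a
        (fun x hx => B.mul_mem (B.mul_mem ha hx) (B.inv_mem ha)))
      (h.supB M hMn hne) hconj hBM₁
    have h2 : M ≤ Subgroup.normalClosure (rPart B p : Set G) := by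
      rw [hM]
      haveI : (Subgroup.normalClosure (rPart B p : Set G)).Normal := Subgroup.normalClosure_normal
      exact Subgroup.normalClosure_le_normal h.symm.le_closure
    exact hM₁ (h2.trans h1)

end

/-- The Kegel–Wielandt theorem, by induction on the order. -/
theorem kw_aux : ∀ (n : ℕ) (G : Type u) [Group G] [Finite G], Nat.card G = n →
    ∀ A B : Subgroup G, Group.IsNilpotent A → Group.IsNilpotent B →
    (∀ g : G, ∃ a ∈ A, ∃ b ∈ B, g = a * b) → Group.IsSolvable G := by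
  intro n
  induction n using Nat.strong_induction_on with
  | _ n ih =>
    intro G _ _ hn A B hA hB hfac
    by_contra hns
    have ihsub : ∀ M : Subgroup G, M ≠ ⊤ →
        (∀ m ∈ M, ∃ a ∈ A, ∃ b ∈ B, a ∈ M ∧ b ∈ M ∧ m = a * b) → Group.IsSolvable M := by
      intro M hM hfacM
      have hlt : Nat.card M < n := by
        rw [← hn]
        exact lt_of_le_of_ne (Subgroup.card_le_card_group M)
          (fun h => hM ((Subgroup.card_eq_iff_eq_top M).mp h))
      refine ih (Nat.card M) hlt M rfl (A.subgroupOf M) (B.subgroupOf M)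
        (Cfsg.Agent.Lib.Helper10.KW5.nilpotent_subgroupOf A M hA)
        (Cfsg.Agent.Lib.Helper10.KW5.nilpotent_subgroupOf B M hB) ?_
      intro m
      obtain ⟨a, ha, b, hb, haM, hbM, e⟩ := hfacM m m.2
      exact ⟨⟨a, haM⟩, Subgroup.mem_subgroupOf.mpr ha, ⟨b, hbM⟩,
        Subgroup.mem_subgroupOf.mpr hb, Subtype.ext e⟩
    have hquot : ∀ (N : Subgroup G) [N.Normal], N ≠ ⊥ → Group.IsSolvable (G ⧸ N) := by
      intro N _ hN1
      have hlt : Nat.card (G ⧸ N) < n := by
        rw [← hn, Subgroup.card_eq_card_quotient_mul_card_subgroup N]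
        have h1 : 1 < Nat.card N := by
          rcases Nat.lt_or_ge 1 (Nat.card N) with h | h
          · exact h
          · exfalso
            have h2 : Nat.card N = 1 := le_antisymm h Nat.card_pos
            exact hN1 (Subgroup.card_eq_one.mp h2)
        have h0 : 0 < Nat.card (G ⧸ N) := Nat.card_pos
        nlinarith
      refine ih _ hlt (G ⧸ N) rfl (A.map (QuotientGroup.mk' N)) (B.map (QuotientGroup.mk' N))
        (Cfsg.Agent.Lib.Helper10.KW5.nilpotent_map A hA _)
        (Cfsg.Agent.Lib.Helper10.KW5.nilpotent_map B hB _) ?_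
      intro q
      obtain ⟨g, rfl⟩ := QuotientGroup.mk_surjective q
      obtain ⟨a, ha, b, hb, e⟩ := hfac g
      exact ⟨_, ⟨a, ha, rfl⟩, _, ⟨b, hb, rfl⟩, by rw [e]; rfl⟩
    have nsN : ∀ N : Subgroup G, N.Normal → N ≠ ⊥ → ¬ Group.IsSolvable N := by
      intro N hN hN1 hNsolv
      have hQ := hquot N hN1
      exact hns (Group.isSolvable_of_ker_le_range N.subtype (QuotientGroup.mk' N) (by simp))
    have key : ∀ N : Subgroup G, N.Normal → N ≠ ⊥ → ∀ X : Subgroup G, X ⊔ N ≠ ⊤ →
        (∀ m ∈ X ⊔ N, ∃ a ∈ A, ∃ b ∈ B, a ∈ X ⊔ N ∧ b ∈ X ⊔ N ∧ m = a * b) → False := by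
      intro N hN hN1 X hX hfacX
      have hsolv := ihsub _ hX hfacX
      exact nsN N hN hN1 (solv_of_le le_sup_right hsolv)
    have supA : ∀ N : Subgroup G, N.Normal → N ≠ ⊥ → A ⊔ N = ⊤ := by
      intro N hN hN1
      by_contra h
      apply key N hN hN1 A h
      intro m hm
      obtain ⟨a, ha, b, hb, e⟩ := hfac m
      have haM : a ∈ A ⊔ N := Subgroup.mem_sup_left ha
      refine ⟨a, ha, b, hb, haM, ?_, e⟩
      have : b = a⁻¹ * m := by rw [e]; group
      rw [this]; exact Subgroup.mul_mem _ (Subgroup.inv_mem _ haM) hm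
    have supB : ∀ N : Subgroup G, N.Normal → N ≠ ⊥ → B ⊔ N = ⊤ := by
      intro N hN hN1
      by_contra h
      apply key N hN hN1 B h
      intro m hm
      obtain ⟨a, ha, b, hb, e⟩ := hfac m
      have hbM : b ∈ B ⊔ N := Subgroup.mem_sup_left hb
      refine ⟨a, ha, b, hb, ?_, hbM, e⟩
      have : a = m * b⁻¹ := by rw [e]; group
      rw [this]; exact Subgroup.mul_mem _ hm (Subgroup.inv_mem _ hbM)
    by_cases hcop : (Nat.card A).Coprime (Nat.card B)
    · exact hns (Cfsg.Agent.Lib.Helper10.KW5.wielandt A B hA hB hcop hfac)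
    · obtain ⟨p, hp, hpA, hpB⟩ := Nat.Prime.not_coprime_iff_dvd.mp hcop
      haveI : Fact p.Prime := ⟨hp⟩
      exact KCfg.false (p := p) ⟨hA, hB, hfac, hpA, hpB, supA, supB, nsN⟩

/-- **Kegel–Wielandt theorem**: a finite group which is the product of two nilpotent subgroups
is solvable. -/
theorem kegel_wielandt {G : Type u} [Group G] [Finite G] (A B : Subgroup G)
    (hA : Group.IsNilpotent A) (hB : Group.IsNilpotent B)
    (hfac : ∀ g : G, ∃ a ∈ A, ∃ b ∈ B, g = a * b) : Group.IsSolvable G :=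
  kw_aux _ G rfl A B hA hB hfac

end Cfsg.Agent.Lib.Helper10.KW6
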