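import Mathlib
import Cfsg.Agent.Lib.Helper86.ElemAb

set_option autoImplicit false

namespace Cfsg.Agent.Lib.Helper10.RVBridge

open Cfsg.Agent.Lib.Helper86.ElemAb

theorem bridge_aux {M : Type*} [CommGroup M] [Finite M] {p : ℕ} [Fact p.Prime]
    [Module (ZMod p) (Additive M)] (hcard : Nat.card M = p ^ 2) :
    ∃ (c : M → (Fin 2 → ZMod p)) (ρ : MulAut M →* GL (Fin 2) (ZMod p)),
      Function.Bijective c ∧ (∀ a b : M, c (a * b) = c a + c b) ∧
      ∀ (α : MulAut M) (a : M),
        c (α a) = (ρ α : Matrix (Fin 2) (Fin 2) (ZMod p)).mulVec (c a) := by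
  have hp : p.Prime := Fact.out
  have : Finite (Additive M) := inferInstanceAs (Finite M)
  have hfin : Module.finrank (ZMod p) (Additive M) = 2 := by
    have h1 := Module.natCard_eq_pow_finrank (K := ZMod p) (V := Additive M)
    have h2 : Nat.card (Additive M) = p ^ 2 := hcard
    rw [h2, Nat.card_eq_fintype_card, ZMod.card] at h1
    exact (Nat.pow_right_injective hp.two_le h1).symm
  let b := Module.finBasisOfFinrankEq (ZMod p) (Additive M) hfin
  let ρ : MulAut M ≃* GL (Fin 2) (ZMod p) := (autEquivLin (H := M) (p := p)).trans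
    ((LinearMap.GeneralLinearGroup.generalLinearEquiv (ZMod p) (Additive M)).symm.trans
      (Units.mapEquiv (LinearMap.toMatrixAlgEquiv b).toMulEquiv))
  refine ⟨fun a => b.equivFun (Additive.ofMul a), ρ.toMonoidHom, ?_, ?_, ?_⟩
  · exact b.equivFun.bijective.comp Additive.ofMul.bijective
  · intro a a'
    show b.equivFun (Additive.ofMul a + Additive.ofMul a') = _
    rw [map_add]
  · intro α a
    have h := LinearMap.toMatrix_mulVec_repr b b
      ((autEquivLin (H := M) (p := p) α : Additive M ≃ₗ[ZMod p] Additive M) :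
        Additive M →ₗ[ZMod p] Additive M) (Additive.ofMul a)
    have h2 : ((ρ.toMonoidHom α : GL (Fin 2) (ZMod p)) : Matrix (Fin 2) (Fin 2) (ZMod p)) =
        LinearMap.toMatrix b b
          ((autEquivLin (H := M) (p := p) α : Additive M ≃ₗ[ZMod p] Additive M) :
            Additive M →ₗ[ZMod p] Additive M) := rfl
    rw [h2]
    funext i
    have h3 := congrFun h i
    simp only [Module.Basis.equivFun_apply]
    rw [h3]
    rfl

/-- coordinates on an elementary abelian group of order `p ^ 2`, compatible with a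
homomorphism from its automorphism group to `GL₂(p)`. -/
theorem bridge {M : Type*} [Group M] [Finite M] {p : ℕ} [Fact p.Prime]
    (hcomm : ∀ a b : M, a * b = b * a) (hexp : ∀ a : M, a ^ p = 1)
    (hcard : Nat.card M = p ^ 2) :
    ∃ (c : M → (Fin 2 → ZMod p)) (ρ : MulAut M →* GL (Fin 2) (ZMod p)),
      Function.Bijective c ∧ (∀ a b : M, c (a * b) = c a + c b) ∧
      ∀ (α : MulAut M) (a : M),
        c (α a) = (ρ α : Matrix (Fin 2) (Fin 2) (ZMod p)).mulVec (c a) := by
  let i1 : CommGroup M := { (inferInstance : Group M) with mul_comm := hcomm }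
  let i2 : Module (ZMod p) (Additive M) := AddCommGroup.zmodModule (n := p) (fun x => by
    show Additive.ofMul ((Additive.toMul x) ^ p) = 0
    rw [hexp]
    rfl)
  exact @bridge_aux M i1 _ p _ i2 hcard

end Cfsg.Agent.Lib.Helper10.RVBridge
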