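import Mathlib
import Cfsg.Agent.Lib.Helper10.RVBridge

set_option autoImplicit false

namespace Cfsg.Agent.Lib.Helper10.RVSetup

open Cfsg.Agent.Lib.Helper10.RVBridge

section autq
variable {Q : Type*} [Group Q]

/-- automorphisms act on the central quotient -/
noncomputable def autQuot : MulAut Q →* MulAut (Q ⧸ Subgroup.center Q) where
  toFun α := QuotientGroup.congr (Subgroup.center Q) (Subgroup.center Q) α
    (Subgroup.characteristic_iff_map_eq.1 inferInstance α)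
  map_one' := by
    ext x
    induction x using QuotientGroup.induction_on with
    | H x => rfl
  map_mul' α β := by
    ext x
    induction x using QuotientGroup.induction_on with
    | H x => rfl

theorem autQuot_mk (α : MulAut Q) (x : Q) :
    autQuot α (QuotientGroup.mk x) = QuotientGroup.mk (α x) := rfl

end autq

section lin
variable {K : Type*} [Field K]

omit [Field K] in
theorem ext2 {f g : Fin 2 → K} (h0 : f 0 = g 0) (h1 : f 1 = g 1) : f = g := by
  funext k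
  fin_cases k
  · exact h0
  · exact h1

theorem lin2 (v u b : Fin 2 → K) (hD : v 0 * u 1 - v 1 * u 0 ≠ 0) :
    ∃ i j : K, b = i • v + j • u := by
  refine ⟨(b 0 * u 1 - b 1 * u 0) / (v 0 * u 1 - v 1 * u 0),
    (v 0 * b 1 - v 1 * b 0) / (v 0 * u 1 - v 1 * u 0), ?_⟩
  refine ext2 ?_ ?_
  · simp only [Pi.add_apply, Pi.smul_apply, smul_eq_mul]
    rw [div_mul_eq_mul_div, div_mul_eq_mul_div, ← add_div, eq_div_iff hD]
    ring
  · simp only [Pi.add_apply, Pi.smul_apply, smul_eq_mul]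
    rw [div_mul_eq_mul_div, div_mul_eq_mul_div, ← add_div, eq_div_iff hD]
    ring

theorem dep2 (v u : Fin 2 → K) (hv : v ≠ 0) (hD : v 0 * u 1 - v 1 * u 0 = 0) :
    ∃ l : K, u = l • v := by
  by_cases h0 : v 0 = 0
  · have h1 : v 1 ≠ 0 := by
      intro h1
      apply hv
      exact ext2 h0 h1
    refine ⟨u 1 / v 1, ?_⟩
    have hu0 : u 0 = 0 := by
      rw [h0] at hD
      have : v 1 * u 0 = 0 := by linear_combination -hD
      rcases mul_eq_zero.1 this with h | h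
      · exact absurd h h1
      · exact h
    refine ext2 ?_ ?_
    · simp only [Pi.smul_apply, smul_eq_mul]
      rw [h0, hu0]
      simp
    · simp only [Pi.smul_apply, smul_eq_mul]
      field_simp
  · refine ⟨u 0 / v 0, ?_⟩
    refine ext2 ?_ ?_
    · simp only [Pi.smul_apply, smul_eq_mul]
      field_simp
    · simp only [Pi.smul_apply, smul_eq_mul]
      field_simp
      linear_combination hD

theorem det2 (A : Matrix (Fin 2) (Fin 2) K) (v w : Fin 2 → K) (σ τ l : K)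
    (h1 : A.mulVec v = σ • v) (h2 : A.mulVec w = τ • w + l • v)
    (hD : v 0 * w 1 - v 1 * w 0 ≠ 0) : A.det = σ * τ := by
  have e1 := congrFun h1 0
  have e2 := congrFun h1 1
  have e3 := congrFun h2 0
  have e4 := congrFun h2 1
  simp only [Matrix.mulVec, dotProduct, Fin.sum_univ_two, Pi.smul_apply, smul_eq_mul,
    Pi.add_apply] at e1 e2 e3 e4
  rw [Matrix.det_fin_two]
  have key : (A 0 0 * A 1 1 - A 0 1 * A 1 0 - σ * τ) * (v 0 * w 1 - v 1 * w 0) = 0 := by
    linear_combination (A 1 0 * w 0 + A 1 1 * w 1) * e1 - (A 0 0 * w 0 + A 0 1 * w 1) * e2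
      - σ * v 1 * e3 + σ * v 0 * e4
  rcases mul_eq_zero.1 key with h | h
  · linear_combination h
  · exact absurd h hD

end lin

section comm
variable {G : Type*} [Group G]

theorem pow_comm1 (x w z : G) (e : ℕ) (hq : x * w * x⁻¹ * w⁻¹ = z ^ e) (hzx : z * x = x * z) :
    ∀ k : ℕ, x ^ k * w * (x ^ k)⁻¹ * w⁻¹ = z ^ (e * k) := by
  intro k
  induction k with
  | zero => simp
  | succ k ih =>
    have hc : Commute (z ^ (e * k)) x := Commute.pow_left hzx _
    calc x ^ (k + 1) * w * (x ^ (k + 1))⁻¹ * w⁻¹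
        = x * (x ^ k * w * (x ^ k)⁻¹ * w⁻¹) * (w * x⁻¹ * w⁻¹) := by
          rw [pow_succ']; group
      _ = x * z ^ (e * k) * (w * x⁻¹ * w⁻¹) := by rw [ih]
      _ = z ^ (e * k) * (x * w * x⁻¹ * w⁻¹) := by rw [← hc.eq]; group
      _ = z ^ (e * (k + 1)) := by rw [hq, ← pow_add]; congr 1

theorem pow_comm2 (x w z : G) (e : ℕ) (hq : x * w * x⁻¹ * w⁻¹ = z ^ e) (hzw : z * w = w * z) :
    ∀ k : ℕ, x * w ^ k * x⁻¹ * (w ^ k)⁻¹ = z ^ (e * k) := by
  intro k
  induction k with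
  | zero => simp
  | succ k ih =>
    have hc : Commute (z ^ e) (w ^ k) := Commute.pow_pow hzw _ _
    calc x * w ^ (k + 1) * x⁻¹ * (w ^ (k + 1))⁻¹
        = (x * w ^ k * x⁻¹ * (w ^ k)⁻¹) * (w ^ k * (x * w * x⁻¹ * w⁻¹) * (w ^ k)⁻¹) := by
          rw [pow_succ]; group
      _ = z ^ (e * k) * (w ^ k * z ^ e * (w ^ k)⁻¹) := by rw [ih, hq]
      _ = z ^ (e * k) * z ^ e := by rw [← hc.eq]; group
      _ = z ^ (e * (k + 1)) := by rw [← pow_add]; congr 1

/-- the key commutator computation: `n w n⁻¹ ≡ w ^ (t ^ 2)` modulo `C(x)`. -/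
theorem comm_calc (x w z n : G) (e t s p : ℕ) (hq : x * w * x⁻¹ * w⁻¹ = z ^ e)
    (hzx : z * x = x * z) (hzw : z * w = w * z)
    (hzy : z * (n * w * n⁻¹) = (n * w * n⁻¹) * z)
    (hnz : n * z * n⁻¹ = z ^ t) (hnx : n * x * n⁻¹ = x ^ s) (hxp : x ^ p = 1)
    (hts : t * s ≡ 1 [MOD p]) :
    x * (n * w * n⁻¹ * (w ^ (t ^ 2))⁻¹) * x⁻¹ = n * w * n⁻¹ * (w ^ (t ^ 2))⁻¹ := by
  -- n⁻¹ x n = x ^ t
  have hxt : n⁻¹ * x * n = x ^ t := by
    have h1 : n * x ^ t * n⁻¹ = x := by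
      have h2 : n * x ^ t * n⁻¹ = (n * x * n⁻¹) ^ t := by
        rw [conj_pow]
      rw [h2, hnx, ← pow_mul]
      have h3 : x ^ (s * t) = x ^ 1 := by
        apply pow_eq_pow_of_modEq
        · rw [mul_comm]; exact hts
        · exact hxp
      rw [h3, pow_one]
    have h5 : n⁻¹ * x * n = n⁻¹ * (n * x ^ t * n⁻¹) * n := by rw [h1]
    rw [h5]; group
  have h4 : x * (n * w * n⁻¹) * x⁻¹ * (n * w * n⁻¹)⁻¹ = z ^ (e * t ^ 2) := by
    calc x * (n * w * n⁻¹) * x⁻¹ * (n * w * n⁻¹)⁻¹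
        = n * ((n⁻¹ * x * n) * w * (n⁻¹ * x * n)⁻¹ * w⁻¹) * n⁻¹ := by group
      _ = n * (x ^ t * w * (x ^ t)⁻¹ * w⁻¹) * n⁻¹ := by rw [hxt]
      _ = n * z ^ (e * t) * n⁻¹ := by rw [pow_comm1 x w z e hq hzx t]
      _ = (n * z * n⁻¹) ^ (e * t) := by rw [conj_pow]
      _ = z ^ (e * t ^ 2) := by rw [hnz, ← pow_mul]; congr 1; ring
  have h5 := pow_comm2 x w z e hq hzw (t ^ 2)
  set y := n * w * n⁻¹ with hy
  set W := w ^ (t ^ 2) with hW
  set r := z ^ (e * t ^ 2) with hr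
  have hry : Commute r y := Commute.pow_left hzy _
  have hrW : Commute r W := Commute.pow_pow hzw _ _
  have h6 : x * y * x⁻¹ = r * y := by rw [← h4]; group
  have h7 : x * W * x⁻¹ = r * W := by rw [← h5]; group
  calc x * (y * W⁻¹) * x⁻¹ = (x * y * x⁻¹) * (x * W * x⁻¹)⁻¹ := by group
    _ = r * y * (r * W)⁻¹ := by rw [h6, h7]
    _ = y * W⁻¹ := by
      rw [hrW.eq, mul_inv_rev, hry.eq]; group

end comm

section setup

theorem c_one {M : Type*} [Group M] {p : ℕ} (c : M → (Fin 2 → ZMod p))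
    (hcadd : ∀ a b : M, c (a * b) = c a + c b) : c 1 = 0 := by
  have h := hcadd 1 1
  rw [mul_one] at h
  exact left_eq_add.mp h

theorem c_pow {M : Type*} [Group M] {p : ℕ} (c : M → (Fin 2 → ZMod p))
    (hcadd : ∀ a b : M, c (a * b) = c a + c b) (a : M) (k : ℕ) :
    c (a ^ k) = (k : ZMod p) • c a := by
  induction k with
  | zero => simp [c_one c hcadd]
  | succ k ih => rw [pow_succ, hcadd, ih]; push_cast; rw [add_smul, one_smul]

/-- The linear setup for a Sylow `p`-subgroup `P` of order `p ^ 3` with centre of order `p`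
and exponent `p`: coordinates `c` on `P / Z(P)`, a homomorphism `R` from `N_G(P)` to `GL₂(p)` with
image of order prime to `p`, and the eigenvalue / determinant of the elements acting as
`z ↦ z ^ t`, `x ↦ x ^ s` (`t s ≡ 1`). -/
theorem setup {G : Type*} [Group G] [Finite G] {p : ℕ} [Fact p.Prime]
    (P : Sylow p G) (hZ : Nat.card (Subgroup.center ↥P) = p)
    (hcard : Nat.card P = p ^ 3) (hexp : ∀ a : ↥P, a ^ p = 1) :
    ∃ (c : ↥P ⧸ Subgroup.center ↥P → (Fin 2 → ZMod p))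
      (R : ↥(Subgroup.normalizer ((P : Subgroup G) : Set G)) →* GL (Fin 2) (ZMod p)),
      Function.Bijective c ∧ (∀ a b : ↥P ⧸ Subgroup.center ↥P, c (a * b) = c a + c b) ∧
      (∀ h ∈ R.range, ¬ p ∣ orderOf h) ∧
      ∀ z₀ : ↥P, z₀ ∈ Subgroup.center ↥P → z₀ ≠ 1 →
        ∀ (n : G) (hn : n ∈ Subgroup.normalizer ((P : Subgroup G) : Set G)) (t s : ℕ),
          t * s ≡ 1 [MOD p] → n * (z₀ : G) * n⁻¹ = (z₀ : G) ^ t →
          ∀ x₀ : ↥P, x₀ ∉ Subgroup.center ↥P → n * (x₀ : G) * n⁻¹ = (x₀ : G) ^ s →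
            (R ⟨n, hn⟩ : Matrix (Fin 2) (Fin 2) (ZMod p)).mulVec (c (QuotientGroup.mk x₀)) =
                (s : ZMod p) • c (QuotientGroup.mk x₀) ∧
              Matrix.det (R ⟨n, hn⟩ : Matrix (Fin 2) (Fin 2) (ZMod p)) = (t : ZMod p) := by
  have hp : p.Prime := Fact.out
  -- the central quotient
  have hM : Nat.card (↥P ⧸ Subgroup.center ↥P) = p ^ 2 := by
    have h := Subgroup.card_eq_card_quotient_mul_card_subgroup (Subgroup.center ↥P)
    have hcard' : Nat.card ↥P = p ^ 3 := hcard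
    rw [hcard', hZ] at h
    have h3 : p ^ 3 = p ^ 2 * p := by ring
    rw [h3] at h
    exact (Nat.eq_of_mul_eq_mul_right hp.pos h).symm
  have hcommM : ∀ a b : ↥P ⧸ Subgroup.center ↥P, a * b = b * a :=
    (IsPGroup.isMulCommutative_of_card_eq_prime_sq hM).is_comm.comm
  have hexpM : ∀ a : ↥P ⧸ Subgroup.center ↥P, a ^ p = 1 := by
    intro a
    induction a using QuotientGroup.induction_on with
    | H a => rw [← QuotientGroup.mk_pow, hexp]; rfl
  obtain ⟨c, ρ, hcb, hcadd, hcρ⟩ := RVBridge.bridge hcommM hexpM hM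
  -- the action of the normalizer
  let Ψ : ↥(Subgroup.normalizer ((P : Subgroup G) : Set G)) →*
      MulAut (↥P ⧸ Subgroup.center ↥P) :=
    autQuot.comp (Subgroup.normalizerMonoidHom (P : Subgroup G))
  have hΨ : ∀ (ν : ↥(Subgroup.normalizer ((P : Subgroup G) : Set G))) (a b : ↥P),
      (b : G) = (ν : G) * (a : G) * (ν : G)⁻¹ →
      Ψ ν (QuotientGroup.mk a) = QuotientGroup.mk b := by
    intro ν a b hb
    show QuotientGroup.mk ((Subgroup.normalizerMonoidHom (P : Subgroup G) ν) a) =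
      QuotientGroup.mk b
    congr 1
    apply Subtype.ext
    rw [hb]
    rfl
  refine ⟨c, ρ.comp Ψ, hcb, hcadd, ?_, ?_⟩
  · -- the image is a p'-group
    rintro h ⟨ν, rfl⟩
    have hnorm : ((P : Subgroup G).subgroupOf
        (Subgroup.normalizer ((P : Subgroup G) : Set G))).Normal :=
      Subgroup.normal_in_normalizer
    have hk := Subgroup.pow_index_mem ((P : Subgroup G).subgroupOf
        (Subgroup.normalizer ((P : Subgroup G) : Set G))) ν
    set idx := ((P : Subgroup G).subgroupOf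
        (Subgroup.normalizer ((P : Subgroup G) : Set G))).index with hidx
    have hΨ1 : Ψ (ν ^ idx) = 1 := by
      ext m
      induction m using QuotientGroup.induction_on with
      | H a =>
        have hmem : ((ν ^ idx : ↥(Subgroup.normalizer ((P : Subgroup G) : Set G))) : G) ∈
            (P : Subgroup G) := Subgroup.mem_subgroupOf.1 hk
        rw [hΨ _ a (⟨_, hmem⟩ * a * ⟨_, hmem⟩⁻¹) (by simp)]
        rw [MulAut.one_apply, QuotientGroup.mk_mul, QuotientGroup.mk_mul, QuotientGroup.mk_inv,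
          hcommM, inv_mul_cancel_left]
    have h1 : (ρ.comp Ψ ν) ^ idx = 1 := by
      rw [← map_pow, MonoidHom.comp_apply, hΨ1, map_one]
    intro hpd
    have h2 := hpd.trans (orderOf_dvd_of_pow_eq_one h1)
    exact P.not_dvd_index (h2.trans (Subgroup.relIndex_dvd_index_of_le Subgroup.le_normalizer))
  · intro z₀ hz₀Z hz₀1 n hnN t s hts hnz x₀ hx₀Z hnx
    have hv : c (QuotientGroup.mk x₀) ≠ 0 := by
      intro h0
      apply hx₀Z
      rw [← QuotientGroup.eq_one_iff]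
      apply hcb.1
      rw [h0, c_one c hcadd]
    have hord : orderOf z₀ = p := by
      have h1 : orderOf z₀ ∣ p := orderOf_dvd_of_pow_eq_one (hexp z₀)
      rcases (Nat.dvd_prime hp).1 h1 with h | h
      · exact absurd (orderOf_eq_one_iff.1 h) hz₀1
      · exact h
    have hzgen : ∀ a : ↥P, a ∈ Subgroup.center ↥P → ∃ e : ℕ, a = z₀ ^ e := by
      have hle : Subgroup.zpowers z₀ ≤ Subgroup.center ↥P := by
        rw [Subgroup.zpowers_le]; exact hz₀Z
      have heq : Subgroup.zpowers z₀ = Subgroup.center ↥P := by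
        apply Subgroup.eq_of_le_of_card_ge hle
        rw [Nat.card_zpowers, hord, hZ]
      intro a ha
      rw [← heq] at ha
      have hfin : IsOfFinOrder z₀ := isOfFinOrder_of_finite z₀
      rw [← hfin.mem_powers_iff_mem_zpowers, Submonoid.mem_powers_iff] at ha
      obtain ⟨e, he⟩ := ha
      exact ⟨e, he.symm⟩
    have hexp' : ∀ a ∈ (P : Subgroup G), a ^ p = 1 := fun a ha => by
      have h1 := congrArg Subtype.val (hexp ⟨a, ha⟩)
      simpa using h1
    have hzc : ∀ a ∈ (P : Subgroup G), a * (z₀ : G) = (z₀ : G) * a := fun a ha => by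
      have h1 := congrArg Subtype.val (Subgroup.mem_center_iff.1 hz₀Z ⟨a, ha⟩)
      simpa using h1
    set ν : ↥(Subgroup.normalizer ((P : Subgroup G) : Set G)) := ⟨n, hnN⟩ with hν
    have hΨx : Ψ ν (QuotientGroup.mk x₀) = (QuotientGroup.mk x₀) ^ s := by
      rw [hΨ ν x₀ (x₀ ^ s) (by simp [hν, hnx]), QuotientGroup.mk_pow]
    have hev : (ρ (Ψ ν) : Matrix (Fin 2) (Fin 2) (ZMod p)).mulVec (c (QuotientGroup.mk x₀)) =
        (s : ZMod p) • c (QuotientGroup.mk x₀) := by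
      rw [← hcρ, hΨx, c_pow c hcadd]
    refine ⟨hev, ?_⟩
    -- the determinant
    set v := c (QuotientGroup.mk x₀) with hvdef
    obtain ⟨w', hD⟩ : ∃ w' : Fin 2 → ZMod p, v 0 * w' 1 - v 1 * w' 0 ≠ 0 := by
      by_cases h1 : v 1 = 0
      · have h0 : v 0 ≠ 0 := fun h0 => hv (ext2 h0 h1)
        exact ⟨![0, 1], by simp [h1, h0]⟩
      · exact ⟨![1, 0], by simp [h1]⟩
    obtain ⟨mw, hmw⟩ := hcb.2 w'
    obtain ⟨w₀, rfl⟩ := QuotientGroup.mk_surjective mw
    have hyP : n * (w₀ : G) * n⁻¹ ∈ (P : Subgroup G) := (hnN (w₀ : G)).1 w₀.2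
    obtain ⟨y₀, hy₀⟩ : ∃ y₀ : ↥P, (y₀ : G) = n * (w₀ : G) * n⁻¹ := ⟨⟨_, hyP⟩, rfl⟩
    have hΨw : Ψ ν (QuotientGroup.mk w₀) = QuotientGroup.mk y₀ := hΨ ν w₀ y₀ hy₀
    obtain ⟨a₀, ha₀⟩ : ∃ a₀ : ↥P, a₀ = y₀ * (w₀ ^ (t ^ 2))⁻¹ := ⟨_, rfl⟩
    -- the commutator of x₀ and w₀ is central
    obtain ⟨e, he⟩ : ∃ e : ℕ, (x₀ : G) * (w₀ : G) * (x₀ : G)⁻¹ * (w₀ : G)⁻¹ = (z₀ : G) ^ e := by
      have h1 : x₀ * w₀ * x₀⁻¹ * w₀⁻¹ ∈ Subgroup.center ↥P := by
        rw [← QuotientGroup.eq_one_iff]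
        simp only [QuotientGroup.mk_mul, QuotientGroup.mk_inv]
        rw [hcommM (QuotientGroup.mk x₀) (QuotientGroup.mk w₀)]
        group
      obtain ⟨e, he⟩ := hzgen _ h1
      refine ⟨e, ?_⟩
      have h2 := congrArg Subtype.val he
      simpa using h2
    have hax : a₀ * x₀ = x₀ * a₀ := by
      have h1 := comm_calc (x₀ : G) (w₀ : G) (z₀ : G) n e t s p he
        (hzc _ x₀.2).symm (hzc _ w₀.2).symm (hzc _ hyP).symm hnz hnx (hexp' _ x₀.2) hts
      apply Subtype.ext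
      have h2 : ((a₀ : ↥P) : G) = n * (w₀ : G) * n⁻¹ * ((w₀ : G) ^ (t ^ 2))⁻¹ := by
        rw [ha₀]
        simp [hy₀]
      have h3 : ((a₀ * x₀ : ↥P) : G) = (a₀ : G) * (x₀ : G) := rfl
      have h4 : ((x₀ * a₀ : ↥P) : G) = (x₀ : G) * (a₀ : G) := rfl
      rw [h3, h4]
      rw [← h2] at h1
      calc (a₀ : G) * (x₀ : G) = ((x₀ : G) * (a₀ : G) * (x₀ : G)⁻¹) * (x₀ : G) := by rw [h1]
        _ = (x₀ : G) * (a₀ : G) := by group
    have hdep : v 0 * (c (QuotientGroup.mk a₀)) 1 - v 1 * (c (QuotientGroup.mk a₀)) 0 = 0 := by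
      by_contra hne
      apply hx₀Z
      rw [Subgroup.mem_center_iff]
      intro b
      obtain ⟨i, j, hij⟩ := lin2 v (c (QuotientGroup.mk a₀)) (c (QuotientGroup.mk b)) hne
      have h1 : (QuotientGroup.mk b : ↥P ⧸ Subgroup.center ↥P) =
          QuotientGroup.mk (x₀ ^ i.val * a₀ ^ j.val) := by
        apply hcb.1
        rw [QuotientGroup.mk_mul, hcadd, QuotientGroup.mk_pow, QuotientGroup.mk_pow,
          c_pow c hcadd, c_pow c hcadd, ZMod.natCast_zmod_val, ZMod.natCast_zmod_val]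
        exact hij
      have h2 : (x₀ ^ i.val * a₀ ^ j.val)⁻¹ * b ∈ Subgroup.center ↥P :=
        QuotientGroup.eq.1 h1.symm
      set ζ := (x₀ ^ i.val * a₀ ^ j.val)⁻¹ * b with hζ
      have hb : b = x₀ ^ i.val * a₀ ^ j.val * ζ := by rw [hζ]; group
      have hζc := Subgroup.mem_center_iff.1 h2
      have e1 : Commute (x₀ ^ i.val) x₀ := (Commute.refl x₀).pow_left _
      have e2 : Commute (a₀ ^ j.val) x₀ := (show Commute a₀ x₀ from hax).pow_left _
      have e3 : Commute ζ x₀ := (hζc x₀).symm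
      rw [hb]
      exact ((e1.mul_left e2).mul_left e3).eq
    obtain ⟨l, hl⟩ := dep2 v (c (QuotientGroup.mk a₀)) hv hdep
    have hy : y₀ = a₀ * w₀ ^ (t ^ 2) := by rw [ha₀]; group
    have hw2 : (ρ (Ψ ν) : Matrix (Fin 2) (Fin 2) (ZMod p)).mulVec w' =
        ((t : ZMod p) ^ 2) • w' + l • v := by
      rw [← hmw, ← hcρ, hΨw, hy, QuotientGroup.mk_mul, hcadd, hl, QuotientGroup.mk_pow,
        c_pow c hcadd, add_comm]
      push_cast
      rfl
    have hdet := det2 _ v w' _ _ l hev hw2 hD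
    show Matrix.det (ρ (Ψ ν) : Matrix (Fin 2) (Fin 2) (ZMod p)) = (t : ZMod p)
    rw [hdet]
    have h5 : (s : ZMod p) * (t : ZMod p) = 1 := by
      have h6 : ((t * s : ℕ) : ZMod p) = ((1 : ℕ) : ZMod p) :=
        (ZMod.natCast_eq_natCast_iff _ _ _).2 hts
      push_cast at h6
      rw [mul_comm]; exact h6
    calc (s : ZMod p) * (t : ZMod p) ^ 2
        = ((s : ZMod p) * (t : ZMod p)) * (t : ZMod p) := by ring
      _ = (t : ZMod p) := by rw [h5, one_mul]

end setup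

end Cfsg.Agent.Lib.Helper10.RVSetup
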