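import Mathlib
import Cfsg.Agent.Lib.Helper10.RVSetup
import Cfsg.Agent.Lib.Helper33.SpecElts
import Cfsg.Agent.Lib.Helper93.Gl2Special
import Cfsg.Agent.Lib.Helper66.KleinCount

set_option autoImplicit false

namespace Cfsg.Agent.Lib.Helper10.RVMain

open Cfsg.Agent.Lib.Helper10.RVSetup

/-- A Sylow `p`-subgroup of order `p ^ 3`, exponent `p` and centre of order `p`, all of whose
nonidentity elements are conjugate in the group, forces `p < 11`. -/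
theorem main_aux {G : Type*} [Group G] [Finite G] {p : ℕ} [Fact p.Prime] (hp11 : 11 ≤ p)
    (P : Sylow p G) (hZ : Nat.card (Subgroup.center ↥P) = p)
    (hcard : Nat.card P = p ^ 3) (hexp : ∀ a : ↥P, a ^ p = 1)
    (hconj : ∀ x y : ↥P, x ≠ 1 → y ≠ 1 → ∃ g : G, g * (x : G) * g⁻¹ = (y : G)) : False := by
  have hp : p.Prime := Fact.out
  -- a generator of the centre
  obtain ⟨z₀, hz₀Z, hz₀1⟩ : ∃ z₀ : ↥P, z₀ ∈ Subgroup.center ↥P ∧ z₀ ≠ 1 := by
    by_contra hcon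
    push Not at hcon
    have hbot : Subgroup.center ↥P = ⊥ := by
      rw [Subgroup.eq_bot_iff_forall]
      intro a ha
      exact hcon a ha
    rw [hbot, Subgroup.card_bot] at hZ
    exact hp.one_lt.ne hZ
  have hord : orderOf z₀ = p := by
    have h1 : orderOf z₀ ∣ p := orderOf_dvd_of_pow_eq_one (hexp z₀)
    rcases (Nat.dvd_prime hp).1 h1 with h | h
    · exact absurd (orderOf_eq_one_iff.1 h) hz₀1
    · exact h
  have hzgen : ∀ a : ↥P, a ∈ Subgroup.center ↥P → ∃ e : ℕ, a = z₀ ^ e := by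
    have hle : Subgroup.zpowers z₀ ≤ Subgroup.center ↥P := by
      rw [Subgroup.zpowers_le]; exact hz₀Z
    have heq : Subgroup.zpowers z₀ = Subgroup.center ↥P := by
      apply Subgroup.eq_of_le_of_card_ge hle
      rw [Nat.card_zpowers, hord, hZ]
    intro a ha
    rw [← heq] at ha
    have hfin : IsOfFinOrder z₀ := isOfFinOrder_of_finite z₀
    rw [← hfin.mem_powers_iff_mem_zpowers, Submonoid.mem_powers_iff] at ha
    obtain ⟨e, he⟩ := ha
    exact ⟨e, he.symm⟩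
  obtain ⟨c, R, hcb, hcadd, hR, hkey⟩ := setup P hZ hcard hexp
  -- a primitive root
  obtain ⟨t₀, ht₀⟩ : ∃ t₀ : (ZMod p)ˣ, orderOf t₀ = p - 1 := by
    obtain ⟨g, hg⟩ := IsCyclic.exists_generator (α := (ZMod p)ˣ)
    refine ⟨g, ?_⟩
    rw [orderOf_eq_card_of_forall_mem_zpowers hg, Nat.card_eq_fintype_card, ZMod.card_units]
  set t : ℕ := ((t₀ : (ZMod p)ˣ) : ZMod p).val with ht
  set s : ℕ := ((t₀⁻¹ : (ZMod p)ˣ) : ZMod p).val with hs
  have htc : ((t : ℕ) : ZMod p) = (t₀ : ZMod p) := ZMod.natCast_zmod_val _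
  have hsc : ((s : ℕ) : ZMod p) = ((t₀⁻¹ : (ZMod p)ˣ) : ZMod p) := ZMod.natCast_zmod_val _
  have hts : t * s ≡ 1 [MOD p] := by
    rw [← ZMod.natCast_eq_natCast_iff]
    push_cast
    rw [htc, hsc, ← Units.val_mul, mul_inv_cancel, Units.val_one]
  refine Cfsg.Agent.Lib.Helper93.Gl2Special.gl2_special_of_klein
    (fun H' _ _ m hm hCA hN2 S hSc hSo s₁ s₂ s₃ s₄ h₁ h₂ h₃ h₄ h12 h13 h14 h23 h24 h34 =>
      Cfsg.Agent.Lib.Helper66.KleinCount.klein_count m hm hCA hN2 S hSc hSo s₁ s₂ s₃ s₄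
        h₁ h₂ h₃ h₄ h12 h13 h14 h23 h24 h34)
    p hp11 R.range hR t₀ ht₀ ?_
  intro v hv
  obtain ⟨m, rfl⟩ := hcb.2 v
  obtain ⟨x₀, rfl⟩ := QuotientGroup.mk_surjective m
  have hx₀Z : x₀ ∉ Subgroup.center ↥P := by
    intro hx
    apply hv
    have h1 : (QuotientGroup.mk x₀ : ↥P ⧸ Subgroup.center ↥P) = 1 :=
      (QuotientGroup.eq_one_iff x₀).2 hx
    rw [h1]; exact c_one c hcadd
  -- hypotheses of the special-element lemma
  have hexp' : ∀ a ∈ (P : Subgroup G), a ^ p = 1 := fun a ha => by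
    have h1 := congrArg Subtype.val (hexp ⟨a, ha⟩)
    simpa using h1
  have hzP : (z₀ : G) ∈ (P : Subgroup G) := z₀.2
  have hz1 : (z₀ : G) ≠ 1 := fun h => hz₀1 (Subtype.ext h)
  have hzc : ∀ a ∈ (P : Subgroup G), a * (z₀ : G) = (z₀ : G) * a := fun a ha => by
    have h1 := congrArg Subtype.val (Subgroup.mem_center_iff.1 hz₀Z ⟨a, ha⟩)
    simpa using h1
  have hcen : ∀ a ∈ (P : Subgroup G), (∀ b ∈ (P : Subgroup G), a * b = b * a) →
      a ∈ Subgroup.zpowers (z₀ : G) := by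
    intro a ha hab
    have h1 : (⟨a, ha⟩ : ↥P) ∈ Subgroup.center ↥P := by
      rw [Subgroup.mem_center_iff]
      intro g
      apply Subtype.ext
      exact (hab g g.2).symm
    obtain ⟨e, he⟩ := hzgen _ h1
    refine Subgroup.mem_zpowers_iff.2 ⟨(e : ℤ), ?_⟩
    have h2 := congrArg Subtype.val he
    rw [zpow_natCast]
    simpa using h2.symm
  have hconj' : ∀ x ∈ (P : Subgroup G), x ≠ 1 → ∃ g : G, g * x * g⁻¹ = (z₀ : G) := by
    intro x hx hx1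
    exact hconj ⟨x, hx⟩ z₀ (fun h => hx1 (congrArg Subtype.val h)) hz₀1
  have hxz : (x₀ : G) ∉ Subgroup.zpowers (z₀ : G) := by
    intro h
    obtain ⟨k, hk⟩ := Subgroup.mem_zpowers_iff.1 h
    apply hx₀Z
    have h1 : x₀ = z₀ ^ k := Subtype.ext (by rw [← hk]; simp)
    rw [h1]; exact Subgroup.zpow_mem _ hz₀Z k
  obtain ⟨n, hnN, hnz, hnx⟩ := Cfsg.Agent.Lib.Helper33.SpecElts.special_elements P hcard hexp'
    (z₀ : G) hzP hz1 hzc hcen hconj' t s hts (x₀ : G) x₀.2 hxz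
  obtain ⟨h1, h2⟩ := hkey z₀ hz₀Z hz₀1 n hnN t s hts hnz x₀ hx₀Z hnx
  refine ⟨R ⟨n, hnN⟩, ⟨⟨n, hnN⟩, rfl⟩, ?_, ?_⟩
  · rw [h1, hsc]
  · rw [h2, htc]

end Cfsg.Agent.Lib.Helper10.RVMain
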