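import Mathlib
import Cfsg.Agent.Lib.Helper12.SNStmt

/-!
# S4073, piece BSX: Burnside transfer for a self-normalizing abelian Sylow 2-subgroup
-/

set_option autoImplicit false

universe u

namespace Cfsg.Agent.Lib.Helper10.SNBSX

open Cfsg.Agent.Lib.Helper12.SNDef Cfsg.Agent.Lib.Helper12.SNStmt

theorem main : BSX.{u} := by
  intro X _ _ Q hQc hQn hidx
  have hle : (Q : Subgroup X) ≤ Subgroup.normalizer ((Q : Subgroup X) : Set X) :=
    Subgroup.le_normalizer
  have hmul := Subgroup.relIndex_mul_index hle
  have hNidx : (Subgroup.normalizer ((Q : Subgroup X) : Set X)).index ≠ 1 := by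
    intro h1
    apply hQn
    rw [← Subgroup.normalizer_eq_top_iff]
    exact Subgroup.index_eq_one.mp h1
  have hdvd : (Subgroup.normalizer ((Q : Subgroup X) : Set X)).index ∣ (Q : Subgroup X).index :=
    Dvd.intro_left _ hmul
  have hNeq : (Subgroup.normalizer ((Q : Subgroup X) : Set X)).index = (Q : Subgroup X).index := by
    rcases (Nat.dvd_prime hidx).mp hdvd with h | h
    · exact absurd h hNidx
    · exact h
  have hrel : (Q : Subgroup X).relIndex (Subgroup.normalizer ((Q : Subgroup X) : Set X)) = 1 := by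
    rw [hNeq] at hmul
    have hpos : 0 < (Q : Subgroup X).index := hidx.pos
    exact Nat.eq_of_mul_eq_mul_right hpos (by rw [hmul, one_mul])
  have hNQ : Subgroup.normalizer ((Q : Subgroup X) : Set X) ≤ (Q : Subgroup X) :=
    Subgroup.relIndex_eq_one.mp hrel
  have hQC : (Q : Subgroup X) ≤ Subgroup.centralizer ((Q : Subgroup X) : Set X) :=
    Subgroup.le_centralizer_iff_isMulCommutative.mpr hQc
  have hP : Subgroup.normalizer ((Q : Subgroup X) : Set X) ≤
      Subgroup.centralizer ((Q : Subgroup X) : Set X) := hNQ.trans hQC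
  exact ⟨(MonoidHom.transferSylow Q hP).ker, inferInstance,
    MonoidHom.ker_transferSylow_isComplement' Q hP⟩

end Cfsg.Agent.Lib.Helper10.SNBSX
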