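import Mathlib
import Cfsg.Agent.Lib.Helper12.SNStmt

/-!
# S4073, piece S2MAX
-/

set_option autoImplicit false

universe u

namespace Cfsg.Agent.Lib.Helper10.SNS2MAX

open Cfsg.Agent.Lib.Helper12.SNDef Cfsg.Agent.Lib.Helper12.SNStmt

theorem main : S2Max.{u} := by
  intro G _ _ p _ Q hmax B hBn hB hQB x hxo hxb
  have hQN : Q ≤ Subgroup.normalizer (Q : Set G) := Subgroup.le_normalizer
  have hB' : IsPGroup p (B.map (Subgroup.normalizer (Q : Set G)).subtype) := hB.map _
  have hxn : (x : G) ∈ Subgroup.normalizer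
      ((B.map (Subgroup.normalizer (Q : Set G)).subtype : Subgroup G) : Set G) := by
    rw [Subgroup.mem_normalizer_iff]
    intro h
    constructor
    · rintro ⟨b, hb, rfl⟩
      exact ⟨x * b * x⁻¹, hBn.conj_mem b hb x, by simp⟩
    · rintro ⟨b, hb, hbe⟩
      refine ⟨x⁻¹ * b * x, ?_, ?_⟩
      · have := hBn.conj_mem b hb x⁻¹
        simpa using this
      · simp only [Subgroup.subtype_apply, Subgroup.coe_mul, Subgroup.coe_inv] at hbe ⊢
        rw [hbe]
        group
  have hxc : (x : G) ∉ Subgroup.centralizer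
      ((B.map (Subgroup.normalizer (Q : Set G)).subtype : Subgroup G) : Set G) := by
    intro hc
    obtain ⟨b, hb, hne⟩ := hxb
    apply hne
    have h1 := (Subgroup.mem_centralizer_iff.mp hc) (b : G) ⟨b, hb, rfl⟩
    apply Subtype.ext
    simp only [Subgroup.coe_mul, Subgroup.coe_inv]
    rw [← h1]
    group
  have hxo' : Nat.Coprime (orderOf (x : G)) p := by rwa [Subgroup.orderOf_coe]
  have hle := hmax _ _ hB' hxn hxc hxo'
  have hc1 : Nat.card (B.map (Subgroup.normalizer (Q : Set G)).subtype) = Nat.card B :=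
    Subgroup.card_subtype _ B
  have hc2 : Nat.card (Q.subgroupOf (Subgroup.normalizer (Q : Set G))) = Nat.card Q :=
    Nat.card_congr (Subgroup.subgroupOfEquivOfLe hQN).toEquiv
  have heq : Q.subgroupOf (Subgroup.normalizer (Q : Set G)) = B :=
    Subgroup.eq_of_le_of_card_ge hQB (by rw [hc2, ← hc1]; exact hle)
  exact heq.ge

end Cfsg.Agent.Lib.Helper10.SNS2MAX
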