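import Mathlib
import Cfsg.Agent.Lib.Helper12.SNStmt
import Cfsg.Agent.S0071

/-!
# S4073, piece SYL1A: a pair `(Q, g)` exists (Frobenius criterion)
-/

set_option autoImplicit false

universe u

namespace Cfsg.Agent.Lib.Helper10.SNSYL1A

open Cfsg.Agent.Lib.Helper12.SNDef Cfsg.Agent.Lib.Helper12.SNStmt

theorem main : Syl1A.{u} := by
  intro G _ _ _ hna p _ hp
  by_contra hcon
  obtain ⟨P⟩ : Nonempty (Sylow p G) := inferInstance
  have hcond : ∀ Q : Subgroup G, Q ≤ (P : Subgroup G) →
      ∀ g ∈ Subgroup.normalizer (Q : Set G), Nat.Coprime (orderOf g) p →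
        g ∈ Subgroup.centralizer (Q : Set G) := by
    intro Q hQ g hg hco
    by_contra hgc
    exact hcon ⟨Q, g, P.isPGroup'.to_le hQ, hg, hgc, hco⟩
  obtain ⟨N, hN, hc⟩ := (Cfsg.Agent.S0071.result P).mpr hcond
  rcases hN.eq_bot_or_eq_top with rfl | rfl
  · have hP : (P : Subgroup G) = ⊤ := Subgroup.isComplement'_bot_left.mp hc
    have hG : IsPGroup p G := by
      intro g
      obtain ⟨k, hk⟩ := P.isPGroup' ⟨g, hP ▸ Subgroup.mem_top g⟩
      refine ⟨k, ?_⟩
      have := congrArg Subtype.val hk
      simpa using this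
    haveI : Nontrivial G := IsSimpleGroup.toNontrivial
    have hcen : Nontrivial (Subgroup.center G) := hG.center_nontrivial
    have hct : Subgroup.center G = ⊤ := by
      rcases (inferInstance : (Subgroup.center G).Normal).eq_bot_or_eq_top with h | h
      · exfalso
        rw [h] at hcen
        exact not_nontrivial _ hcen
      · exact h
    apply hna
    refine ⟨⟨fun a b => ?_⟩⟩
    have hb : b ∈ Subgroup.center G := hct ▸ Subgroup.mem_top b
    exact (Subgroup.mem_center_iff.mp hb) a
  · have hP : (P : Subgroup G) = ⊥ := Subgroup.isComplement'_top_left.mp hc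
    exact P.ne_bot_of_dvd_card hp hP

end Cfsg.Agent.Lib.Helper10.SNSYL1A
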