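import Mathlib
import Cfsg.Agent.Lib.Helper61.T2Stmt

set_option autoImplicit false

namespace Cfsg.Agent.Lib.Helper10.T2P40C

open Cfsg.Agent.Lib.Helper61.T2Stmt

universe u v

/-- fixed point congruence for an element of prime-power-one order -/
theorem card_modEq_fix {G : Type u} [Group G] {Ω : Type v} [Fintype Ω] [MulAction G Ω]
    (p : ℕ) [Fact p.Prime] (g : G) (hg : g ^ p = 1) :
    Fintype.card Ω ≡ Nat.card {γ : Ω // g • γ = γ} [MOD p] := by
  have hH : IsPGroup p (Subgroup.zpowers g) := by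
    intro ⟨h, hh⟩
    refine ⟨1, ?_⟩
    obtain ⟨j, rfl⟩ := Subgroup.mem_zpowers_iff.mp hh
    apply Subtype.ext
    simp only [pow_one, Subgroup.coe_pow, Subgroup.coe_one]
    rw [← zpow_natCast, ← zpow_mul, mul_comm, zpow_mul, zpow_natCast, hg, one_zpow]
  have h1 := hH.card_modEq_card_fixedPoints Ω
  rw [Nat.card_eq_fintype_card] at h1
  have h2 : Nat.card (MulAction.fixedPoints (Subgroup.zpowers g) Ω) =
      Nat.card {γ : Ω // g • γ = γ} := by
    apply Nat.card_congr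
    apply Equiv.subtypeEquivRight
    intro γ
    rw [MulAction.mem_fixedPoints]
    constructor
    · intro h
      exact h ⟨g, Subgroup.mem_zpowers g⟩
    · intro h ⟨m, hm⟩
      obtain ⟨j, rfl⟩ := Subgroup.mem_zpowers_iff.mp hm
      change g ^ j • γ = γ
      exact MulAction.mem_fixedBy_zpow (show γ ∈ MulAction.fixedBy Ω g from h) j
  rw [h2] at h1
  exact h1

theorem main : P40C.{u, v} := by
  intro p40b G _ Ω _ _ h40 x w α hxw hxα hxα'
  classical
  -- w fixes α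
  have hzp : ∀ m ∈ Subgroup.zpowers x, m • α = α := by
    intro m hm
    obtain ⟨j, rfl⟩ := Subgroup.mem_zpowers_iff.mp hm
    exact MulAction.mem_fixedBy_zpow (show α ∈ MulAction.fixedBy Ω x from hxα) j
  have hwα : w • α = α := by
    apply hxα'
    have h1 := hzp _ hxw.nrm'
    have : x • w • α = w • (w⁻¹ * x * w) • α := by
      rw [← mul_smul, ← mul_smul]
      congr 1
      group
    rw [this, h1]
  have hw2α : w ^ 2 • α = α := by rw [pow_two, mul_smul, hwα, hwα]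
  have hw3α : w ^ 3 • α = α := by rw [pow_succ, mul_smul, hwα, hw2α]
  obtain ⟨a2, b2, c2⟩ := p40b G Ω h40 x (w ^ 2) α hxw.ox hxα hxα' (hxw.nrm 2) hxw.nc2
  obtain ⟨a3, b3, c3⟩ := p40b G Ω h40 x (w ^ 3) α hxw.ox hxα hxα' (hxw.nrm 3) hxw.nc3
  -- congruences
  have : Fact (Nat.Prime 3) := ⟨by norm_num⟩
  have : Fact (Nat.Prime 2) := ⟨by norm_num⟩
  have m2 := card_modEq_fix (Ω := Ω) 3 (w ^ 2) (by rw [← pow_mul]; exact hxw.w6)
  have m3 := card_modEq_fix (Ω := Ω) 2 (w ^ 3) (by rw [← pow_mul]; exact hxw.w6)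
  rw [h40] at m2 m3
  have e2 : Nat.card {γ : Ω // w ^ 2 • γ = γ} =
      (Finset.univ.filter (fun γ : Ω => w ^ 2 • γ = γ)).card := by
    rw [Nat.card_eq_fintype_card, Fintype.card_subtype]
  have e3 : Nat.card {γ : Ω // w ^ 3 • γ = γ} =
      (Finset.univ.filter (fun γ : Ω => w ^ 3 • γ = γ)).card := by
    rw [Nat.card_eq_fintype_card, Fintype.card_subtype]
  set F2 := Finset.univ.filter (fun γ : Ω => w ^ 2 • γ = γ) with hF2
  set F3 := Finset.univ.filter (fun γ : Ω => w ^ 3 • γ = γ) with hF3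
  have hα2 : α ∈ F2 := by simp [hF2, hw2α]
  have hα3 : α ∈ F3 := by simp [hF3, hw3α]
  have p2 : 0 < F2.card := Finset.card_pos.mpr ⟨α, hα2⟩
  have p3 : 0 < F3.card := Finset.card_pos.mpr ⟨α, hα3⟩
  rw [e2] at m2 b2 c2
  rw [e3] at m3 b3 c3
  have k2 : F2.card = 1 ∨ F2.card = 4 := by
    have : F2.card % 3 = 1 := by
      have := m2
      unfold Nat.ModEq at this
      omega
    omega
  have k3 : F3.card = 2 ∨ F3.card = 4 := by
    have : F3.card % 2 = 0 := by
      have := m3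
      unfold Nat.ModEq at this
      omega
    omega
  refine ⟨hwα, ?_⟩
  rcases k2 with k2 | k2
  · left
    intro γ hγ
    obtain ⟨δ, hδ⟩ := Finset.card_eq_one.mp k2
    have h1 : γ ∈ F2 := by simp [hF2, hγ]
    rw [hδ] at h1 hα2
    rw [Finset.mem_singleton] at h1 hα2
    rw [h1, hα2]
  rcases k3 with k3 | k3
  · right; left
    obtain ⟨δ1, δ2, hne, hδ⟩ := Finset.card_eq_two.mp k3
    rw [hδ] at hα3
    rw [Finset.mem_insert, Finset.mem_singleton] at hα3
    rcases hα3 with h | h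
    · refine ⟨δ2, fun γ hγ => ?_⟩
      have h1 : γ ∈ F3 := by simp [hF3, hγ]
      rw [hδ, Finset.mem_insert, Finset.mem_singleton] at h1
      rw [h]; exact h1
    · refine ⟨δ1, fun γ hγ => ?_⟩
      have h1 : γ ∈ F3 := by simp [hF3, hγ]
      rw [hδ, Finset.mem_insert, Finset.mem_singleton] at h1
      rw [h]; exact h1.symm
  · right; right
    -- F2 ⊆ F3
    have hsub : F2 ⊆ F3 := by
      intro β hβ
      have hβ2 : w ^ 2 • β = β := by simpa [hF2] using hβ
      obtain ⟨k, hk⟩ := c3 k3 β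
      -- w^3 • β is in the ⟨x⟩-orbit of β
      have hn : w ^ 3 * (x ^ k)⁻¹ * (w ^ 3)⁻¹ ∈ Subgroup.zpowers x := by
        have h1 := hxw.nrm 3
        have h2 : w ^ 3 * (x ^ k)⁻¹ * (w ^ 3)⁻¹ = ((w ^ 3 * x * (w ^ 3)⁻¹) ^ k)⁻¹ := by
          rw [conj_pow]
          group
        rw [h2]
        exact inv_mem (pow_mem h1 k)
      have h3 : w ^ 3 • β = (w ^ 3 * (x ^ k)⁻¹ * (w ^ 3)⁻¹ * x ^ k) • β := by
        have : (w ^ 3 * (x ^ k)⁻¹ * (w ^ 3)⁻¹ * x ^ k) • β =
            (w ^ 3 * (x ^ k)⁻¹ * (w ^ 3)⁻¹) • (w ^ 3 • x ^ k • β) := by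
          rw [hk, ← mul_smul]
        rw [this, ← mul_smul, ← mul_smul]
        congr 1
        group
      have h4 : w ^ 3 * (x ^ k)⁻¹ * (w ^ 3)⁻¹ * x ^ k ∈ Subgroup.zpowers x :=
        mul_mem hn (pow_mem (Subgroup.mem_zpowers x) k)
      have hfin : IsOfFinOrder x := by
        rw [← orderOf_pos_iff, hxw.ox]; norm_num
      have h4' := (hfin.mem_zpowers_iff_mem_range_orderOf).mp h4
      rw [Finset.mem_image] at h4'
      obtain ⟨k', -, hk'⟩ := h4'
      have h5 : w ^ 2 • (w ^ 3 • β) = w ^ 3 • β := by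
        rw [← mul_smul, ← pow_add, show 2 + 3 = 3 + 2 by norm_num, pow_add, mul_smul, hβ2]
      have h6 := a2 β (w ^ 3 • β) hβ2 h5 ⟨k', by rw [h3, ← hk']⟩
      simp only [hF3, Finset.mem_filter, Finset.mem_univ, true_and]
      exact h6.symm
    have heq : F2 = F3 := Finset.eq_of_subset_of_card_le hsub (by rw [k2, k3])
    refine ⟨F2, k2, fun γ => ?_, fun γ => ?_⟩
    · simp [hF2]
    · rw [heq]; simp [hF3]

end Cfsg.Agent.Lib.Helper10.T2P40C
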