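import Mathlib
import Cfsg.Agent.Lib.Helper61.T2Stmt

set_option autoImplicit false

namespace Cfsg.Agent.Lib.Helper10.T2P40E

open Cfsg.Agent.Lib.Helper61.T2Stmt

universe u v

/-- a generating set inside a point stabiliser contradicts transitivity -/
theorem gen_fix_false {G : Type u} [Group G] {Ω : Type v} [MulAction G Ω]
    (htr : ∀ α γ : Ω, ∃ g : G, g • α = γ) (α γ : Ω) (hne : γ ≠ α) (S : Set G)
    (hS : ∀ s ∈ S, s • α = α) (hgen : Subgroup.closure S = ⊤) : False := by
  have h1 : Subgroup.closure S ≤ MulAction.stabilizer G α := by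
    rw [Subgroup.closure_le]
    intro s hs
    exact MulAction.mem_stabilizer_iff.mpr (hS s hs)
  rw [hgen] at h1
  obtain ⟨g, hg⟩ := htr α γ
  have h2 : g ∈ MulAction.stabilizer G α := h1 (Subgroup.mem_top g)
  rw [MulAction.mem_stabilizer_iff] at h2
  exact hne (hg.symm.trans h2)

theorem main : P40E.{u, v} := by
  intro tools G _ _ Ω _ _ act h40 x w α hxα hwα tr A B hA hB g1 g2 g3
  classical
  obtain ⟨-, htr, -, -⟩ := tools G Ω act.two (by omega)
  have hw2α : w ^ 2 • α = α := by rw [pow_two, mul_smul, hwα, hwα]
  have hw3α : w ^ 3 • α = α := by rw [pow_succ, mul_smul, hwα, hw2α]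
  obtain ⟨γ, hγ⟩ : ∃ γ : Ω, γ ≠ α := by
    have h1 : 1 < Fintype.card Ω := by omega
    obtain ⟨a, b, hab⟩ := Fintype.one_lt_card_iff.mp h1
    by_cases h : a = α
    · exact ⟨b, fun hb => hab (h.trans hb.symm)⟩
    · exact ⟨a, h⟩
  rcases tr with tr | ⟨β, tr⟩ | ⟨F, hF4, hF2, hF3⟩
  · -- case 1
    refine gen_fix_false htr α γ hγ _ ?_ g1
    intro s hs
    rcases hs with hs | hs
    · rcases hs with rfl | rfl
      · exact hxα
      · exact hwα
    · apply tr
      rw [← mul_smul, ← hA s hs, mul_smul, hw2α]
  · -- case 2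
    refine gen_fix_false htr α γ hγ _ ?_ g2
    intro s hs
    rcases hs with hs | hs
    · rcases hs with rfl | rfl
      · exact hxα
      · exact hwα
    · obtain ⟨hc, hodd⟩ := hB s hs
      have hfix : ∀ δ : Ω, w ^ 3 • δ = δ → w ^ 3 • (s • δ) = s • δ := by
        intro δ hδ
        rw [← mul_smul, ← hc, mul_smul, hδ]
      by_contra hne
      have h1 : s • α = β := by
        rcases tr _ (hfix α hw3α) with h | h
        · exact absurd h hne
        · exact h
      have hβ : w ^ 3 • β = β := by rw [← h1]; exact hfix α hw3α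
      have h2 : s • β = α := by
        rcases tr _ (hfix β hβ) with h | h
        · exact h
        · exfalso
          apply hne
          have : s • β = s • α := by rw [h, h1]
          have := smul_left_cancel s this
          rw [h1]; exact this
      have h3 : (s ^ 2) • α = α := by rw [pow_two, mul_smul, h1, h2]
      obtain ⟨k, hk⟩ := hodd
      have h4 : s ^ (2 * k + 1) = 1 := by rw [← hk]; exact pow_orderOf_eq_one s
      have h5 : ∀ j : ℕ, (s ^ 2) ^ j • α = α := by
        intro j
        induction j with
        | zero => simp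
        | succ j ih => rw [pow_succ, mul_smul, h3, ih]
      have h6 : s • α = α := by
        have : s ^ (2 * k + 1) • α = s • α := by
          rw [pow_succ', mul_smul, pow_mul, h5 k]
        rw [← this, h4, one_smul]
      exact hne h6
  · -- case 3
    have hP : ∀ g ∈ Subgroup.closure (A ∪ B), ∀ δ : Ω, g • δ ∈ F ↔ δ ∈ F := by
      intro g hg
      induction hg using Subgroup.closure_induction with
      | mem s hs =>
        intro δ
        rcases hs with hs | hs
        · rw [← hF2, ← hF2, ← mul_smul, ← hA s hs, mul_smul]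
          exact ⟨fun h => smul_left_cancel s h, fun h => by rw [h]⟩
        · rw [← hF3, ← hF3, ← mul_smul, ← (hB s hs).1, mul_smul]
          exact ⟨fun h => smul_left_cancel s h, fun h => by rw [h]⟩
      | one => intro δ; rw [one_smul]
      | mul a b _ _ iha ihb => intro δ; rw [mul_smul, iha, ihb]
      | inv a _ iha => intro δ; rw [← iha (a⁻¹ • δ), smul_inv_smul]
    rw [g3] at hP
    have hαF : α ∈ F := by rw [← hF2]; exact hw2α
    obtain ⟨δ, hδ⟩ : ∃ δ : Ω, δ ∉ F := by
      by_contra hcon
      push Not at hcon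
      have : F = Finset.univ := Finset.eq_univ_iff_forall.mpr hcon
      rw [this, Finset.card_univ, h40] at hF4
      omega
    obtain ⟨g, hg⟩ := htr α δ
    have := (hP g (Subgroup.mem_top g) α).mpr hαF
    rw [hg] at this
    exact hδ this

end Cfsg.Agent.Lib.Helper10.T2P40E
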