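import Mathlib
import Cfsg.Agent.Lib.Helper26.T64Stmt

set_option autoImplicit false

namespace Cfsg.Agent.Lib.Helper10.T64MOD3

open Cfsg.Agent.Lib.Helper26.T64Stmt

universe u

theorem main : Cfsg.Agent.Lib.Helper26.T64Stmt.MOD3.{u} := by
  intro T _ _ ρ hρ hfpf N hN
  classical
  have : Fintype N := Fintype.ofFinite N
  have : Fact (Nat.Prime 3) := ⟨by norm_num⟩
  have hρ3 : ∀ y : T, ρ (ρ (ρ y)) = y := by
    intro y
    have h := pow_orderOf_eq_one ρ
    rw [hρ] at h
    have h2 := congrArg (fun σ : MulAut T => σ y) h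
    simpa [pow_succ, MulAut.mul_apply] using h2
  obtain ⟨f, hf⟩ : ∃ f : Function.End N, ∀ n : N, ((f n : N) : T) = ρ n :=
    ⟨fun n => ⟨ρ n, hN n n.2⟩, fun n => rfl⟩
  have hf3 : f ^ 3 ^ 1 = 1 := by
    funext n
    apply Subtype.ext
    have h1 : (f ^ 3 ^ 1) n = f (f (f n)) := rfl
    rw [h1, hf, hf, hf, hρ3]
    rfl
  have h := Equiv.Perm.card_fixedPoints_modEq (p := 3) (n := 1) hf3
  have hfix : Nat.card (Function.fixedPoints f) = 1 := by
    rw [Nat.card_eq_one_iff_unique]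
    refine ⟨⟨?_⟩, ⟨⟨1, ?_⟩⟩⟩
    · rintro ⟨n, hn⟩ ⟨m, hm⟩
      apply Subtype.ext
      apply Subtype.ext
      have h1 : ρ (n : T) = n := by
        rw [← hf]
        exact congrArg Subtype.val hn
      have h2 : ρ (m : T) = m := by
        rw [← hf]
        exact congrArg Subtype.val hm
      show (n : T) = m
      rw [hfpf n h1, hfpf m h2]
    · show f 1 = 1
      apply Subtype.ext
      rw [hf]
      simp
  rw [Fintype.card_eq_nat_card, Fintype.card_eq_nat_card, hfix] at h
  exact h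

end Cfsg.Agent.Lib.Helper10.T64MOD3
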