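import Mathlib
import Cfsg.Agent.Lib.Helper26.T64Stmt

set_option autoImplicit false

namespace Cfsg.Agent.Lib.Helper10.T64ZCARD

open Cfsg.Agent.Lib.Helper26.T64Stmt

universe u

/-- Powers of two that are `1` mod `3` and lie strictly between `1` and `64`: only `4`, `16`. -/
theorem pow_cases (n : ℕ) (hd : n ∣ 64) (h3 : n % 3 = 1) (h1 : n ≠ 1) (h64 : n ≠ 64) :
    n = 4 ∨ n = 16 := by
  have h : (64 : ℕ) = 2 ^ 6 := by norm_num
  rw [h] at hd
  obtain ⟨k, hk, rfl⟩ := (Nat.dvd_prime_pow Nat.prime_two).mp hd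
  interval_cases k <;> simp_all

/-- The index-two step: `A ≤ C ≤ T`, `|T| = 64`, `|A| = 16`, `t, ρ t ∈ C ∖ A`, and Lang for `A`
force `C = ⊤`. -/
theorem top_of_idx {T : Type u} [Group T] [Finite T] (hT : Nat.card T = 64) (ρ : MulAut T)
    (A C : Subgroup T) (hAC : A ≤ C) (hA : Nat.card A = 16) (t : T) (htC : t ∈ C) (htA : t ∉ A)
    (hρC : ρ t ∈ C) (hρA : ρ t ∉ A) (hLang : t⁻¹ * ρ t ∈ A → t ∈ A) : C = ⊤ := by
  have hCd : Nat.card C ∣ 64 := hT ▸ Subgroup.card_subgroup_dvd_card C
  have hAd : 16 ∣ Nat.card C := hA ▸ Subgroup.card_dvd_of_le hAC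
  have hne : Nat.card C ≠ 16 := by
    intro h
    have : A = C := Subgroup.eq_of_le_of_card_ge hAC (by rw [hA, h])
    exact htA (this ▸ htC)
  have hcases : Nat.card C = 32 ∨ Nat.card C = 64 := by
    have h : (64 : ℕ) = 2 ^ 6 := by norm_num
    rw [h] at hCd
    obtain ⟨k, hk, hk2⟩ := (Nat.dvd_prime_pow Nat.prime_two).mp hCd
    rw [hk2] at hAd hne ⊢
    interval_cases k <;> simp_all
  rcases hcases with h32 | h64
  · exfalso
    have hidx : (A.subgroupOf C).index = 2 := by
      have h1 := Subgroup.card_mul_index (A.subgroupOf C)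
      rw [Nat.card_congr (Subgroup.subgroupOfEquivOfLe hAC).toEquiv, hA, h32] at h1
      omega
    have h2 := Subgroup.mul_mem_iff_of_index_two hidx (a := (⟨t, htC⟩ : C)⁻¹) (b := ⟨ρ t, hρC⟩)
    have h3 : (⟨t, htC⟩ : C)⁻¹ * ⟨ρ t, hρC⟩ ∈ A.subgroupOf C := by
      rw [h2, inv_mem_iff]
      constructor
      · intro h
        exact absurd (Subgroup.mem_subgroupOf.mp h) htA
      · intro h
        exact absurd (Subgroup.mem_subgroupOf.mp h) hρA
    exact htA (hLang (Subgroup.mem_subgroupOf.mp h3))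
  · exact Subgroup.eq_top_of_card_eq C (by rw [h64, hT])

theorem main : Cfsg.Agent.Lib.Helper26.T64Stmt.ZCARD.{u} := by
  intro T _ _ ρ hT hnc hρ hfpf hfacts hlang hmod3
  have hρ3 : ∀ y : T, ρ (ρ (ρ y)) = y := by
    intro y
    have h := pow_orderOf_eq_one ρ
    rw [hρ] at h
    have h2 := congrArg (fun σ : MulAut T => σ y) h
    simpa [pow_succ, MulAut.mul_apply] using h2
  have hZinv : ∀ z ∈ Subgroup.center T, ρ z ∈ Subgroup.center T := by
    intro z hz
    rw [Subgroup.mem_center_iff] at hz ⊢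
    intro g
    have h1 := hz (ρ (ρ g))
    have h2 := congrArg ρ h1
    rwa [map_mul, map_mul, hρ3] at h2
  have h3 : Nat.card (Subgroup.center T) % 3 = 1 := hmod3 _ hZinv
  have hd : Nat.card (Subgroup.center T) ∣ 64 := hT ▸ Subgroup.card_subgroup_dvd_card _
  have hp : IsPGroup 2 T := by
    have h : (64 : ℕ) = 2 ^ 6 := by norm_num
    exact IsPGroup.of_card (n := 6) (by rw [hT, h])
  have : Fact (Nat.Prime 2) := ⟨Nat.prime_two⟩
  have : Nontrivial T := by
    rw [← Finite.one_lt_card_iff_nontrivial, hT]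
    norm_num
  have h1 : Nat.card (Subgroup.center T) ≠ 1 := by
    intro h
    have hbot : Subgroup.center T = ⊥ := Subgroup.card_eq_one.mp h
    have hnt := hp.center_nontrivial
    rw [hbot] at hnt
    exact not_nontrivial _ hnt
  have h64 : Nat.card (Subgroup.center T) ≠ 64 := by
    intro h
    have htop : Subgroup.center T = ⊤ := Subgroup.eq_top_of_card_eq _ (by rw [h, hT])
    apply hnc
    refine ⟨⟨fun a b => ?_⟩⟩
    have ha : a ∈ Subgroup.center T := htop ▸ Subgroup.mem_top a
    exact ((Subgroup.mem_center_iff.mp ha) b).symm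
  rcases pow_cases _ hd h3 h1 h64 with h4 | h16
  · exact h4
  · exfalso
    obtain ⟨t, ht⟩ : ∃ t : T, t ∉ Subgroup.center T := by
      by_contra hcon
      push Not at hcon
      have htop : Subgroup.center T = ⊤ := (Subgroup.eq_top_iff' _).mpr hcon
      rw [htop, Subgroup.card_top, hT] at h16
      omega
    have hρt : ρ t ∉ Subgroup.center T := by
      intro h
      apply ht
      have := hZinv _ (hZinv _ h)
      rwa [hρ3] at this
    have hcent : Subgroup.centralizer ({t} : Set T) = ⊤ := by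
      apply top_of_idx hT ρ (Subgroup.center T) _ (Subgroup.center_le_centralizer _) h16 t
        (Subgroup.mem_centralizer_singleton_iff.mpr rfl) ht ?_ hρt (hlang _ hZinv t)
      rw [Subgroup.mem_centralizer_singleton_iff]
      exact ((hfacts t).2).symm
    apply ht
    rw [Subgroup.mem_center_iff]
    intro g
    have hg : g ∈ Subgroup.centralizer ({t} : Set T) := hcent ▸ Subgroup.mem_top g
    exact Subgroup.mem_centralizer_singleton_iff.mp hg

end Cfsg.Agent.Lib.Helper10.T64ZCARD
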