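import Mathlib
import Cfsg.Agent.Lib.Helper39.TLStmt

/-!
S4404 piece PW5 (helper10): `p ≥ 5`, `p ≠ 7`: a `p`-group `Y` normalized by the reflection `x`
centralizes `W`.

For `y ∈ Y`: `x' = y x y⁻¹` is a reflection with `W' = y W y⁻¹`; `c = x' x⁻¹ ∈ Y` normalizes
`U = W W'` (of order dividing 16) and `[M, c] ≤ U`.  The fixed point congruence for the `p`-group
`⟨c⟩` on `U` shows that `c` centralizes `U`, except possibly when `p = 5`, `#U = 16` and `c` has
no fixed point `≠ 1`; then the image of `Y ∩ N(U)` in `Sym(U)` acts semiregularly on `U ∖ 1`,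
so it has order 5 and is generated by the image of `c`; `x` normalizes it with `x ^ 3 = 1`, so
it centralizes it and `1 = (c x) ^ 3 = c ^ 3` on `U`.  So `c` centralizes `U`, hence `M`
(odd order), `x'` acts on `M` like `x`, `W' = W` (`ReflEq`), and the `p`-element `y` normalizing
`W` centralizes it.  (`Cop` is not used.)
-/

set_option autoImplicit false

universe u

namespace Cfsg.Agent.Lib.Helper10.TLPW5

open Cfsg Cfsg.Agent.Lib.Helper39.TLStmt

variable {S : Type u} [Group S]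

/-- conjugation action of the normalizer of `U` on `U`, as permutations -/
def theta (U : Subgroup S) : ↥(Subgroup.normalizer (U : Set S)) →* Equiv.Perm ↥U where
  toFun g :=
    { toFun := fun u => ⟨(g : S) * u * (g : S)⁻¹, (Subgroup.mem_normalizer_iff.mp g.2 u).mp u.2⟩
      invFun := fun u => ⟨(g : S)⁻¹ * u * (g : S), by
        have h := (Subgroup.mem_normalizer_iff.mp (inv_mem g.2) (u : S)).mp u.2
        simpa using h⟩
      left_inv := fun u => by ext; simp [mul_assoc]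
      right_inv := fun u => by ext; simp [mul_assoc] }
  map_one' := by ext u; simp
  map_mul' := fun g h => by ext u; simp [mul_assoc]

theorem theta_apply (U : Subgroup S) (g : ↥(Subgroup.normalizer (U : Set S))) (u : ↥U) :
    ((theta U g u : ↥U) : S) = (g : S) * u * (g : S)⁻¹ := rfl

theorem theta_eq_one_iff (U : Subgroup S) (g : ↥(Subgroup.normalizer (U : Set S))) :
    theta U g = 1 ↔ ∀ u ∈ U, (g : S) * u * (g : S)⁻¹ = u := by
  constructor
  · intro h u hu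
    have h1 := congrArg (fun σ : Equiv.Perm ↥U => ((σ ⟨u, hu⟩ : ↥U) : S)) h
    simpa [theta_apply] using h1
  · intro h
    ext u
    simp [theta_apply, h u u.2]

/-- fixed point congruence for a `p`-group normalizing `U` -/
theorem card_modEq_fix [Finite S] (U : Subgroup S) (p : ℕ) [Fact p.Prime] (P : Subgroup S)
    (hP : IsPGroup p ↥P) (hN : P ≤ Subgroup.normalizer (U : Set S)) :
    Nat.card ↥U ≡ Nat.card ↥(U ⊓ Subgroup.centralizer (P : Set S)) [MOD p] := by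
  let _ : MulAction ↥P ↥U := MulAction.compHom ↥U ((theta U).comp (Subgroup.inclusion hN))
  have h1 := hP.card_modEq_card_fixedPoints (↥U)
  have h2 : Nat.card ↥(MulAction.fixedPoints ↥P ↥U) =
      Nat.card ↥(U ⊓ Subgroup.centralizer (P : Set S)) := by
    refine Nat.card_congr
      { toFun := fun u => ⟨(u.1 : S), u.1.2, ?_⟩
        invFun := fun v => ⟨⟨(v : S), v.2.1⟩, ?_⟩
        left_inv := fun _ => rfl
        right_inv := fun _ => rfl }
    · change (u.1 : S) ∈ Subgroup.centralizer (P : Set S)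
      rw [Subgroup.mem_centralizer_iff]
      intro g hg
      have h3 := congrArg (fun w : ↥U => (w : S)) (u.2 ⟨g, hg⟩)
      change g * (u.1 : S) * g⁻¹ = (u.1 : S) at h3
      exact mul_inv_eq_iff_eq_mul.mp h3
    · intro g
      apply Subtype.ext
      change (g : S) * (v : S) * (g : S)⁻¹ = (v : S)
      have h3 := Subgroup.mem_centralizer_iff.mp v.2.2 g g.2
      rw [h3, mul_inv_cancel_right]
  rw [h2] at h1
  exact h1

theorem arith (p a b : ℕ) (hp : p.Prime) (h2 : p ≠ 2) (h3 : p ≠ 3) (h7 : p ≠ 7) (hb : b ∣ a)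
    (ha : a ∣ 16) (hmod : a ≡ b [MOD p]) : a = b ∨ (p = 5 ∧ a = 16 ∧ b = 1) := by
  obtain ⟨t, rfl⟩ := hb
  have hb16 : b ∣ 16 := (Dvd.intro t rfl).trans ha
  have ht16 : t ∣ 16 := (Dvd.intro_left b rfl).trans ha
  have hbpos : 0 < b := Nat.pos_of_dvd_of_pos hb16 (by norm_num)
  have htpos : 0 < t := Nat.pos_of_dvd_of_pos ht16 (by norm_num)
  have hpb : ¬ p ∣ b := by
    intro h
    have h16 : p ∣ 2 ^ 4 := by simpa using h.trans hb16
    exact h2 ((Nat.prime_dvd_prime_iff_eq hp Nat.prime_two).mp (hp.dvd_of_dvd_pow h16))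
  have hdvd : p ∣ b * t - b :=
    (Nat.modEq_iff_dvd' (Nat.le_mul_of_pos_right b htpos)).mp hmod.symm
  have hdvd' : p ∣ t - 1 := by
    have h : b * t - b = b * (t - 1) := by rw [Nat.mul_sub, mul_one]
    rw [h] at hdvd
    exact (hp.dvd_mul.mp hdvd).resolve_left hpb
  have ht : t ∈ Nat.divisors 16 := Nat.mem_divisors.mpr ⟨ht16, by norm_num⟩
  have hdiv : Nat.divisors 16 = {1, 2, 4, 8, 16} := by decide
  rw [hdiv] at ht
  simp only [Finset.mem_insert, Finset.mem_singleton] at ht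
  rcases ht with rfl | rfl | rfl | rfl | rfl
  · left; rw [mul_one]
  · exfalso; exact hp.one_lt.ne' (Nat.dvd_one.mp (by simpa using hdvd'))
  · exfalso; exact h3 ((Nat.prime_dvd_prime_iff_eq hp Nat.prime_three).mp (by simpa using hdvd'))
  · exfalso
    exact h7 ((Nat.prime_dvd_prime_iff_eq hp (by norm_num : Nat.Prime 7)).mp (by simpa using hdvd'))
  · right
    have h15 : p ∣ 3 * 5 := by simpa using hdvd'
    have hb1 : b = 1 := by
      have : b * 16 ∣ 1 * 16 := by simpa using ha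
      exact Nat.dvd_one.mp (Nat.dvd_of_mul_dvd_mul_right (by norm_num) this)
    rcases hp.dvd_mul.mp h15 with h | h
    · exact absurd ((Nat.prime_dvd_prime_iff_eq hp Nat.prime_three).mp h) h3
    · exact ⟨(Nat.prime_dvd_prime_iff_eq hp Nat.prime_five).mp h, by rw [hb1], hb1⟩

/-- a semiregular 5-group of permutations of fewer than 25 points, and an element of order
dividing 3 normalizing a non-trivial element of it -/
theorem g5 {α : Type u} [Finite α] (hα : Nat.card α < 25) (Pb : Subgroup (Equiv.Perm α))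
    (hPb : IsPGroup 5 ↥Pb) (a : α) (hsemi : ∀ g ∈ Pb, g a = a → g = 1)
    (γ τ : Equiv.Perm α) (hγ : γ ∈ Pb) (hτ3 : τ ^ 3 = 1) (hconj : τ * γ * τ⁻¹ ∈ Pb)
    (hprod : (γ * τ) ^ 3 = 1) : γ = 1 := by
  have : Fact (Nat.Prime 5) := ⟨Nat.prime_five⟩
  by_contra hγ1
  -- `#Pb ≤ #α`
  have hinj : Function.Injective (fun g : ↥Pb => (g : Equiv.Perm α) a) := by
    intro g h hgh
    have h1 : ((h : Equiv.Perm α)⁻¹ * (g : Equiv.Perm α)) a = a := by
      change (h : Equiv.Perm α)⁻¹ ((g : Equiv.Perm α) a) = a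
      rw [show (g : Equiv.Perm α) a = (h : Equiv.Perm α) a from hgh]
      simp
    have h2 := hsemi _ (Pb.mul_mem (Pb.inv_mem h.2) g.2) h1
    exact Subtype.ext (inv_mul_eq_one.mp h2).symm
  have hle : Nat.card ↥Pb ≤ Nat.card α := Nat.card_le_card_of_injective _ hinj
  obtain ⟨n, hn⟩ := IsPGroup.iff_card.mp hPb
  have hn1 : n < 2 := by
    by_contra h
    have h25 : 5 ^ 2 ≤ 5 ^ n := Nat.pow_le_pow_right (by norm_num) (by omega)
    omega
  have hcard : Nat.card ↥Pb = 5 := by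
    interval_cases n
    · exfalso
      have hsub : Subsingleton ↥Pb := (Nat.card_eq_one_iff_unique.mp (by simpa using hn)).1
      have := congrArg (fun g : ↥Pb => (g : Equiv.Perm α)) (Subsingleton.elim (⟨γ, hγ⟩ : ↥Pb) 1)
      exact hγ1 this
    · simpa using hn
  -- `γ` has order 5 and generates `Pb`
  have hγ5 : γ ^ 5 = 1 := by
    have h := pow_card_eq_one' (G := ↥Pb) (x := ⟨γ, hγ⟩)
    rw [hcard] at h
    exact congrArg (fun g : ↥Pb => (g : Equiv.Perm α)) h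
  have hord : orderOf γ = 5 := orderOf_eq_prime hγ5 hγ1
  have htop : Subgroup.zpowers (⟨γ, hγ⟩ : ↥Pb) = ⊤ :=
    zpowers_eq_top_of_prime_card hcard (fun h => hγ1 (congrArg (fun g : ↥Pb => (g : Equiv.Perm α)) h))
  have hmem : (⟨τ * γ * τ⁻¹, hconj⟩ : ↥Pb) ∈ Subgroup.zpowers (⟨γ, hγ⟩ : ↥Pb) := by
    rw [htop]; exact Subgroup.mem_top _
  rw [← mem_powers_iff_mem_zpowers] at hmem
  obtain ⟨k, hk⟩ := hmem
  have hk' : γ ^ k = τ * γ * τ⁻¹ := congrArg (fun g : ↥Pb => (g : Equiv.Perm α)) hk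
  -- iterate
  have h2 : τ * (τ * γ * τ⁻¹) * τ⁻¹ = (γ ^ k) ^ k := by
    rw [← hk', ← conj_pow, ← hk']
  have h3 : τ * (τ * (τ * γ * τ⁻¹) * τ⁻¹) * τ⁻¹ = ((γ ^ k) ^ k) ^ k := by
    rw [h2, ← conj_pow, ← conj_pow, ← hk']
  have h4 : τ * (τ * (τ * γ * τ⁻¹) * τ⁻¹) * τ⁻¹ = τ ^ 3 * γ * (τ ^ 3)⁻¹ := by
    simp only [pow_succ, pow_zero, one_mul, mul_inv_rev, mul_assoc]
  rw [h4, hτ3, one_mul, inv_one, mul_one, ← pow_mul, ← pow_mul] at h3
  have h5 : γ ^ 1 = γ ^ (k * (k * k)) := by rw [pow_one]; exact h3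
  rw [pow_eq_pow_iff_modEq, hord] at h5
  -- reduce `k` mod 5
  have hk5 : γ ^ k = γ ^ (k % 5) := by
    rw [← hord]; exact (pow_mod_orderOf γ k).symm
  have hkmod : k % 5 = 1 := by
    have hm : k % 5 ≡ k [MOD 5] := Nat.mod_modEq k 5
    have h7 : 1 ≡ (k % 5) * ((k % 5) * (k % 5)) [MOD 5] := h5.trans ((hm.mul (hm.mul hm)).symm)
    have hlt : k % 5 < 5 := Nat.mod_lt _ (by norm_num)
    generalize k % 5 = r at h7 hlt
    interval_cases r <;> first | rfl | (exfalso; simp [Nat.ModEq] at h7)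
  rw [hk5, hkmod, pow_one] at hk'
  -- `τ` and `γ` commute
  have hcomm : Commute γ τ := by
    have h8 : γ * τ = τ * γ := by
      calc γ * τ = (τ * γ * τ⁻¹) * τ := by rw [← hk']
        _ = τ * γ := inv_mul_cancel_right _ _
    exact h8
  rw [hcomm.mul_pow, hτ3, mul_one] at hprod
  have hd3 : orderOf γ ∣ 3 := orderOf_dvd_of_pow_eq_one hprod
  rw [hord] at hd3
  omega

/-- if `[M, g] ≤ U ≤ M` then `g` normalizes `U` -/
theorem mem_normalizer_of_comm (M U : Subgroup S) [M.Normal] (hUM : U ≤ M) (g : S)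
    (hg : ∀ m ∈ M, g * m * g⁻¹ * m⁻¹ ∈ U) : g ∈ Subgroup.normalizer (U : Set S) := by
  rw [Subgroup.mem_normalizer_iff]
  intro h
  constructor
  · intro hh
    have h1 : g * h * g⁻¹ = (g * h * g⁻¹ * h⁻¹) * h := by group
    rw [h1]
    exact U.mul_mem (hg h (hUM hh)) hh
  · intro hk
    have hhM : h ∈ M := by
      have h1 := (inferInstance : M.Normal).conj_mem _ (hUM hk) g⁻¹
      have h2 : g⁻¹ * (g * h * g⁻¹) * g⁻¹⁻¹ = h := by group
      rwa [h2] at h1
    have h3 := hg h hhM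
    have h4 : h = (g * h * g⁻¹ * h⁻¹)⁻¹ * (g * h * g⁻¹) := by group
    rw [h4]
    exact U.mul_mem (U.inv_mem h3) hk

/-- the core: `c` centralizes `U` -/
theorem core [Finite S] (U : Subgroup S) (hUcard : Nat.card ↥U ∣ 16)
    (p : ℕ) (hp : p.Prime) (h2 : p ≠ 2) (h3 : p ≠ 3) (h7 : p ≠ 7) (Y : Subgroup S)
    (hY : IsPGroup p ↥Y) (x c : S)
    (hx3 : ∀ u ∈ U, x ^ 3 * u * (x ^ 3)⁻¹ = u)
    (hxU : x ∈ Subgroup.normalizer (U : Set S)) (hcU : c ∈ Subgroup.normalizer (U : Set S))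
    (hcY : c ∈ Y) (hxcY : x * c * x⁻¹ ∈ Y)
    (hcx3 : ∀ u ∈ U, (c * x) ^ 3 * u * ((c * x) ^ 3)⁻¹ = u) :
    ∀ u ∈ U, c * u * c⁻¹ = u := by
  have : Fact p.Prime := ⟨hp⟩
  -- a `p`-subgroup `Z ≤ N(U)` centralizes `U`, or `p = 5`, `#U = 16`, no fixed points
  have dich : ∀ Z : Subgroup S, IsPGroup p ↥Z → Z ≤ Subgroup.normalizer (U : Set S) →
      U ≤ Subgroup.centralizer (Z : Set S) ∨
        (p = 5 ∧ Nat.card ↥U = 16 ∧ Nat.card ↥(U ⊓ Subgroup.centralizer (Z : Set S)) = 1) := by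
    intro Z hZ hZN
    have hmod := card_modEq_fix U p Z hZ hZN
    have hdvd : Nat.card ↥(U ⊓ Subgroup.centralizer (Z : Set S)) ∣ Nat.card ↥U :=
      Subgroup.card_dvd_of_le inf_le_left
    rcases arith p _ _ hp h2 h3 h7 hdvd hUcard hmod with heq | h
    · left
      have h1 : U ⊓ Subgroup.centralizer (Z : Set S) = U :=
        Subgroup.eq_of_le_of_card_ge inf_le_left (le_of_eq heq)
      exact inf_eq_left.mp h1
    · right; exact h
  have hZ : IsPGroup p ↥(Subgroup.zpowers c) := hY.to_le (Subgroup.zpowers_le.mpr hcY)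
  have hZN : Subgroup.zpowers c ≤ Subgroup.normalizer (U : Set S) := Subgroup.zpowers_le.mpr hcU
  rcases dich _ hZ hZN with hle | ⟨rfl, h16, -⟩
  · intro u hu
    have h1 := Subgroup.mem_centralizer_iff.mp (hle hu) c (Subgroup.mem_zpowers c)
    rw [h1, mul_inv_cancel_right]
  · -- `p = 5`, `#U = 16`
    have hne : ∃ u ∈ U, u ≠ 1 := by
      by_contra hcon
      have hcon : ∀ u ∈ U, u = 1 := fun u hu => by
        by_contra h1
        exact hcon ⟨u, hu, h1⟩
      have hbot : U = ⊥ := (Subgroup.eq_bot_iff_forall U).mpr hcon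
      rw [hbot] at h16
      simp at h16
    obtain ⟨u, hu, hu1⟩ := hne
    let N := Subgroup.normalizer (U : Set S)
    let Pb : Subgroup (Equiv.Perm ↥U) := (Y.subgroupOf N).map (theta U)
    have hPb : IsPGroup 5 ↥Pb := (hY.comap_subtype).map (theta U)
    have hsemi : ∀ g ∈ Pb, g ⟨u, hu⟩ = ⟨u, hu⟩ → g = 1 := by
      rintro g ⟨n, hn, rfl⟩ hfix
      have hnY : (n : S) ∈ Y := Subgroup.mem_subgroupOf.mp hn
      have hfix' : (n : S) * u * (n : S)⁻¹ = u := congrArg (fun w : ↥U => (w : S)) hfix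
      have hZ' : IsPGroup 5 ↥(Subgroup.zpowers (n : S)) := hY.to_le (Subgroup.zpowers_le.mpr hnY)
      have hZN' : Subgroup.zpowers (n : S) ≤ Subgroup.normalizer (U : Set S) :=
        Subgroup.zpowers_le.mpr n.2
      have hcen : Subgroup.zpowers (n : S) ≤ Subgroup.centralizer ({u} : Set S) := by
        refine Subgroup.zpowers_le.mpr ?_
        rw [Subgroup.mem_centralizer_iff]
        intro h hh
        rw [Set.mem_singleton_iff] at hh
        rw [hh]
        exact (mul_inv_eq_iff_eq_mul.mp hfix').symm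
      have huF : u ∈ U ⊓ Subgroup.centralizer ((Subgroup.zpowers (n : S) : Subgroup S) : Set S) :=
        Subgroup.mem_inf.mpr ⟨hu, Subgroup.mem_centralizer_iff.mpr (fun z hz =>
          (Subgroup.mem_centralizer_iff.mp (hcen hz) u (Set.mem_singleton u)).symm)⟩
      rcases dich _ hZ' hZN' with hle | ⟨-, -, hF1⟩
      · rw [theta_eq_one_iff]
        intro v hv
        have h1 := Subgroup.mem_centralizer_iff.mp (hle hv) (n : S) (Subgroup.mem_zpowers _)
        rw [h1, mul_inv_cancel_right]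
      · exfalso
        have hbot := (Subgroup.eq_bot_iff_card _).mpr hF1
        rw [hbot, Subgroup.mem_bot] at huF
        exact hu1 huF
    have hγ : theta U ⟨c, hcU⟩ ∈ Pb :=
      Subgroup.mem_map_of_mem _ (Subgroup.mem_subgroupOf.mpr hcY)
    have hτ3 : (theta U ⟨x, hxU⟩) ^ 3 = 1 := by
      rw [← map_pow, theta_eq_one_iff]
      intro v hv
      exact hx3 v hv
    have hconj : theta U ⟨x, hxU⟩ * theta U ⟨c, hcU⟩ * (theta U ⟨x, hxU⟩)⁻¹ ∈ Pb := by
      rw [← map_inv, ← map_mul, ← map_mul]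
      exact Subgroup.mem_map_of_mem _ (Subgroup.mem_subgroupOf.mpr hxcY)
    have hprod : (theta U ⟨c, hcU⟩ * theta U ⟨x, hxU⟩) ^ 3 = 1 := by
      rw [← map_mul, ← map_pow, theta_eq_one_iff]
      intro v hv
      exact hcx3 v hv
    have hα : Nat.card ↥U < 25 := by rw [h16]; norm_num
    have hfin := g5 hα Pb hPb ⟨u, hu⟩ hsemi _ _ hγ hτ3 hconj hprod
    exact (theta_eq_one_iff U ⟨c, hcU⟩).mp hfin

/-- an element of odd order centralizing `U` and `M / U` centralizes `M` -/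
theorem cent_M (M U : Subgroup S) (hM : IsElementaryAbelian 2 M) (hUM : U ≤ M) (c : S)
    (hodd : Odd (orderOf c)) (hcU : ∀ u ∈ U, c * u * c⁻¹ = u)
    (hcM : ∀ m ∈ M, c * m * c⁻¹ * m⁻¹ ∈ U) : ∀ m ∈ M, c * m * c⁻¹ = m := by
  intro m hm
  have hvU : c * m * c⁻¹ * m⁻¹ ∈ U := hcM m hm
  generalize hv : c * m * c⁻¹ * m⁻¹ = v at hvU
  have hcm : c * m * c⁻¹ = v * m := by rw [← hv]; group
  have key : ∀ j : ℕ, c ^ j * m * (c ^ j)⁻¹ = v ^ j * m := by
    intro j
    induction j with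
    | zero => simp
    | succ j ih =>
      have h1 : c ^ (j + 1) * m * (c ^ (j + 1))⁻¹ = c * (c ^ j * m * (c ^ j)⁻¹) * c⁻¹ := by
        rw [pow_succ']; group
      have h2 : c * (v ^ j * m) * c⁻¹ = (c * v ^ j * c⁻¹) * (c * m * c⁻¹) := by group
      rw [h1, ih, h2, hcU _ (U.pow_mem hvU j), hcm, pow_succ, mul_assoc]
  have h3 := key (orderOf c)
  rw [pow_orderOf_eq_one, one_mul, inv_one, mul_one] at h3
  have h4 : v ^ orderOf c = 1 := by
    have h5 : v ^ orderOf c * m = 1 * m := by rw [one_mul]; exact h3.symm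
    exact mul_right_cancel h5
  obtain ⟨t, ht⟩ := hodd
  have hv2 : v ^ 2 = 1 := hM.2 v (hUM hvU)
  have hv1 : v = 1 := by
    rw [ht, pow_succ, pow_mul, hv2, one_pow, one_mul] at h4
    exact h4
  rw [hcm, hv1, one_mul]

/-- an element of `p`-power order (`p ≥ 5`) normalizing a group of order 4 centralizes it -/
theorem cent_of_norm [Finite S] (W : Subgroup S) (hW : Nat.card ↥W = 4) (p : ℕ) (hp : p.Prime)
    (h2 : p ≠ 2) (h3 : p ≠ 3) (y : S) (hy : y ∈ Subgroup.normalizer (W : Set S))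
    (hyp : ∃ k : ℕ, y ^ p ^ k = 1) : ∀ w ∈ W, y * w * y⁻¹ = w := by
  obtain ⟨k, hk⟩ := hyp
  have h1 : (theta W ⟨y, hy⟩) ^ p ^ k = 1 := by
    rw [← map_pow]
    have : (⟨y, hy⟩ : ↥(Subgroup.normalizer (W : Set S))) ^ p ^ k = 1 := Subtype.ext hk
    rw [this, map_one]
  have h24 : (theta W ⟨y, hy⟩) ^ 24 = 1 := by
    have h := pow_card_eq_one' (G := Equiv.Perm ↥W) (x := theta W ⟨y, hy⟩)
    rw [Nat.card_perm, hW] at h
    exact h
  have hcop : Nat.Coprime (p ^ k) 24 := by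
    apply Nat.Coprime.pow_left
    rw [Nat.Prime.coprime_iff_not_dvd hp]
    intro hd
    have hd' : p ∣ 2 ^ 3 * 3 := by simpa using hd
    rcases hp.dvd_mul.mp hd' with h | h
    · exact h2 ((Nat.prime_dvd_prime_iff_eq hp Nat.prime_two).mp (hp.dvd_of_dvd_pow h))
    · exact h3 ((Nat.prime_dvd_prime_iff_eq hp Nat.prime_three).mp h)
  have hd : orderOf (theta W ⟨y, hy⟩) ∣ Nat.gcd (p ^ k) 24 :=
    Nat.dvd_gcd (orderOf_dvd_of_pow_eq_one h1) (orderOf_dvd_of_pow_eq_one h24)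
  rw [hcop.gcd_eq_one, Nat.dvd_one, orderOf_eq_one_iff] at hd
  exact (theta_eq_one_iff W ⟨y, hy⟩).mp hd

open scoped Pointwise in
theorem main (hCop : Cop.{u}) (hC : Conj.{u}) (hE : ReflEq.{u}) : PW5.{u} := by
  intro S _ _ M _ hM p hp h2 h3 h7 Y Q hY hQ x W hxQ hR hxY
  intro y hy
  have hR' : IsRefl M (y * x * y⁻¹) (W.map (MulAut.conj y).toMonoidHom) := hC S M x W y hR
  obtain ⟨W', hW'⟩ : ∃ W', W' = W.map (MulAut.conj y).toMonoidHom := ⟨_, rfl⟩
  rw [← hW'] at hR'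
  obtain ⟨x', hx'⟩ : ∃ x', x' = y * x * y⁻¹ := ⟨_, rfl⟩
  rw [← hx'] at hR'
  have hcY : x' * x⁻¹ ∈ Y := by
    have h : x' * x⁻¹ = y * (x * y⁻¹ * x⁻¹) := by rw [hx']; group
    rw [h]; exact Y.mul_mem hy (hxY _ (Y.inv_mem hy))
  obtain ⟨c, hc⟩ : ∃ c, c = x' * x⁻¹ := ⟨_, rfl⟩
  rw [← hc] at hcY
  have hcx : c * x = x' := by rw [hc]; group
  have hUM : W ⊔ W' ≤ M := sup_le hR.le hR'.le
  have hcommM : ∀ a ∈ M, ∀ b ∈ M, a * b = b * a := by
    intro a ha b hb
    have h := hM.1.is_comm.comm (⟨a, ha⟩ : ↥M) ⟨b, hb⟩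
    exact congrArg (fun g : ↥M => (g : S)) h
  -- `#U` divides 16
  have hUcard : Nat.card ↥(W ⊔ W') ∣ 16 := by
    have h2g : IsPGroup 2 ↥(W ⊔ W') := fun g => ⟨1, by
      apply Subtype.ext
      have := hM.2 (g : S) (hUM g.2)
      simpa using this⟩
    obtain ⟨k, hk⟩ := (IsPGroup.iff_card (p := 2)).mp h2g
    have hle : Nat.card ↥(W ⊔ W') ≤ 16 := by
      have hn : W' ≤ Subgroup.normalizer (W : Set S) := by
        refine le_trans ?_ (Subgroup.centralizer_le_normalizer _)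
        intro w' hw'
        exact Subgroup.mem_centralizer_iff.mpr (fun w hw => hcommM w (hR.le hw) w' (hR'.le hw'))
      have h1 : ((W ⊔ W' : Subgroup S) : Set S) = (W : Set S) * (W' : Set S) :=
        Subgroup.coe_mul_of_right_le_normalizer_left W W' hn
      calc Nat.card ↥(W ⊔ W') = Nat.card ((W ⊔ W' : Subgroup S) : Set S) := rfl
        _ = Nat.card ((W : Set S) * (W' : Set S) : Set S) := by rw [h1]
        _ ≤ Nat.card (W : Set S) * Nat.card (W' : Set S) := Set.natCard_mul_le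
        _ = 4 * 4 := by
          rw [show Nat.card (W : Set S) = Nat.card ↥W from rfl,
            show Nat.card (W' : Set S) = Nat.card ↥W' from rfl, hR.card, hR'.card]
        _ = 16 := by norm_num
    rw [hk] at hle ⊢
    have hk4 : k ≤ 4 := by
      by_contra h
      have : 2 ^ 5 ≤ 2 ^ k := Nat.pow_le_pow_right (by norm_num) (by omega)
      omega
    exact (Nat.pow_dvd_pow 2 hk4 : 2 ^ k ∣ 2 ^ 4)
  -- commutators
  have hxcomm : ∀ m ∈ M, x * m * x⁻¹ * m⁻¹ ∈ W ⊔ W' :=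
    fun m hm => (le_sup_left : W ≤ W ⊔ W') (hR.comm m hm)
  have hx'comm : ∀ m ∈ M, x' * m * x'⁻¹ * m⁻¹ ∈ W ⊔ W' :=
    fun m hm => (le_sup_right : W' ≤ W ⊔ W') (hR'.comm m hm)
  have hxU := mem_normalizer_of_comm M (W ⊔ W') hUM x hxcomm
  have hx'U := mem_normalizer_of_comm M (W ⊔ W') hUM x' hx'comm
  have hcU : c ∈ Subgroup.normalizer ((W ⊔ W' : Subgroup S) : Set S) := by
    rw [hc]; exact Subgroup.mul_mem _ hx'U (Subgroup.inv_mem _ hxU)
  have hccomm : ∀ m ∈ M, c * m * c⁻¹ * m⁻¹ ∈ W ⊔ W' := by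
    intro m hm
    have hm' : x⁻¹ * m * x ∈ M := by
      have h1 := (inferInstance : M.Normal).conj_mem m hm x⁻¹
      simpa using h1
    have h1 := hxcomm _ hm'
    have h2' := hx'comm _ hm'
    have h3' : c * m * c⁻¹ * m⁻¹ = (x' * (x⁻¹ * m * x) * x'⁻¹ * (x⁻¹ * m * x)⁻¹) *
        (x * (x⁻¹ * m * x) * x⁻¹ * (x⁻¹ * m * x)⁻¹)⁻¹ := by
      rw [hc]; group
    rw [h3']
    exact Subgroup.mul_mem _ h2' (Subgroup.inv_mem _ h1)
  -- cube conditions
  have hx3 : ∀ u ∈ W ⊔ W', x ^ 3 * u * (x ^ 3)⁻¹ = u := by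
    intro u hu
    have h1 := Subgroup.mem_centralizer_iff.mp hR.cube u (hUM hu)
    rw [← h1, mul_inv_cancel_right]
  have hcx3 : ∀ u ∈ W ⊔ W', (c * x) ^ 3 * u * ((c * x) ^ 3)⁻¹ = u := by
    intro u hu
    rw [hcx]
    have h1 := Subgroup.mem_centralizer_iff.mp hR'.cube u (hUM hu)
    rw [← h1, mul_inv_cancel_right]
  have hxcY : x * c * x⁻¹ ∈ Y := hxY c hcY
  have hcent := core (W ⊔ W') hUcard p hp h2 h3 h7 Y hY x c hx3 hxU hcU hcY hxcY hcx3
  -- `c` has odd order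
  have hodd : Odd (orderOf c) := by
    obtain ⟨k, hk⟩ := hY ⟨c, hcY⟩
    have hk' : c ^ p ^ k = 1 := congrArg (fun g : ↥Y => (g : S)) hk
    obtain ⟨j, -, hj⟩ := (Nat.dvd_prime_pow hp).mp (orderOf_dvd_of_pow_eq_one hk')
    rw [hj]
    exact (hp.odd_of_ne_two h2).pow
  have hcM := cent_M M (W ⊔ W') hM hUM c hodd hcent hccomm
  -- `x'` acts on `M` like `x`
  have hsame : ∀ m ∈ M, x * m * x⁻¹ = x' * m * x'⁻¹ := by
    intro m hm
    have hm' : x * m * x⁻¹ ∈ M := (inferInstance : M.Normal).conj_mem m hm x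
    have h1 := hcM _ hm'
    calc x * m * x⁻¹ = c * (x * m * x⁻¹) * c⁻¹ := h1.symm
      _ = (c * x) * m * (c * x)⁻¹ := by group
      _ = x' * m * x'⁻¹ := by rw [hcx]
  have hWW : W = W' := hE S M hM x x' W W' hR hR' hsame
  -- `y` normalizes `W`
  have hyN : y ∈ Subgroup.normalizer (W : Set S) := by
    rw [Subgroup.mem_normalizer_iff_map_conj_eq]
    rw [hW'] at hWW
    exact hWW.symm
  have hyp : ∃ k : ℕ, y ^ p ^ k = 1 := by
    obtain ⟨k, hk⟩ := hY ⟨y, hy⟩
    exact ⟨k, congrArg (fun g : ↥Y => (g : S)) hk⟩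
  have hfin := cent_of_norm W hR.card p hp h2 h3 y hyN hyp
  rw [Subgroup.mem_centralizer_iff]
  intro w hw
  exact (mul_inv_eq_iff_eq_mul.mp (hfin w hw)).symm

end Cfsg.Agent.Lib.Helper10.TLPW5
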